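import Cfsg.Agent.H7.PairGen

/-!
Cyclic Sylow subgroups and pairs of elements of order `p`: the block-theoretic computation.
-/

set_option autoImplicit false
set_option linter.style.haveILetI false

open Cfsg Subgroup
open scoped Pointwise ComplexConjugate

namespace Cfsg.Agent.H7

open Cfsg.Agent.H4

variable {p : ℕ} [hp : Fact p.Prime] {G : Type*} [Group G]

/-- powers indexed by residues -/
def pw (x : G) (a : ZMod p) : G := x ^ a.val

theorem pw_natCast {x : G} (hx : x ^ p = 1) (n : ℕ) : pw x (n : ZMod p) = x ^ n := by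
  rw [pw, ZMod.val_natCast, ← pow_eq_pow_mod _ hx]

theorem pw_add {x : G} (hx : x ^ p = 1) (a b : ZMod p) : pw x (a + b) = pw x a * pw x b := by
  rw [pw, ZMod.val_add, ← pow_eq_pow_mod _ hx, pow_add, pw, pw]

theorem pw_zero (x : G) : pw x (0 : ZMod p) = 1 := by rw [pw, ZMod.val_zero, pow_zero]

theorem pw_sub {x : G} (hx : x ^ p = 1) (a b : ZMod p) : pw x (a - b) = pw x a * (pw x b)⁻¹ := by
  rw [eq_mul_inv_iff_mul_eq, ← pw_add hx, sub_add_cancel]

theorem pw_sub' {x : G} (hx : x ^ p = 1) (a b : ZMod p) : pw x (a - b) = (pw x b)⁻¹ * pw x a := by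
  rw [eq_inv_mul_iff_mul_eq, ← pw_add hx, add_sub_cancel]

theorem pw_pow {x : G} (hx : x ^ p = 1) (k : ℕ) (a : ZMod p) : pw (x ^ k) a = pw x ((k : ZMod p) * a) := by
  conv_rhs => rw [← ZMod.natCast_zmod_val a, ← Nat.cast_mul, pw_natCast hx]
  rw [pw, pow_mul]

theorem pw_conj (g x : G) (a : ZMod p) : pw (g * x * g⁻¹) a = g * pw x a * g⁻¹ := by
  rw [pw, conj_pow, pw]

theorem orderOf_pw {x : G} (hx : orderOf x = p) {a : ZMod p} (ha : a ≠ 0) :
    orderOf (pw x a) = p := by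
  rw [pw, Nat.Coprime.orderOf_pow, hx]
  rw [hx, Nat.Prime.coprime_iff_not_dvd hp.out]
  exact Nat.not_dvd_of_pos_of_lt (ZMod.val_pos.2 ha) (ZMod.val_lt a)

theorem re_diag_nonneg [Fintype G] {χ : G → ℂ} (hχ : IsIrrCharacter G χ) {x y : G}
    (hx : x ^ p = 1) (hy : y ^ p = 1) :
    0 ≤ (p * ∑ a : ZMod p, χ (pw x a * pw y a) -
      ∑ a : ZMod p, ∑ b : ZMod p, χ (pw x a * pw y b)).re := by
  classical
  let c : ZMod p × ZMod p → ℝ := fun s => p * (if s.1 = s.2 then 1 else 0) - 1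
  have h1 := re_sum_nonneg hχ Finset.univ c fun s => pw x s.1 * pw y s.2
  have h2 : ∀ s t : ZMod p × ZMod p, χ ((pw x s.1 * pw y s.2)⁻¹ * (pw x (s + t).1 * pw y (s + t).2)) =
      χ (pw x t.1 * pw y t.2) := fun s t => by
    rw [Prod.fst_add, Prod.snd_add, pw_add hx, add_comm s.2, pw_add hy,
      ← hχ.isClassFunction _ (pw y s.2)]
    congr 1
    group
  have h3 : ∀ t : ZMod p × ZMod p, ∑ s, (c s * c (s + t) : ℂ) =
      (p : ℂ) ^ 2 * (p * (if t.1 = t.2 then 1 else 0) - 1) := fun t => by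
    have e : ∀ a b : ZMod p, (a + t.1 = b + t.2) ↔ b = a + t.1 - t.2 := fun a b => by
      rw [eq_sub_iff_add_eq, eq_comm]
    simp only [c, Fintype.sum_prod_type, Prod.fst_add, Prod.snd_add, e]
    push_cast
    simp only [apply_ite Complex.ofReal, Complex.ofReal_one, Complex.ofReal_zero, sub_mul, mul_sub,
      Finset.sum_sub_distrib, mul_ite, ite_mul, mul_one, mul_zero, zero_mul, one_mul,
      Finset.sum_ite_eq, Finset.sum_ite_eq', Finset.mem_univ, if_true, Finset.sum_const,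
      Finset.card_univ, ZMod.card, nsmul_eq_mul]
    have e2 : ∀ a : ZMod p, (a = a + t.1 - t.2) ↔ t.1 = t.2 := fun a => by
      rw [add_sub_assoc, left_eq_add, sub_eq_zero]
    simp only [e2, Finset.sum_const, Finset.card_univ, ZMod.card, nsmul_eq_mul]
    split_ifs <;> ring
  have h4 : ∑ s, ∑ t, (c s * c t : ℂ) * χ ((pw x s.1 * pw y s.2)⁻¹ * (pw x t.1 * pw y t.2)) =
      ((p : ℝ) ^ 2 : ℝ) * (p * ∑ a : ZMod p, χ (pw x a * pw y a) -
        ∑ a : ZMod p, ∑ b : ZMod p, χ (pw x a * pw y b)) := by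
    rw [Finset.sum_congr rfl fun s _ => (Equiv.sum_comp (Equiv.addLeft s) _).symm]
    simp only [Equiv.coe_addLeft, h2]
    rw [Finset.sum_comm]
    simp only [← Finset.sum_mul, h3]
    simp only [Fintype.sum_prod_type, mul_assoc, ← Finset.mul_sum, sub_mul,
      Finset.sum_sub_distrib, ite_mul, one_mul, zero_mul, Finset.sum_ite_eq, Finset.mem_univ,
      if_true]
    push_cast
    rfl
  rw [h4, Complex.re_ofReal_mul] at h1
  exact nonneg_of_mul_nonneg_right h1 (pow_pos (Nat.cast_pos.2 hp.out.pos) 2) |> fun h => h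

theorem false_of_pairs [Finite G] [IsSimpleGroup G] (hp2 : p ≠ 2) {u : G} (ou : orderOf u = p)
    (hC : ∀ x : G, orderOf x = p → HasNormalPComplement p (centralizer ({x} : Set G)))
    (hpair : ∀ h : G, ∃ k : ℕ, k.Coprime p ∧ ∀ i j : ℕ, ∃ z,
      IsPPart p (u ^ i * ((h * u * h⁻¹) ^ k) ^ j) z ∧ IsConj z (u ^ i * (u ^ j)⁻¹))
    {c₀ : ZMod p} (hc1 : c₀ ≠ 1) {g₀ : G} (hg₀ : g₀ * u * g₀⁻¹ = pw u c₀) : False := by
  classical
  haveI := Fintype.ofFinite G
  obtain ⟨M, hM⟩ := H6.exists_isPModular hp.out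
  haveI := hM.2.1
  have hup : u ^ p = 1 := by rw [← ou, pow_orderOf_eq_one]
  have hu1 : u ≠ 1 := fun e => by rw [e, orderOf_one] at ou; exact hp.out.one_lt.ne ou
  have hpw : ∀ c : ZMod p, c ≠ 0 → ∃ k, orderOf (pw u c) = p ^ k := fun c hc =>
    ⟨1, by rw [orderOf_pw ou hc, pow_one]⟩
  set B := H8.bfin (principalBlock M G) with hB
  set Z := (Finset.univ : Finset (ZMod p)).erase 0 with hZ
  have hZc : Z.card = p - 1 := by rw [hZ, Finset.card_erase_of_mem (Finset.mem_univ _),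
    Finset.card_univ, ZMod.card]
  have hp3 : (3 : ℝ) ≤ p := by
    have := hp.out.two_le
    exact_mod_cast (show 3 ≤ p by omega)
  choose f hf0 hf using fun χ : IrrCharacter G => χ.2.exists_degree
  let D : IrrCharacter G → ℝ := fun χ => ∑ c ∈ Z, ((χ : G → ℂ) (pw u c)).re
  have hD : ∀ χ : IrrCharacter G, ∑ c ∈ Z, (χ : G → ℂ) (pw u c) = D χ ∧
      ∑ c ∈ Z, conj ((χ : G → ℂ) (pw u c)) = D χ := fun χ => by
    have h1 : ∑ c ∈ Z, conj ((χ : G → ℂ) (pw u c)) = ∑ c ∈ Z, (χ : G → ℂ) (pw u c) := by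
      refine Finset.sum_equiv (Equiv.neg _) (fun c => by simp [hZ]) fun c _ => ?_
      rw [← χ.2.isCharacter.apply_inv, Equiv.neg_apply, ← zero_sub, pw_sub hup, pw_zero, one_mul]
    rw [h1, and_self]
    rw [← map_sum, Complex.conj_eq_iff_re, Complex.re_sum] at h1
    exact h1.symm
  have hE : ∀ χ : IrrCharacter G, ∑ c : ZMod p, (χ : G → ℂ) (pw u c) = f χ + D χ := fun χ => by
    rw [← Finset.add_sum_erase _ _ (Finset.mem_univ 0), pw_zero, hf, (hD χ).1]
  choose k hk hpr using hpair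
  let α : G → IrrCharacter G → ℂ := fun h χ =>
    ∑ a : ZMod p, (χ : G → ℂ) (pw u a * pw ((h * u * h⁻¹) ^ k h) a)
  have hy : ∀ h : G, (h * u * h⁻¹) ^ p = 1 := fun h => by rw [conj_pow, hup]; simp
  have hβ : ∀ h, ∀ χ ∈ B, ∑ a : ZMod p, ∑ b : ZMod p,
      (χ : G → ℂ) (pw u a * pw ((h * u * h⁻¹) ^ k h) b) = α h χ + p * D χ := fun h χ hχ => by
    have h1 : ∀ a : ZMod p, ∑ b : ZMod p, (χ : G → ℂ) (pw u a * pw ((h * u * h⁻¹) ^ k h) b) =
        (χ : G → ℂ) (pw u a * pw ((h * u * h⁻¹) ^ k h) a) + D χ := fun a => by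
      rw [← Finset.add_sum_erase _ _ (Finset.mem_univ a), ← (hD χ).1]
      congr 1
      refine Finset.sum_equiv (Equiv.subLeft a) (fun b => by simp [hZ, sub_eq_zero, eq_comm])
        fun b hb => ?_
      obtain ⟨z, hz, hzc⟩ := hpr h a.val b.val
      have hab : a - b ≠ 0 := sub_ne_zero.2 (Finset.mem_erase.1 hb).1.symm
      have e : u ^ a.val * (u ^ b.val)⁻¹ = pw u (a - b) := (pw_sub hup a b).symm
      rw [e] at hzc
      have oz : orderOf z = p := by rw [H6.orderOf_eq_of_isConj hzc, orderOf_pw ou hab]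
      obtain ⟨g, hg⟩ := isConj_iff.1 hzc
      rw [Equiv.subLeft_apply, ← hg, χ.2.isClassFunction]
      exact H6.principal_apply_of_complement hM (hC z oz) (H8.mem_bfin.1 hχ) hz
    simp only [h1, Finset.sum_add_distrib, Finset.sum_const, Finset.card_univ, ZMod.card,
      nsmul_eq_mul, α]
  have hA : ∀ χ ∈ B, ∑ h, α h χ =
      ((Nat.card G * ((f χ + D χ) ^ 2 / f χ - p * D χ) : ℝ) : ℂ) := fun χ hχ => by
    have h1 : ∀ h, α h χ = ∑ a : ZMod p, ∑ b : ZMod p,
        (χ : G → ℂ) (h * pw u b * h⁻¹ * pw u a) - p * D χ := fun h => by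
      rw [eq_sub_iff_add_eq, ← hβ h χ hχ]
      refine Finset.sum_congr rfl fun a _ => ?_
      have hk0 : ((k h : ℕ) : ZMod p) ≠ 0 := fun e =>
        (Nat.Prime.coprime_iff_not_dvd hp.out).1 (hk h).symm ((ZMod.natCast_eq_zero_iff _ _).1 e)
      refine Fintype.sum_equiv (Equiv.mulLeft₀ _ hk0) _ _ fun b => ?_
      rw [pw_pow (hy h), pw_conj, χ.2.isClassFunction.mul_comm, Equiv.mulLeft₀_apply]
    simp only [h1, Finset.sum_sub_distrib, Finset.sum_const, Finset.card_univ, nsmul_eq_mul,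
      ← Nat.card_eq_fintype_card]
    rw [Finset.sum_comm, Finset.sum_congr rfl fun a _ => Finset.sum_comm]
    simp only [χ.2.sum_conj_mul, ← Finset.sum_mul, ← Finset.sum_div, ← Finset.mul_sum, hE, hf]
    push_cast
    ring
  have hG : (0 : ℝ) < Nat.card G := Nat.cast_pos.2 Nat.card_pos
  have hpos : ∀ χ ∈ B, 0 ≤ (p - 1) * ((f χ + D χ) ^ 2 / f χ) - p ^ 2 * D χ := fun χ hχ => by
    have h1 : 0 ≤ ∑ h, (p * α h χ - (α h χ + p * D χ)).re := Finset.sum_nonneg fun h _ => by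
      have := re_diag_nonneg χ.2 hup (y := (h * u * h⁻¹) ^ k h) (by
        rw [← pow_mul, mul_comm, pow_mul, hy, one_pow])
      rwa [hβ h χ hχ] at this
    have h2 : ∑ h, (p * α h χ - (α h χ + p * D χ)) = ((Nat.card G *
        ((p - 1) * ((f χ + D χ) ^ 2 / f χ) - p ^ 2 * D χ) : ℝ) : ℂ) := by
      simp only [Finset.sum_sub_distrib, Finset.sum_add_distrib, ← Finset.mul_sum, hA χ hχ,
        Finset.sum_const, Finset.card_univ, nsmul_eq_mul, ← Nat.card_eq_fintype_card]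
      push_cast
      ring
    rw [← Complex.re_sum, h2, Complex.ofReal_re] at h1
    exact nonneg_of_mul_nonneg_right h1 hG
  have hreg : ∀ g : G, IsPPart p g 1 → ∑ χ ∈ B, (D χ : ℂ) * (χ : G → ℂ) g = 0 := fun g hg => by
    simp only [← fun χ => (hD χ).2, Finset.sum_mul]
    rw [Finset.sum_comm]
    refine Finset.sum_eq_zero fun c hc => ?_
    have hc0 := (Finset.mem_erase.1 hc).1
    rw [← H8.block_orth' hM H6.isPBlock_principal hg (H6.isPPart_self hp.out (hpw c hc0)) fun h => by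
      have := orderOf_pw ou hc0
      rw [isConj_one_right.1 h, orderOf_one] at this
      exact hp.out.one_lt.ne this]
    exact Finset.sum_congr rfl fun χ _ => mul_comm _ _
  have h1 : ∑ χ ∈ B, D χ * f χ = 0 := by
    have := hreg 1 (H6.isPPart_one hp.out (by simpa using hp.out.one_lt.ne'))
    simp only [hf] at this
    exact_mod_cast this
  have h2 : ∑ χ ∈ B, D χ * ((f χ + D χ) ^ 2 / f χ - p * D χ) = 0 := by
    have e1 : ∑ χ ∈ B, (D χ : ℂ) * ∑ h, α h χ = 0 := by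
      simp only [α, Finset.mul_sum]
      rw [Finset.sum_comm]
      refine Finset.sum_eq_zero fun h _ => ?_
      rw [Finset.sum_comm]
      refine Finset.sum_eq_zero fun a _ => hreg _ ?_
      obtain ⟨z, hz, hzc⟩ := hpr h a.val a.val
      rw [mul_inv_cancel, isConj_one_left] at hzc
      exact hzc ▸ hz
    rw [Finset.sum_congr rfl fun χ hχ => by rw [hA χ hχ]] at e1
    have e2 : ∑ χ ∈ B, D χ * (Nat.card G * ((f χ + D χ) ^ 2 / f χ - p * D χ)) = 0 := by
      exact_mod_cast e1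
    simp only [mul_left_comm _ (Nat.card G : ℝ), ← Finset.mul_sum] at e2
    exact (mul_eq_zero.1 e2).resolve_left hG.ne'
  have h3 : 2 * p * (p - 1) ≤ ∑ χ ∈ B, D χ ^ 2 := by
    let W : ZMod p → ZMod p → ℂ := fun c d =>
      ∑ χ ∈ B, (χ : G → ℂ) (pw u d) * conj ((χ : G → ℂ) (pw u c))
    have hW : ∀ c ∈ Z, ∀ d, IsConj (pw u c) (pw u d) → (p : ℝ) ≤ (W c d).re := fun c hc d h => by
      have hc0 := (Finset.mem_erase.1 hc).1
      have e := H6.principal_column_of_complement hM (hpw c hc0) (hC _ (orderOf_pw ou hc0))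
      rw [H8.sum_eq_sum_bfin (principalBlock M G) _ (fun χ hχ => if_neg hχ),
        Finset.sum_congr rfl fun χ hχ => if_pos (H8.mem_bfin.1 hχ)] at e
      obtain ⟨g, hg⟩ := isConj_iff.1 h
      simp only [W, ← hg, fun χ : IrrCharacter G => χ.2.isClassFunction (pw u c) g]
      rw [e, Complex.natCast_re, Nat.cast_le]
      refine Nat.le_self_pow (Nat.Prime.factorization_pos_of_dvd hp.out Nat.card_pos.ne' ?_).ne' p
      conv_lhs => rw [← orderOf_pw ou hc0]
      exact orderOf_dvd_natCard _ (mem_centralizer_singleton_iff.2 rfl)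
    have hW0 : ∀ c ∈ Z, ∀ d ∈ Z, 0 ≤ (W c d).re := fun c hc d hd => by
      by_cases h : IsConj (pw u c) (pw u d)
      · exact (Nat.cast_nonneg _).trans (hW c hc d h)
      · simp only [W]
        rw [H8.block_orth' hM H6.isPBlock_principal
          (H6.isPPart_self hp.out (hpw d (Finset.mem_erase.1 hd).1))
          (H6.isPPart_self hp.out (hpw c (Finset.mem_erase.1 hc).1)) fun h' => h h'.symm]
        simp
    have hc0 : c₀ ≠ 0 := fun e => hu1 (by rwa [e, pw_zero, conj_eq_one_iff] at hg₀)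
    have e1 : ((∑ χ ∈ B, D χ ^ 2 : ℝ) : ℂ) = ∑ c ∈ Z, ∑ d ∈ Z, W c d := by
      simp only [W]
      rw [Finset.sum_congr rfl fun c _ => Finset.sum_comm, Finset.sum_comm]
      push_cast
      refine Finset.sum_congr rfl fun χ _ => ?_
      simp only [← Finset.sum_mul, ← Finset.mul_sum, (hD χ).1, (hD χ).2, pow_two]
    have e2 : ∑ χ ∈ B, D χ ^ 2 = ∑ c ∈ Z, ∑ d ∈ Z, (W c d).re := by
      simp only [← Complex.re_sum, ← e1, Complex.ofReal_re]
    have e3 : ∀ c ∈ Z, (2 * p : ℝ) ≤ ∑ d ∈ Z, (W c d).re := fun c hc => by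
      have hcz := (Finset.mem_erase.1 hc).1
      have hne : c ≠ c₀ * c := fun e => hc1 (by
        rw [eq_comm, mul_eq_right₀ hcz] at e; exact e)
      have e4 := Finset.sum_le_sum_of_subset_of_nonneg (f := fun d => (W c d).re)
        (show ({c, c₀ * c} : Finset _) ⊆ Z by
          intro x hx
          simp only [Finset.mem_insert, Finset.mem_singleton] at hx
          rcases hx with rfl | rfl
          · exact hc
          · exact Finset.mem_erase.2 ⟨mul_ne_zero hc0 hcz, Finset.mem_univ _⟩)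
        fun d hd _ => hW0 c hc d hd
      rw [Finset.sum_pair hne] at e4
      have e5 := hW c hc c (IsConj.refl _)
      have e6 := hW c hc (c₀ * c) (isConj_iff.2 ⟨g₀, by
        rw [← pw_conj, hg₀]
        exact (pw_pow hup _ c).trans (by rw [ZMod.natCast_zmod_val])⟩)
      linarith
    have e4 := Finset.sum_le_sum e3
    rw [Finset.sum_const, hZc, nsmul_eq_mul, Nat.cast_pred hp.out.pos] at e4
    linarith
  have h1B : irrOne G ∈ B := H8.mem_bfin.2 H6.irrOne_mem_principal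
  have hD1 : D (irrOne G) = p - 1 := by simp [D, hZc, Nat.cast_pred hp.out.pos]
  have hf1 : f (irrOne G) = 1 := by
    have := hf (irrOne G)
    rw [irrOne_apply] at this
    exact_mod_cast this.symm
  have hf0' : ∀ χ, (0 : ℝ) < f χ := fun χ => Nat.cast_pos.2 (hf0 χ)
  obtain ⟨χ₀, hχ₀, hneg⟩ : ∃ χ ∈ B, D χ < 0 := by
    by_contra hn
    push Not at hn
    have h3 := (Finset.sum_eq_zero_iff_of_nonneg fun χ hχ =>
      mul_nonneg (hn χ hχ) (Nat.cast_nonneg _)).1 h1 _ h1B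
    rw [hD1, hf1] at h3
    push_cast at h3
    linarith
  have hne0 : χ₀ ≠ irrOne G := fun e => by rw [e, hD1] at hneg; linarith
  have hb : ∀ χ ∈ B.erase (irrOne G), (p - 1) * D χ ≤ f χ := fun χ hχ => by
    obtain ⟨hχ1, hχ⟩ := Finset.mem_erase.1 hχ
    have e1 : D χ < (p - 1) * f χ := by
      have e2 : ∀ g, ((χ : G → ℂ) g).re ≤ f χ := fun g => by
        have := χ.2.isCharacter.re_le g
        rwa [hf, Complex.natCast_re] at this
      have e3 := Finset.sum_lt_sum (s := Z) (f := fun c => ((χ : G → ℂ) (pw u c)).re)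
        (g := fun _ => (f χ : ℝ)) (fun c _ => e2 _) ⟨1, by simp [hZ], lt_of_le_of_ne (e2 _) fun e => by
          have := χ.2.isCharacter.mem_charKer.2 (χ.2.isCharacter.eq_of_re_eq (g := pw u 1) (by
            rw [e, hf, Complex.natCast_re]))
          rw [χ.2.charKer_eq_bot_of_simple fun e => hχ1 (Subtype.ext e), mem_bot, ← Nat.cast_one,
            pw_natCast hup, pow_one] at this
          exact hu1 this⟩
      rwa [Finset.sum_const, hZc, nsmul_eq_mul, Nat.cast_pred hp.out.pos] at e3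
    have e2 := mul_nonneg (hpos χ hχ) (hf0' χ).le
    have e3 : ((p - 1) * ((f χ + D χ) ^ 2 / f χ) - p ^ 2 * D χ) * f χ =
        ((p - 1) * f χ - D χ) * (f χ - (p - 1) * D χ) := by
      field_simp [(hf0' χ).ne']
      ring
    rw [e3] at e2
    exact sub_nonneg.1 (nonneg_of_mul_nonneg_right e2 (sub_pos.2 e1))
  have hlt : ∑ χ ∈ B.erase (irrOne G), (p - 1) * (D χ ^ 3 / f χ) <
      ∑ χ ∈ B.erase (irrOne G), D χ ^ 2 := by
    refine Finset.sum_lt_sum (fun χ hχ => ?_) ⟨χ₀, Finset.mem_erase.2 ⟨hne0, hχ₀⟩, ?_⟩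
    · rw [← mul_div_assoc, div_le_iff₀ (hf0' χ)]
      nlinarith [sq_nonneg (D χ), hb χ hχ]
    · rw [← mul_div_assoc, div_lt_iff₀ (hf0' χ₀)]
      have := sq_pos_of_neg hneg
      nlinarith [mul_pos this (hf0' χ₀), mul_pos this (mul_pos (neg_pos.2 hneg)
        (show (0 : ℝ) < p - 1 by linarith))]
  have h4 : ∑ χ ∈ B, D χ ^ 3 / f χ = (p - 2) * ∑ χ ∈ B, D χ ^ 2 := by
    rw [← sub_eq_zero, ← h2, Finset.mul_sum, ← Finset.sum_sub_distrib, ← add_zero (∑ _ ∈ B, _),
      ← h1, ← Finset.sum_add_distrib]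
    refine Finset.sum_congr rfl fun χ _ => ?_
    field_simp [(hf0' χ).ne']
    ring
  rw [← Finset.mul_sum] at hlt
  rw [← Finset.add_sum_erase _ _ h1B, hD1] at h3
  rw [← Finset.add_sum_erase _ _ h1B, ← Finset.add_sum_erase _ _ h1B, hD1, hf1] at h4
  set T := ∑ χ ∈ B.erase (irrOne G), D χ ^ 3 / f χ
  set S := ∑ χ ∈ B.erase (irrOne G), D χ ^ 2
  have h5 : (p - 1) * T = (p - 1) * ((p - 2) * ((p - 1) ^ 2 + S) - (p - 1) ^ 3) := by
    rw [← h4]; push_cast; ring
  have h6 : (0 : ℝ) < (p - 2) * (p - 1) - 1 := by nlinarith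
  have h7 := mul_le_mul_of_nonneg_left h3 h6.le
  have h8 : (0 : ℝ) ≤ p * (p - 1) * (p * (p - 3)) := by
    have : (0 : ℝ) ≤ p - 3 := by linarith
    have : (0 : ℝ) ≤ p - 1 := by linarith
    positivity
  nlinarith

end Cfsg.Agent.H7
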