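import Cfsg.Agent.H7.KGL3
import Cfsg.Agent.H13.Jor

/-!
Conjugacy classes of linear groups and sequences of monic polynomials.
-/

set_option autoImplicit false
set_option linter.dupNamespace false

namespace Cfsg.Agent.H7.KG

open Finset Polynomial H28 Module

variable {F : Type*} [Field F]

theorem map_aeval_mat {m K : Type*} [Fintype m] [DecidableEq m] [Field K] (φ : F →+* K)
    (A : Matrix m m F) (p : F[X]) : φ.mapMatrix (aeval A p) = aeval (A.map φ) (p.map φ) :=
  map_aeval_eq_aeval_map (ψ := φ.mapMatrix) (by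
    ext; simp [Matrix.algebraMap_matrix_apply, apply_ite φ]) p A

theorem det_aeval_pow {m l : Type*} [Fintype m] [DecidableEq m] [Fintype l] [DecidableEq l]
    (A : Matrix m m F) (B : Matrix l l F) {k : ℕ} (h : A.charpoly = B.charpoly ^ k) (p : F[X]) :
    (aeval A p).det = (aeval B p).det ^ k := by
  let φ := algebraMap F (AlgebraicClosure F)
  have h1 : Fintype.card m = Fintype.card l * k := by
    rw [← A.charpoly_natDegree_eq_dim, h, natDegree_pow, B.charpoly_natDegree_eq_dim, mul_comm]
  have h2 : (A.map φ).charpoly = (B.map φ).charpoly ^ k := by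
    rw [Matrix.charpoly_map, Matrix.charpoly_map, h, Polynomial.map_pow]
  apply φ.injective
  rw [map_pow, φ.map_det, φ.map_det, map_aeval_mat, map_aeval_mat]
  generalize A.map φ = A at h2
  generalize B.map φ = B at h2
  have h3 := IsAlgClosed.splits (p.map φ)
  generalize p.map φ = p at h3
  induction h3 using Submonoid.closure_induction with
  | one => simp
  | mul x y _ _ hx hy => simp only [map_mul, Matrix.det_mul, hx, hy, mul_pow]
  | mem x hx =>
  obtain ⟨a, rfl⟩ | ⟨a, rfl⟩ := hx
  · simp [Algebra.algebraMap_eq_smul_one, h1, pow_mul]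
  · have h4 := congrArg (eval (-a)) h2
    rw [eval_pow, Matrix.eval_charpoly, Matrix.eval_charpoly, map_neg, map_neg, ← neg_add',
      ← neg_add', Matrix.det_neg, Matrix.det_neg, mul_pow, ← pow_mul, h1] at h4
    rw [map_add, map_add, aeval_X, aeval_X, aeval_C, aeval_C, add_comm, add_comm B]
    exact mul_left_cancel₀ (by simp) h4

theorem exists_norm_pow [Finite F] (x : PP F) (c : F) :
    ∃ w : AdjoinRoot x.poly, Algebra.norm F w = c ^ x.k := by
  have := Fact.mk x.irred
  have := finite_adjoinRoot x.irred.ne_zero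
  have : Finite (AdjoinRoot x.f) := Module.finite_of_finite F
  obtain ⟨w, rfl⟩ := FiniteField.norm_surjective F (AdjoinRoot x.f) c
  obtain ⟨p, rfl⟩ := AdjoinRoot.mk_surjective w
  refine ⟨AdjoinRoot.mk _ p, ?_⟩
  have h : ∀ (g : F[X]) [FiniteDimensional F (AdjoinRoot g)], Algebra.norm F (AdjoinRoot.mk g p) =
      (aeval (LinearMap.toMatrixAlgEquiv (finBasis F _) (cyc g)) p).det := fun g _ => by
    rw [aeval_algHom_apply, aeval_cyc, Algebra.norm_apply, ← LinearMap.det_toMatrix (finBasis F _)]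
    rfl
  rw [h, h]
  refine det_aeval_pow _ _ ?_ p
  change (LinearMap.toMatrix _ _ _).charpoly = (LinearMap.toMatrix _ _ _).charpoly ^ _
  rw [LinearMap.charpoly_toMatrix, LinearMap.charpoly_toMatrix, charpoly_cyc x.poly_monic,
    charpoly_cyc x.monic, PP.poly]

theorem exists_commute_det [Finite F] {V : Type*} [AddCommGroup V] [Module F V]
    [FiniteDimensional F V] (a : End F V) {x : PP F} (hx : x ∈ ed a) (c : F) :
    ∃ b : End F V, a * b = b * a ∧ LinearMap.det b = c ^ x.k := by
  classical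
  have hs := (sim_model_ed a).symm
  generalize ed a = M at hs hx
  obtain ⟨e, rfl⟩ := hs.eq_conj
  obtain ⟨w0, h0⟩ := exists_norm_pow x c
  let i0 : M := ⟨x, ⟨0, Multiset.one_le_count_iff_mem.2 hx⟩⟩
  let w : ∀ i : M, AdjoinRoot (i.1).poly := Function.update 1 i0 w0
  let b := piEnd fun i : M => Algebra.lmul F _ (w i)
  refine ⟨e.conj b, ?_, ?_⟩
  · change e.conjRingEquiv _ * e.conjRingEquiv _ = e.conjRingEquiv _ * e.conjRingEquiv _
    rw [← map_mul, ← map_mul, piEnd_mul, piEnd_mul]
    congr 2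
    funext i
    rw [cyc, ← map_mul, ← map_mul, mul_comm]
  · rw [← (sim_conj b e).det_eq, det_piEnd, Finset.prod_eq_single i0]
    · simp only [w, Function.update_self]
      rw [← Algebra.norm_apply, h0]
    · intro j _ hj
      simp only [w, Function.update_of_ne hj, Pi.one_apply, map_one]
    · simp

/-- The sequence of polynomials attached to a multiset of elementary divisors. -/
noncomputable def gseq (M : Multiset (PP F)) (k : ℕ) : F[X] :=
  ((M.filter fun x => x.k = k).map PP.f).prod

theorem gseq_injective : Function.Injective (gseq (F := F)) := fun M N h => by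
  classical
  have h1 : ∀ (M : Multiset (PP F)) (x : PP F), M.count x =
      (UniqueFactorizationMonoid.normalizedFactors (gseq M x.k)).count x.f := fun M x => by
    rw [gseq, UniqueFactorizationMonoid.normalizedFactors_prod_eq _ (by
      simp only [Multiset.forall_mem_map_iff]; exact fun y _ => y.irred), Multiset.map_map,
      Multiset.count_map, Multiset.filter_filter, Multiset.count_eq_card_filter_eq]
    refine congrArg _ (Multiset.filter_congr fun y _ => ?_)
    rw [Function.comp_apply, y.monic.normalize_eq_self, PP.ext_iff, @eq_comm _ y.k]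
  ext x
  rw [h1, h1, h]

theorem gseq_cons (x : PP F) (M : Multiset (PP F)) (k : ℕ) :
    gseq (x ::ₘ M) k = (if x.k = k then x.f else 1) * gseq M k := by
  rw [gseq, Multiset.filter_cons]; split_ifs <;> simp [gseq]

theorem exists_of_gseq_ne {M : Multiset (PP F)} {k : ℕ} (h : gseq M k ≠ 1) : ∃ x ∈ M, x.k = k := by
  by_contra! e
  exact h (by rw [gseq, Multiset.filter_eq_nil.2 e]; simp)

theorem gseq_monic (M : Multiset (PP F)) (k : ℕ) : (gseq M k).Monic :=
  monic_multiset_prod_of_monic _ _ fun x _ => x.monic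

theorem prod_gseq {M : Multiset (PP F)} {s : Finset ℕ} (h : ∀ x ∈ M, x.k ∈ s) :
    ∏ k ∈ s, gseq M k ^ k = (M.map PP.poly).prod := by
  induction M using Multiset.induction_on with
  | empty => simp [gseq]
  | cons x M ih =>
    simp only [gseq_cons, mul_pow, prod_mul_distrib, ih fun y hy => h y (Multiset.mem_cons_of_mem hy)]
    simp [h x (Multiset.mem_cons_self _ _), PP.poly]

variable {n : ℕ}

theorem med_k_mem (A : Matrix (Fin n) (Fin n) F) : ∀ x ∈ med A, x.k ∈ Ioc 0 n := fun x hx => by
  have h := Multiset.le_sum_of_mem (Multiset.mem_map_of_mem (fun x : PP F => x.k * x.f.natDegree) hx)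
  rw [← card_eq_sum_med, Fintype.card_fin] at h
  exact mem_Ioc.2 ⟨x.pos, (Nat.le_mul_of_pos_right _ x.natDegree_f_pos).trans h⟩

theorem cst_gseq (A : Matrix (Fin n) (Fin n) F) : cst n (gseq (med A)) = (-1) ^ n * A.det := by
  have h := congrArg (eval 0) ((prod_gseq (med_k_mem A)).trans (charpoly_eq_prod_med A).symm)
  rw [Matrix.eval_charpoly, map_zero, zero_sub, Matrix.det_neg, Fintype.card_fin] at h
  simpa [cst, coeff_zero_eq_eval_zero, eval_prod] using h

theorem gseq_mem [Fintype F] {A : Matrix (Fin n) (Fin n) F} (hA : A.det ≠ 0) :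
    gseq (med A) ∈ Sq F n := by
  have h1 : ∀ k, k ∉ Ioc 0 n → gseq (med A) k = 1 := fun k hk => by
    by_contra h
    obtain ⟨x, hx, rfl⟩ := exists_of_gseq_ne h
    exact hk (med_k_mem A x hx)
  refine mem_Sq.2 ⟨fun k => ⟨gseq_monic _ _, fun h => ?_⟩, h1, ?_⟩
  · by_cases hk : k ∈ Ioc 0 n
    · refine mul_ne_zero (pow_ne_zero n (neg_ne_zero.2 one_ne_zero)) hA ?_
      rw [← cst_gseq, cst]
      exact prod_eq_zero hk (by rw [h, zero_pow (mem_Ioc.1 hk).1.ne'])
    · simp [h1 k hk] at h
  · have h := congrArg natDegree ((prod_gseq (med_k_mem A)).trans (charpoly_eq_prod_med A).symm)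
    rw [natDegree_prod_of_monic _ _ fun k _ => (gseq_monic _ _).pow _] at h
    simpa [natDegree_pow] using h

/-- The substitution `X ↦ ζ X`. -/
noncomputable def sub (ζ : Fˣ) : F[X] ≃ₐ[F] F[X] :=
  algEquivOfCompEqX (C ζ.1 * X) (C ζ⁻¹.1 * X) (by simp [← mul_assoc, ← C_mul])
    (by simp [← mul_assoc, ← C_mul])

theorem sub_scaleRoots (ζ : Fˣ) (f : F[X]) : Associated f (sub ζ (f.scaleRoots ζ)) := by
  refine ⟨(Units.map (C : F →+* F[X]) ζ) ^ f.natDegree, ?_⟩
  ext i
  change (f * C ζ.1 ^ _).coeff i = ((f.scaleRoots ζ).comp (C ζ.1 * X)).coeff i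
  rw [← C_pow, coeff_mul_C, comp_C_mul_X_coeff, coeff_scaleRoots, mul_assoc, ← pow_add]
  rcases le_or_gt i f.natDegree with h | h
  · rw [Nat.sub_add_cancel h]
  · simp [coeff_eq_zero_of_natDegree_lt h]

/-- Scaling an elementary divisor. -/
noncomputable def scl (ζ : Fˣ) (x : PP F) : PP F :=
  ⟨x.f.scaleRoots ζ, x.k, (monic_scaleRoots_iff _).2 x.monic,
    (MulEquiv.irreducible_iff (sub ζ)).1 ((sub_scaleRoots ζ x.f).irreducible x.irred), x.pos⟩

theorem sim_cyc_smul (ζ : Fˣ) {g g' : F[X]} (h : Associated g (sub ζ g')) :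
    Sim (cyc g') (ζ.1 • cyc g) := by
  let e : AdjoinRoot g' ≃ₐ[F] AdjoinRoot g := Ideal.quotientEquivAlg (Ideal.span {g'})
    (Ideal.span {g}) (sub ζ) (by
      rw [Ideal.map_span, Set.image_singleton, Ideal.span_singleton_eq_span_singleton]; exact h)
  refine ⟨e.toLinearEquiv, fun v => (map_mul e _ _).trans ?_⟩
  have : e (AdjoinRoot.root _) = ζ.1 • AdjoinRoot.root _ := by
    change AdjoinRoot.mk _ (aeval (C ζ.1 * X) X) = _
    rw [aeval_X, map_mul, Algebra.smul_def]
    rfl
  rw [this, smul_mul_assoc]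
  rfl

theorem ed_smul {V : Type*} [AddCommGroup V] [Module F V] [FiniteDimensional F V] (ζ : Fˣ)
    (a : End F V) : ed (ζ.1 • a) = (ed a).map (scl ζ) := by
  have h : Sim (blocks fun i : ed a => scl ζ i.1) (piEnd fun i : ed a => ζ.1 • cyc i.1.poly) :=
    Sim.piEnd fun i => sim_cyc_smul ζ (by
      simpa [PP.poly, scl] using (sub_scaleRoots ζ i.1.f).pow_pow)
  rw [((sim_model_ed a).smul ζ.1).ed_eq, show ζ.1 • model (ed a) =
    piEnd fun i : ed a => ζ.1 • cyc i.1.poly from LinearMap.ext fun _ => rfl, ← h.ed_eq, ed_blocks]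
  conv_rhs => rw [← Multiset.map_univ_coe (ed a), Multiset.map_map]
  rfl

theorem gseq_scl (ζ : Fˣ) (M : Multiset (PP F)) (k : ℕ) :
    gseq (M.map (scl ζ)) k = (gseq M k).scaleRoots ζ := by
  induction M using Multiset.induction_on with
  | empty => simp [gseq]
  | cons x M ih =>
    rw [Multiset.map_cons, gseq_cons, gseq_cons, ih, mul_scaleRoots_of_noZeroDivisors, scl]
    split_ifs <;> simp

end Cfsg.Agent.H7.KG
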