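import Mathlib

/-!
Covering the `p`-elements of a finite group by proper subgroups.
-/

set_option autoImplicit false
set_option linter.style.haveILetI false

namespace Cfsg.Agent.H7

open scoped Pointwise

theorem cover_pGroup {G : Type*} [Group G] [Finite G] {p : ℕ} [hp : Fact p.Prime]
    (hG : IsPGroup p G) {ι : Type*} [Fintype ι] (K : ι → Subgroup G) (hK : ∀ i, K i ≠ ⊤)
    (hcov : ∀ g : G, ∃ i, g ∈ K i) : p + 1 ≤ Fintype.card ι := by
  classical
  haveI := Fintype.ofFinite G
  by_contra hn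
  have h1 : ∀ i, p * Nat.card (K i) ≤ Nat.card G := fun i => by
    obtain ⟨k, hk⟩ := hG.index (K i)
    rw [← (K i).index_mul_card, hk]
    exact Nat.mul_le_mul_right _ (Nat.le_self_pow (fun e => hK i
      (Subgroup.index_eq_one.1 (by rw [hk, e, pow_zero]))) p)
  let c : ι → Finset G := fun i => (Finset.univ.filter (· ∈ K i)).erase 1
  have h2 : ∀ i, (c i).card + 1 = Nat.card (K i) := fun i => by
    rw [Finset.card_erase_add_one (by simp), Nat.card_eq_fintype_card, Fintype.card_subtype]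
  have h3 : (Finset.univ.erase (1 : G)).card ≤ ∑ i, (c i).card :=
    (Finset.card_le_card fun g hg => by
      obtain ⟨i, hi⟩ := hcov g
      exact Finset.mem_biUnion.2 ⟨i, Finset.mem_univ _, by
        simp [c, hi, Finset.ne_of_mem_erase hg]⟩).trans Finset.card_biUnion_le
  have h4 := Finset.card_erase_add_one (Finset.mem_univ (1 : G))
  rw [Finset.card_univ, ← Nat.card_eq_fintype_card] at h4
  have h5 : ∑ i, p * ((c i).card + 1) ≤ ∑ _i : ι, Nat.card G :=
    Finset.sum_le_sum fun i _ => by rw [h2]; exact h1 i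
  rw [← Finset.mul_sum, Finset.sum_add_distrib, Finset.sum_const, Finset.sum_const,
    Finset.card_univ, smul_eq_mul, smul_eq_mul, mul_one] at h5
  obtain ⟨i, -⟩ := hcov 1
  have h6 := (Nat.mul_le_mul_left p (Nat.card_pos (α := K i))).trans (h1 i)
  have := hp.out.two_le
  obtain ⟨d, rfl⟩ := Nat.exists_eq_add_of_le (show Fintype.card ι ≤ p by omega)
  set n := Fintype.card ι
  rcases Nat.eq_zero_or_pos d with rfl | hd
  · have := Nat.le_of_mul_le_mul_left h5 (by omega)
    omega
  · have hn : 0 < n := Fintype.card_pos_iff.2 ⟨i⟩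
    nlinarith

theorem cover_pElements.{u} {p : ℕ} [hp : Fact p.Prime] {ι : Type*} [Fintype ι] (n : ℕ) :
    ∀ (G : Type u) [Group G] [Finite G], Nat.card G = n →
      Subgroup.closure {g : G | ∃ k : ℕ, orderOf g = p ^ k} = ⊤ → ∀ K : ι → Subgroup G,
      (∀ i, K i ≠ ⊤) → (∀ g : G, (∃ k : ℕ, orderOf g = p ^ k) → ∃ i, g ∈ K i) →
      p + 1 ≤ Fintype.card ι := by
  induction n using Nat.strong_induction_on with
  | _ n ih =>
  intro G _ _ hn hgen K hK hcov
  by_contra hc
  let A : Subgroup G → Prop := fun M =>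
    M ≠ ⊤ ∧ M ≤ Subgroup.closure {g | g ∈ M ∧ ∃ k : ℕ, orderOf g = p ^ k}
  have h1 : ∀ M, A M → ∃ i, M ≤ K i := fun M hM => by
    by_contra! h
    have hx : ∃ x, x ∉ M := by
      by_contra! e
      exact hM.1 (eq_top_iff.2 fun x _ => e x)
    refine hc (ih _ (hn ▸ Finite.card_subtype_lt (x := hx.choose) hx.choose_spec) M rfl ?_ (fun i => (K i).subgroupOf M)
      (fun i e => h i (Subgroup.subgroupOf_eq_top.1 e)) fun g hg => hcov g (by simpa using hg))
    apply Subgroup.map_injective M.subtype_injective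
    rw [MonoidHom.map_closure, ← MonoidHom.range_eq_map, M.range_subtype]
    refine le_antisymm ((Subgroup.closure_le _).2 (by rintro _ ⟨x, -, rfl⟩; exact x.2))
      (hM.2.trans (Subgroup.closure_mono fun g hg => ⟨⟨g, hg.1⟩, by simpa using hg.2, rfl⟩))
  obtain ⟨P⟩ : Nonempty (Sylow p G) := inferInstance
  by_cases hP : (P : Subgroup G) = ⊤
  · have := P.isPGroup'
    rw [hP] at this
    replace this := this.of_equiv Subgroup.topEquiv
    exact hc (cover_pGroup this K hK fun g => hcov g (IsPGroup.iff_orderOf.1 this g))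
  obtain ⟨M, hPM, hM⟩ := Finite.exists_le_maximal (p := A) (a := P) ⟨hP, fun g hg =>
    Subgroup.subset_closure ⟨hg, by simpa using IsPGroup.iff_orderOf.1 P.isPGroup' ⟨g, hg⟩⟩⟩
  have h2 : ∀ φ : MulAut G, ∀ M, A M → A (φ • M) := fun φ M h =>
    ⟨fun e => h.1 (by rw [← inv_smul_smul φ M, e]; exact eq_top_iff.2 fun x _ =>
      Subgroup.mem_pointwise_smul_iff_inv_smul_mem.2 trivial), by
      refine (Subgroup.pointwise_smul_le_pointwise_smul_iff.2 h.2).trans ?_
      rw [Subgroup.smul_closure]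
      refine Subgroup.closure_mono ?_
      rintro _ ⟨x, hx, rfl⟩
      exact ⟨Subgroup.smul_mem_pointwise_smul _ _ _ hx.1, by
        simpa only [MulAut.smul_def, MulEquiv.orderOf_eq] using hx.2⟩⟩
  have h3 : ∀ φ : MulAut G, Maximal A (φ • M) := fun φ => ⟨h2 φ M hM.1, fun M' h' e => by
    rw [← smul_inv_smul φ M', Subgroup.pointwise_smul_le_pointwise_smul_iff]
    exact hM.2 (h2 _ _ h') (by
      rw [← Subgroup.pointwise_smul_le_pointwise_smul_iff (a := φ), smul_inv_smul]; exact e)⟩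
  choose f hf using fun φ : MulAut G => h1 _ (h3 φ).1
  have h4 : ∀ φ ψ, f φ = f ψ → φ • M = ψ • M := fun φ ψ e => by
    have a1 : A (φ • M ⊔ ψ • M) :=
      ⟨fun e' => hK _ (eq_top_iff.2 (e'.ge.trans (sup_le (hf φ) (e ▸ hf ψ)))), sup_le
        ((h3 φ).1.2.trans (Subgroup.closure_mono fun g hg => ⟨Subgroup.mem_sup_left hg.1, hg.2⟩))
        ((h3 ψ).1.2.trans (Subgroup.closure_mono fun g hg => ⟨Subgroup.mem_sup_right hg.1, hg.2⟩))⟩
    exact ((h3 φ).eq_of_le a1 le_sup_left).trans ((h3 ψ).eq_of_le a1 le_sup_right).symm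
  set N := Subgroup.normalizer (M : Set G)
  have h5 : N.index ≤ Fintype.card ι := by
    rw [← Nat.card_eq_fintype_card]
    refine Nat.card_le_card_of_injective (fun x : G ⧸ N => f (MulAut.conj x.out)) fun x y e => ?_
    rw [← x.out_eq', ← y.out_eq', QuotientGroup.eq]
    have := h4 _ _ e
    rw [eq_comm, ← inv_smul_eq_iff, smul_smul, ← map_inv, ← map_mul] at this
    exact Subgroup.mem_normalizer_iff.2 fun z => by
      conv_rhs => rw [← this]
      exact (Subgroup.smul_mem_pointwise_smul_iff (a := MulAut.conj _)).symm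
  have h6 : ¬ p ∣ N.index := fun e =>
    P.not_dvd_index (e.trans (Subgroup.index_dvd_of_le (hPM.trans Subgroup.le_normalizer)))
  have h7 : N = ⊤ := eq_top_iff.2 (hgen.ge.trans ((Subgroup.closure_le _).2 fun x ⟨k, hk⟩ => by
    have a1 : IsPGroup p (Subgroup.zpowers x) := IsPGroup.of_card ((Nat.card_zpowers x).trans hk)
    obtain ⟨j, hj⟩ := a1.index (N.subgroupOf _)
    have a2 := Subgroup.relIndex_le_of_le_right (H := N) (le_top (a := Subgroup.zpowers x))
      (by simp [Subgroup.FiniteIndex.index_ne_zero])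
    rw [Subgroup.relIndex_top_right, Subgroup.relIndex, hj] at a2
    have a3 : N.index ≠ p := fun e => h6 e.symm.dvd
    have a4 : j = 0 := by_contra fun e => by have := Nat.le_self_pow e p; omega
    rw [a4, pow_zero, Subgroup.index_eq_one, Subgroup.subgroupOf_eq_top] at hj
    exact hj (Subgroup.mem_zpowers x)))
  haveI := Subgroup.normalizer_eq_top_iff.1 h7
  refine hM.1.1 (eq_top_iff.2 (hgen.ge.trans ((Subgroup.closure_le _).2 fun x ⟨k, hk⟩ => ?_)))
  obtain ⟨Q, hQ⟩ := (IsPGroup.of_card ((Nat.card_zpowers x).trans hk)).exists_le_sylow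
  obtain ⟨g, rfl⟩ := MulAction.exists_smul_eq G P Q
  obtain ⟨y, hy, e⟩ := hQ (Subgroup.mem_zpowers x)
  exact e ▸ Subgroup.Normal.conj_mem ‹_› y (hPM hy) g

end Cfsg.Agent.H7
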