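import Cfsg.Agent.H28.Semisimple

/-!
Counting sequences of monic polynomials (class numbers of linear groups), numerical part.
-/

set_option autoImplicit false
set_option linter.dupNamespace false

namespace Cfsg.Agent.H7.KG

open Finset Polynomial

variable (F : Type*) [Field F] [Fintype F]

theorem finite_mon (d : ℕ) : {p : F[X] | p.Monic ∧ p.natDegree = d ∧ p.coeff 0 ≠ 0}.Finite := by
  have : Finite {p : F[X] // p.Monic ∧ p.natDegree = d} :=
    Finite.of_equiv _ ((monicEquivDegreeLT d).trans (degreeLTEquiv F d).toEquiv).symm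
  exact (Set.finite_coe_iff.1 this : {p : F[X] | p.Monic ∧ p.natDegree = d}.Finite).subset fun p h => ⟨h.1, h.2.1⟩

/-- Monic polynomials of degree `d` with non-zero constant term. -/
noncomputable def mon (d : ℕ) : Finset F[X] := (finite_mon F d).toFinset

variable {F} in
theorem mem_mon {d : ℕ} {p : F[X]} : p ∈ mon F d ↔ p.Monic ∧ p.natDegree = d ∧ p.coeff 0 ≠ 0 :=
  Set.Finite.mem_toFinset _

theorem card_mon_zero : #(mon F 0) = 1 := card_eq_one.2 ⟨1, by
  ext p
  rw [mem_mon, mem_singleton]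
  exact ⟨fun h => h.1.natDegree_eq_zero.1 h.2.1, by rintro rfl; simp⟩⟩

theorem card_mon_succ (d : ℕ) : #(mon F (d + 1)) = (Fintype.card F - 1) * Fintype.card F ^ d := by
  classical
  rw [← Nat.card_eq_finsetCard, Nat.card_congr (Equiv.subtypeEquivRight fun p => mem_mon),
    H28.card_monic_coeff_zero d (fun c : F => c ≠ 0), Nat.card_eq_fintype_card (α := F),
    Nat.card_eq_fintype_card, Fintype.card_subtype_compl, Fintype.card_subtype_eq]

open Classical in
/-- Sequences of monic polynomials of total weight `n`. -/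
noncomputable def Sq (n : ℕ) : Finset (ℕ → F[X]) :=
  (finsuppAntidiag (Ioc 0 n) n).biUnion fun l =>
    ((Ioc 0 n).pi fun k => if k ∣ l k then mon F (l k / k) else ∅).image
      fun f k => if h : k ∈ Ioc 0 n then f k h else 1

variable {F} in
theorem mem_Sq {n : ℕ} {g : ℕ → F[X]} : g ∈ Sq F n ↔ (∀ k, (g k).Monic ∧ (g k).coeff 0 ≠ 0) ∧
    (∀ k, k ∉ Ioc 0 n → g k = 1) ∧ ∑ k ∈ Ioc 0 n, k * (g k).natDegree = n := by
  simp only [Sq, mem_biUnion, mem_image, mem_pi, mem_finsuppAntidiag]
  constructor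
  · rintro ⟨l, ⟨h1, -⟩, f, hf, rfl⟩
    have h2 : ∀ k h, k ∣ l k ∧ f k h ∈ mon F (l k / k) := fun k h => by
      have := hf k h
      split_ifs at this with e
      exacts [⟨e, this⟩, absurd this (notMem_empty _)]
    refine ⟨fun k => ?_, fun k h => dif_neg h, Eq.trans (sum_congr rfl fun k h => ?_) h1⟩
    · dsimp only
      split_ifs with h
      · exact ⟨(mem_mon.1 (h2 k h).2).1, (mem_mon.1 (h2 k h).2).2.2⟩
      · simp
    · dsimp only
      rw [dif_pos h, (mem_mon.1 (h2 k h).2).2.1, Nat.mul_div_cancel' (h2 k h).1]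
  · rintro ⟨h1, h2, h3⟩
    refine ⟨Finsupp.onFinset (Ioc 0 n) (fun k => k * (g k).natDegree) fun k h => by
      by_contra e; simp [h2 k e] at h, ⟨h3, Finsupp.support_onFinset_subset⟩, fun k _ => g k,
      fun k h => ?_, funext fun k => by split_ifs with h; exacts [rfl, (h2 k h).symm]⟩
    rw [Finsupp.onFinset_apply, if_pos (dvd_mul_right _ _),
      Nat.mul_div_cancel_left _ (mem_Ioc.1 h).1]
    exact mem_mon.2 ⟨(h1 k).1, rfl, (h1 k).2⟩

/-- The generating function of `mon` at `X ^ (k + 1)`. -/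
noncomputable def gf (k : ℕ) : PowerSeries ℕ :=
  PowerSeries.mk fun m => if k ∣ m then #(mon F (m / k)) else 0

theorem card_Sq_le (n : ℕ) : #(Sq F n) ≤ PowerSeries.coeff n (∏ k ∈ Ioc 0 n, gf F k) := by
  classical
  rw [PowerSeries.coeff_prod]
  refine card_biUnion_le.trans (sum_le_sum fun l _ => card_image_le.trans (le_of_eq ?_))
  rw [card_pi]
  exact prod_congr rfl fun k _ => by simp only [gf, PowerSeries.coeff_mk]; split_ifs <;> simp

open PowerSeries in
theorem gf_eq {k : ℕ} (hk : k ≠ 0) : (1 - (Fintype.card F : ℤ⟦X⟧) * PowerSeries.X ^ k) *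
    PowerSeries.map (Nat.castRingHom ℤ) (gf F k) = 1 - PowerSeries.X ^ k := by
  have h1 : (1 - (Fintype.card F : ℤ⟦X⟧) * PowerSeries.X) *
      PowerSeries.mk (fun m => (#(mon F m) : ℤ)) = 1 - PowerSeries.X := by
    rw [sub_mul, one_mul, mul_assoc, ← map_natCast PowerSeries.C]
    ext (_ | _ | m)
    · simp [card_mon_zero]
    · rw [map_sub, PowerSeries.coeff_C_mul]
      simp [card_mon_zero, card_mon_succ, Nat.cast_sub Fintype.card_pos, PowerSeries.coeff_one]
    · rw [map_sub, PowerSeries.coeff_C_mul]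
      simp [card_mon_succ, PowerSeries.coeff_one, PowerSeries.coeff_X, pow_succ]
      ring
  have h2 : PowerSeries.map (Nat.castRingHom ℤ) (gf F k) =
      PowerSeries.expand k hk (PowerSeries.mk fun m => (#(mon F m) : ℤ)) := by
    ext m; simp [gf, PowerSeries.coeff_expand]
  simpa [h2] using congrArg (PowerSeries.expand k hk) h1

open PowerSeries in
theorem sum_gf (n : ℕ) : PowerSeries.coeff n (∑ k ∈ range (n + 1),
    PowerSeries.X ^ k * ∏ j ∈ Ioc k n, gf F j) = Fintype.card F ^ n := by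
  let φ := PowerSeries.map (Nat.castRingHom ℤ)
  have h1 : ∀ k, k ≤ n → (1 - (Fintype.card F : ℤ⟦X⟧) * PowerSeries.X) *
      φ (∑ j ∈ Ioc k n, PowerSeries.X ^ j * ∏ i ∈ Ioc j n, gf F i) +
      (1 - (Fintype.card F : ℤ⟦X⟧) * PowerSeries.X ^ (k + 1)) * φ (∏ j ∈ Ioc k n, gf F j) =
      1 - (Fintype.card F : ℤ⟦X⟧) * PowerSeries.X ^ (n + 1) := fun k hk => by
    induction hk using Nat.decreasingInduction with
    | self => simp
    | of_succ k hk ih =>
      rw [← insert_Ioc_succ_left_eq_Ioc hk, sum_insert (by simp), prod_insert (by simp), ← ih]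
      simp only [map_add, map_mul, map_pow, Order.succ_eq_add_one, φ, PowerSeries.map_X]
      linear_combination φ (∏ j ∈ Ioc (k + 1) n, gf F j) * gf_eq F (k := k + 1) k.succ_ne_zero
  have h2 := h1 0 n.zero_le
  rw [zero_add, pow_one, ← mul_add, ← map_add] at h2
  rw [range_eq_Ico, Ico_add_one_right_eq_Icc, ← Ioc_insert_left n.zero_le, sum_insert (by simp),
    pow_zero, one_mul, add_comm]
  generalize (∑ j ∈ Ioc 0 n, PowerSeries.X ^ j * ∏ i ∈ Ioc j n, gf F i) + _ = S at h2
  suffices ∀ m ≤ n, PowerSeries.coeff m S = Fintype.card F ^ m from this n le_rfl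
  intro m hm
  rw [sub_mul, one_mul, mul_assoc, ← map_natCast PowerSeries.C] at h2
  induction m with
  | zero =>
    have := congrArg (PowerSeries.coeff 0) h2
    rw [map_sub, PowerSeries.coeff_map] at this
    simpa using this
  | succ m ih =>
    have := congrArg (PowerSeries.coeff (m + 1)) h2
    rw [map_sub, map_sub, PowerSeries.coeff_C_mul, PowerSeries.coeff_C_mul] at this
    simp [φ, ih (by omega), PowerSeries.coeff_one, PowerSeries.coeff_X_pow,
      show m ≠ n by omega, sub_eq_zero] at this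
    rw [pow_succ']
    exact_mod_cast this

theorem card_Sq_lt {n : ℕ} (hn : n ≠ 0) : #(Sq F n) + 1 ≤ Fintype.card F ^ n := by
  rw [← sum_gf, map_sum, ← add_sum_erase _ _ (mem_range.2 n.succ_pos)]
  refine add_le_add (by simpa using card_Sq_le F n) (le_trans ?_ (single_le_sum
    (fun _ _ => Nat.zero_le _) (mem_erase.2 ⟨hn, mem_range.2 n.lt_succ_self⟩)))
  simp

theorem card_Sq_three : #(Sq F 3) + Fintype.card F ≤ Fintype.card F ^ 3 := by
  have h := card_Sq_le F 3
  have h1 : Fintype.card F - 1 ≤ PowerSeries.coeff 2 (gf F 2 * gf F 3) := by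
    rw [PowerSeries.coeff_mul]
    refine le_trans ?_ (single_le_sum (fun _ _ => Nat.zero_le _) (a := (2, 0)) (by simp))
    simp [gf, card_mon_succ, card_mon_zero]
  rw [← sum_gf, map_sum, sum_range_succ, sum_range_succ, sum_range_succ, sum_range_one,
    show Ioc 1 3 = {2, 3} from rfl, prod_pair (by simp), pow_one, PowerSeries.coeff_succ_X_mul]
  have := Fintype.card_pos (α := F)
  simp only [pow_zero, one_mul, Ioc_self, prod_empty, mul_one, PowerSeries.coeff_X_pow_self]
  omega

end Cfsg.Agent.H7.KG
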