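import Cfsg.Agent.H7.KGL1

/-!
Counting sequences of monic polynomials with weights.
-/

set_option autoImplicit false
set_option linter.dupNamespace false

namespace Cfsg.Agent.H7.KG

open Finset Polynomial

variable {F : Type*} [Field F]

/-- The subgroup generated by the `k`-th powers, `k ∈ S`. -/
def HH (F : Type*) [Field F] (S : Set ℕ) : Subgroup Fˣ := ⨆ k : S, (powMonoidHom k.1 : Fˣ →* Fˣ).range

/-- The index attached to a sequence. -/
noncomputable def dd (g : ℕ → F[X]) : ℕ := (HH F {k | g k ≠ 1}).index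

/-- The determinant (up to sign) attached to a sequence. -/
noncomputable def cst (n : ℕ) (g : ℕ → F[X]) : F := ∏ k ∈ Ioc 0 n, (g k).coeff 0 ^ k

variable [Fintype F]

theorem dd_dvd_card (g : ℕ → F[X]) : dd g ∣ Fintype.card F - 1 := by
  rw [← Nat.card_eq_fintype_card, ← Nat.card_units]; exact Subgroup.index_dvd_card _

theorem dd_dvd {g : ℕ → F[X]} {k : ℕ} (h : g k ≠ 1) : dd g ∣ k :=
  (Subgroup.index_dvd_of_le (le_iSup (fun k : {k | g k ≠ 1} => (powMonoidHom k.1 : Fˣ →* Fˣ).range)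
    ⟨k, h⟩)).trans (by rw [IsCyclic.index_powMonoidHom_range]; exact Nat.gcd_dvd_right _ _)

open Classical in
theorem card_twist (n : ℕ) (S : Set ℕ) {l : Fˣ} (hl : l ∈ HH F S) (c : F) :
    #{g ∈ Sq F n | {k | g k ≠ 1} = S ∧ cst n g = c} ≤
      #{g ∈ Sq F n | {k | g k ≠ 1} = S ∧ cst n g = c * l} := by
  induction hl using Subgroup.iSup_induction' generalizing c with
  | h1 => simp
  | hmul x y _ _ hx hy => simpa [mul_assoc] using (hx c).trans (hy _)
  | hp k x hx =>
  obtain ⟨μ, rfl⟩ := hx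
  have key : ∀ g ∈ Sq F n, {k | g k ≠ 1} = S → 0 < (g k).natDegree ∧ k.1 ∈ Ioc 0 n := fun g hg h => by
    have : g k ≠ 1 := h.ge k.2
    exact ⟨Nat.pos_of_ne_zero fun e => this (((mem_Sq.1 hg).1 k).1.natDegree_eq_zero.1 e),
      not_not.1 fun e => this ((mem_Sq.1 hg).2.1 k e)⟩
  refine card_le_card_of_injOn
    (fun g => Function.update g k (g k + C ((μ - 1) * (g k).coeff 0))) (fun g hg => ?_) ?_
  · simp only [coe_filter, Set.mem_ofPred_eq] at hg ⊢
    obtain ⟨hg, h1, h2⟩ := hg
    obtain ⟨h3, h4⟩ := key g hg h1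
    obtain ⟨h5, h6, h7⟩ := mem_Sq.1 hg
    have h8 : ∀ j, (Function.update g k (g k + C ((μ - 1) * (g k).coeff 0)) j).natDegree =
        (g j).natDegree := fun j => by
      by_cases e : j = k
      · rw [e, Function.update_self, natDegree_add_C]
      · rw [Function.update_of_ne e]
    have h9 : (g k + C ((μ - 1) * (g k).coeff 0)).coeff 0 = μ * (g k).coeff 0 := by simp; ring
    refine ⟨mem_Sq.2 ⟨fun j => ?_, fun j hj => ?_, by simp only [h8, h7]⟩, ?_, ?_⟩
    · by_cases e : j = k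
      · rw [e, Function.update_self, h9]
        exact ⟨(h5 k).1.add_of_left (degree_C_le.trans_lt (natDegree_pos_iff_degree_pos.1 h3)),
          mul_ne_zero μ.ne_zero (h5 k).2⟩
      · rw [Function.update_of_ne e]; exact h5 j
    · rw [Function.update_of_ne (by rintro rfl; exact hj h4), h6 j hj]
    · refine Eq.trans ?_ h1
      ext j
      by_cases e : j = k
      · subst e
        refine iff_of_true (fun e => ?_) fun e => by simp [e] at h3
        have := h8 k
        rw [e, natDegree_one] at this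
        omega
      · simp [Function.update_of_ne e]
    · rw [← h2, cst, cst, ← mul_prod_erase _ _ h4, ← mul_prod_erase _ _ h4, Function.update_self, h9,
        prod_congr rfl fun j hj => by rw [Function.update_of_ne (mem_erase.1 hj).1]]
      simp; ring
  · intro g _ g' _ e
    funext j
    have h1 := congrFun e j
    by_cases h : j = k
    · subst h
      simp only [Function.update_self] at h1
      have h2 : (g k).coeff 0 = (g' k).coeff 0 := mul_left_cancel₀ μ.ne_zero (by
        have := congrArg (coeff · 0) h1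
        simp at this
        linear_combination this)
      rwa [h2, add_left_inj] at h1
    · simpa [Function.update_of_ne h] using h1

open Classical in
theorem sum_dd_le (n : ℕ) {c : F} (hc : c ≠ 0) :
    (Fintype.card F - 1) * ∑ g ∈ Sq F n with cst n g = c, dd g ≤ ∑ g ∈ Sq F n, dd g ^ 2 := by
  obtain ⟨σ, hσ⟩ : ∃ σ : (ℕ → F[X]) → Set ℕ, σ = fun g => {k | g k ≠ 1} := ⟨_, rfl⟩
  rw [← sum_fiberwise_of_maps_to (s := {g ∈ Sq F n | cst n g = c}) (t := (Sq F n).image σ)
    (g := σ) (fun g h => mem_image_of_mem _ (mem_filter.1 h).1) dd,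
    ← sum_fiberwise_of_maps_to (s := Sq F n) (t := (Sq F n).image σ)
    (g := σ) (fun g h => mem_image_of_mem _ h) fun g => dd g ^ 2, mul_sum]
  subst hσ
  refine sum_le_sum fun S _ => ?_
  rw [sum_congr rfl fun g h => show dd g = (HH F S).index by rw [← (mem_filter.1 h).2]; rfl,
    sum_congr rfl fun g h => show dd g ^ 2 = (HH F S).index ^ 2 by rw [← (mem_filter.1 h).2]; rfl,
    sum_const, sum_const, smul_eq_mul, smul_eq_mul, ← Nat.card_eq_fintype_card, ← Nat.card_units,
    ← (HH F S).card_mul_index, mul_mul_mul_comm, sq]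
  refine Nat.mul_le_mul_right _ ?_
  have := sum_card_fiberwise_eq_card_filter {g ∈ Sq F n | {k | g k ≠ 1} = S}
    (univ.image fun l : HH F S => c * l.1) (cst n)
  refine le_trans ?_ (this.le.trans (card_filter_le _ _))
  rw [sum_image fun l _ l' _ e => Subtype.ext (Units.ext (mul_left_cancel₀ hc e)),
    Nat.card_eq_fintype_card, ← card_univ, ← smul_eq_mul, ← sum_const]
  refine sum_le_sum fun l _ => ?_
  simpa only [filter_filter, and_comm] using card_twist n S l.2 c

open Classical in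
theorem card_dd_le {n e : ℕ} (he : e ≠ 0) : #{g ∈ Sq F n | dd g = e} ≤ #(Sq F (n / e)) := by
  have key : ∀ g ∈ {g ∈ Sq F n | dd g = e}, ∀ j, ¬ e ∣ j → g j = 1 := fun g hg j hj =>
    not_not.1 fun h => hj ((mem_filter.1 hg).2 ▸ dd_dvd h)
  refine card_le_card_of_injOn (fun g k => g (e * k)) (fun g hg => ?_) fun g hg g' hg' h => ?_
  · obtain ⟨h1, h2, h3⟩ := mem_Sq.1 (mem_filter.1 hg).1
    have h4 : ∀ k, e * k ∈ Ioc 0 n ↔ k ∈ Ioc 0 (n / e) := fun k => by
      simp [Nat.le_div_iff_mul_le (Nat.pos_of_ne_zero he), Nat.pos_of_ne_zero he, mul_comm]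
    refine mem_Sq.2 ⟨fun k => h1 _, fun k hk => h2 _ ((h4 k).not.2 hk), ?_⟩
    refine (Nat.div_eq_of_eq_mul_right (Nat.pos_of_ne_zero he) (h3.symm.trans ?_)).symm
    rw [mul_sum, sum_congr rfl fun k _ => (mul_assoc _ _ _).symm, ← sum_image
      (f := fun j => j * (g j).natDegree) (mul_right_injective₀ he).injOn]
    refine (sum_subset (fun j hj => ?_) fun j hj hj' => ?_).symm
    · obtain ⟨k, hk, rfl⟩ := mem_image.1 hj
      exact (h4 k).2 hk
    · rw [key g hg j (by rintro ⟨k, rfl⟩; exact hj' (mem_image_of_mem _ ((h4 k).1 hj)))]; simp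
  · funext j
    by_cases hj : e ∣ j
    · obtain ⟨k, rfl⟩ := hj
      exact congrFun h k
    · rw [key g hg j hj, key g' hg' j hj]

theorem sum_dd_sq_le (n : ℕ) : ∑ g ∈ Sq F n, dd g ^ 2 ≤ #(Sq F n) +
    ∑ e ∈ (n.gcd (Fintype.card F - 1)).divisors.erase 1, (e ^ 2 - 1) * #(Sq F (n / e)) := by
  classical
  have hq : Fintype.card F - 1 ≠ 0 := by have := Fintype.one_lt_card (α := F); omega
  have h0 : ∀ g : ℕ → F[X], dd g ≠ 0 := fun g => ne_zero_of_dvd_ne_zero hq (dd_dvd_card g)
  rw [sum_congr rfl fun g _ => (Nat.add_sub_cancel' (Nat.one_le_pow 2 _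
    (Nat.pos_of_ne_zero (h0 g)))).symm, sum_add_distrib, ← card_eq_sum_ones,
    ← sum_fiberwise_of_maps_to (t := (n.gcd (Fintype.card F - 1)).divisors) (g := dd)
      fun g hg => Nat.mem_divisors.2 ⟨Nat.dvd_gcd ?_ (dd_dvd_card g), by simp [hq]⟩,
    ← add_sum_erase _ _ (Nat.one_mem_divisors.2 (by simp [hq])),
    sum_eq_zero fun g hg => by simp [(mem_filter.1 hg).2], zero_add]
  · refine Nat.add_le_add_left (sum_le_sum fun e he => ?_) _
    rw [sum_congr rfl fun g h => by rw [(mem_filter.1 h).2], sum_const, smul_eq_mul, mul_comm]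
    exact Nat.mul_le_mul_left _ (card_dd_le (Nat.pos_of_mem_divisors (mem_erase.1 he).2).ne')
  · rw [← (mem_Sq.1 hg).2.2]
    refine dvd_sum fun k _ => ?_
    by_cases h : g k = 1
    · simp [h]
    · exact (dd_dvd h).mul_right _

omit [Fintype F] in
theorem expand_contract_of_scale {p : F[X]} (h0 : p.coeff 0 ≠ 0) {ζ : F} (he : orderOf ζ ≠ 0)
    (h : p.scaleRoots ζ = p) : expand F (orderOf ζ) (contract (orderOf ζ) p) = p := by
  have h1 : ∀ i, p.coeff i ≠ 0 → orderOf ζ ∣ p.natDegree - i := fun i hi =>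
    orderOf_dvd_of_pow_eq_one (mul_left_cancel₀ hi (by rw [← coeff_scaleRoots, h, mul_one]))
  ext i
  rw [coeff_expand (Nat.pos_of_ne_zero he), coeff_contract he]
  split_ifs with hi
  · rw [Nat.div_mul_cancel hi]
  · by_contra e
    exact hi ((Nat.dvd_sub_iff_right (le_natDegree_of_ne_zero (Ne.symm e)) (h1 0 h0)).1
      (h1 i (Ne.symm e)))

open Classical in
theorem sum_dd_scale_le (n : ℕ) (c : F) {ζ : F} (he : orderOf ζ ≠ 0) :
    ∑ g ∈ Sq F n with cst n g = c ∧ ∀ k, (g k).scaleRoots ζ = g k, dd g ≤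
      ∑ g ∈ Sq F (n / orderOf ζ) with cst (n / orderOf ζ) g = c, dd g := by
  set e := orderOf ζ
  have hp := Nat.pos_of_ne_zero he
  have key : ∀ g ∈ {g ∈ Sq F n | cst n g = c ∧ ∀ k, (g k).scaleRoots ζ = g k}, ∀ k,
      expand F e (contract e (g k)) = g k := fun g hg k => expand_contract_of_scale
    ((mem_Sq.1 (mem_filter.1 hg).1).1 k).2 he ((mem_filter.1 hg).2.2 k)
  have h1 : ∀ g ∈ {g ∈ Sq F n | cst n g = c ∧ ∀ k, (g k).scaleRoots ζ = g k}, ∀ k,
      contract e (g k) = 1 ↔ g k = 1 := fun g hg k => by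
    rw [← (expand_injective hp).eq_iff, key g hg, map_one]
  rw [sum_congr rfl fun g hg => show dd g = dd fun k => contract e (g k) by
    simp only [dd, ne_eq, h1 g hg], ← sum_image (f := dd) fun g hg g' hg' h => funext fun k => by
      rw [← key g hg, ← key g' hg', show contract e (g k) = _ from congrFun h k]]
  refine sum_le_sum_of_subset fun h hh => ?_
  obtain ⟨g, hg, rfl⟩ := mem_image.1 hh
  obtain ⟨h2, h3, h4⟩ := mem_Sq.1 (mem_filter.1 hg).1
  have h5 : ∀ k, (g k).natDegree = (contract e (g k)).natDegree * e := fun k => by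
    rw [← natDegree_expand, key g hg]
  have h6 : ∀ k, (contract e (g k)).coeff 0 = (g k).coeff 0 := fun k => by simp [coeff_contract he]
  have h7 : ∀ k, k ∉ Ioc 0 (n / e) → g k = 1 := fun k hk => by
    by_contra h
    have h8 : k ∈ Ioc 0 n := not_not.1 fun e => h (h3 k e)
    have h9 := (single_le_sum (f := fun k => k * (g k).natDegree) (fun _ _ => Nat.zero_le _)
      h8).trans_eq h4
    have : (g k).natDegree ≠ 0 := fun e => h ((h2 k).1.natDegree_eq_zero.1 e)
    rw [h5] at this h9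
    exact hk (mem_Ioc.2 ⟨(mem_Ioc.1 h8).1, (Nat.le_div_iff_mul_le hp).2 (le_trans (Nat.mul_le_mul_left
      _ (Nat.le_mul_of_pos_left _ (Nat.pos_of_ne_zero (left_ne_zero_of_mul this)))) h9)⟩)
  have h8 := Ioc_subset_Ioc_right (a := 0) (Nat.div_le_self n e)
  refine mem_filter.2 ⟨mem_Sq.2 ⟨fun k => ⟨(monic_expand_iff hp).1 (by
    rw [key g hg]; exact (h2 k).1), h6 k ▸ (h2 k).2⟩, fun k hk => (h1 g hg k).2 (h7 k hk), ?_⟩, ?_⟩
  · refine (Nat.div_eq_of_eq_mul_left hp (h4.symm.trans ?_)).symm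
    rw [sum_mul, ← sum_subset h8 fun k _ hk => by simp [h7 k hk]]
    exact sum_congr rfl fun k _ => by rw [h5, mul_assoc]
  · rw [← (mem_filter.1 hg).2.1, cst, cst, ← prod_subset h8 fun k _ hk => by simp [h7 k hk]]
    simp only [h6]

end Cfsg.Agent.H7.KG
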