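import Cfsg.Agent.H7.KGL2

/-!
Numerical bounds for the weighted counts of sequences of monic polynomials.
-/

set_option autoImplicit false
set_option linter.dupNamespace false

namespace Cfsg.Agent.H7.KG

open Finset Polynomial

variable {F : Type*} [Field F] [Fintype F]

open Classical in
/-- The weighted count. -/
noncomputable def KK (n : ℕ) (c : F) : ℕ := ∑ g ∈ Sq F n with cst n g = c, dd g

theorem KK_le (n : ℕ) {c : F} (hc : c ≠ 0) : ∃ d, d ∣ n ∧ d < Fintype.card F ∧
    (Fintype.card F - 1) * KK n c ≤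
      #(Sq F n) + ∑ e ∈ d.divisors.erase 1, (e ^ 2 - 1) * #(Sq F (n / e)) := by
  have := Fintype.one_lt_card (α := F)
  exact ⟨_, Nat.gcd_dvd_left _ _, (Nat.gcd_le_right n (by omega)).trans_lt (Nat.sub_one_lt (by omega)),
    (sum_dd_le n hc).trans (sum_dd_sq_le n)⟩

theorem KK_one {c : F} (hc : c ≠ 0) : KK 1 c ≤ 1 := by
  obtain ⟨d, h1, -, h2⟩ := KK_le 1 hc
  have h3 := card_Sq_lt F one_ne_zero
  have := Fintype.one_lt_card (α := F)
  rw [Nat.dvd_one.1 h1] at h2
  simp only [Nat.divisors_one, erase_singleton, sum_empty, add_zero, pow_one] at h2 h3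
  exact Nat.le_of_mul_le_mul_left (c := Fintype.card F - 1) (by omega) (by omega)

theorem KK_two {c : F} (hc : c ≠ 0) :
    KK 2 c ≤ Fintype.card F + 4 ∧ 2 * KK 2 c ≤ 5 * Fintype.card F := by
  obtain ⟨d, h1, h2, h3⟩ := KK_le 2 hc
  have h4 := card_Sq_lt F one_ne_zero
  have h5 := card_Sq_lt F two_ne_zero
  obtain ⟨q, hq⟩ : ∃ q, Fintype.card F = q + 2 := ⟨_, (Nat.sub_add_cancel Fintype.one_lt_card).symm⟩
  rw [hq] at h2 h3 h4 h5 ⊢
  rw [show q + 2 - 1 = q + 1 from rfl] at h3
  obtain rfl | rfl := (Nat.dvd_prime Nat.prime_two).1 h1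
  · simp only [Nat.divisors_one, erase_singleton, sum_empty, add_zero] at h3
    have : KK 2 c ≤ q + 3 := Nat.le_of_mul_le_mul_left (c := q + 1) (by nlinarith) (by omega)
    omega
  · rw [show (Nat.divisors 2).erase 1 = {2} by decide, sum_singleton] at h3
    have : KK 2 c ≤ q + 6 := Nat.le_of_mul_le_mul_left (c := q + 1) (by norm_num at h3; nlinarith)
      (by omega)
    omega

theorem term_le {q e m : ℕ} (he : 2 ≤ e) (hq : e < q) (h : 5 ≤ e * m) :
    (e ^ 2 - 1) * q ^ m ≤ q ^ (e * m - 2) := by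
  obtain rfl | he := he.eq_or_lt
  · refine le_trans ?_ (Nat.pow_le_pow_right (by omega) (show m + 1 ≤ _ by omega))
    rw [pow_succ' q]
    exact Nat.mul_le_mul_right _ hq
  · refine le_trans ?_ (Nat.pow_le_pow_right (by omega) (show 2 + m ≤ _ from ?_))
    · rw [pow_add]
      exact Nat.mul_le_mul_right _ ((Nat.sub_le _ _).trans (Nat.pow_le_pow_left hq.le _))
    · rcases m with _ | _ | m
      · omega
      · omega
      · have := Nat.mul_le_mul_right (m + 1 + 1) he
        omega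

theorem KK_three {n : ℕ} (hn : 3 ≤ n) {c : F} (hc : c ≠ 0) :
    KK n c ≤ Fintype.card F ^ (n - 1) + 3 * Fintype.card F ^ (n - 2) := by
  obtain ⟨d, h1, h2, h3⟩ := KK_le n hc
  have h4 := card_Sq_lt F one_ne_zero
  have h5 := card_Sq_lt F two_ne_zero
  have h6 := card_Sq_three F
  have h7 := card_Sq_lt F (n := n) (by omega)
  have h8 : ∀ m, #(Sq F m) ≤ Fintype.card F ^ m ∨ m = 0 := fun m =>
    or_iff_not_imp_right.2 fun h => (Nat.le_succ _).trans (card_Sq_lt F h)
  obtain ⟨q, hq⟩ : ∃ q, Fintype.card F = q + 2 := ⟨_, (Nat.sub_add_cancel Fintype.one_lt_card).symm⟩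
  rw [hq] at h2 h3 h4 h5 h6 h7 h8 ⊢
  refine Nat.le_of_mul_le_mul_left (c := q + 2 - 1) (h3.trans ?_) (by omega)
  rw [show q + 2 - 1 = q + 1 from rfl]
  obtain rfl | rfl | hn : n = 3 ∨ n = 4 ∨ 5 ≤ n := by omega
  · obtain rfl | rfl := (Nat.dvd_prime Nat.prime_three).1 h1
    · simp only [Nat.divisors_one, erase_singleton, sum_empty, add_zero]
      norm_num
      nlinarith
    · rw [show (Nat.divisors 3).erase 1 = {3} by decide, sum_singleton]
      obtain ⟨q, rfl⟩ : ∃ r, q = r + 2 := ⟨q - 2, by omega⟩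
      norm_num
      nlinarith
  · have := Nat.le_of_dvd four_pos h1
    interval_cases d
    · omega
    · simp only [Nat.divisors_one, erase_singleton, sum_empty, add_zero]
      norm_num
      nlinarith [Nat.zero_le (q ^ 2), Nat.zero_le (q ^ 3)]
    · rw [show (Nat.divisors 2).erase 1 = {2} by decide, sum_singleton]
      obtain ⟨q, rfl⟩ : ∃ r, q = r + 1 := ⟨q - 1, by omega⟩
      norm_num
      nlinarith [Nat.zero_le (q ^ 2), Nat.zero_le (q ^ 3)]
    · omega
    · rw [show (Nat.divisors 4).erase 1 = {2, 4} by decide, sum_pair (by simp)]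
      obtain ⟨q, rfl⟩ : ∃ r, q = r + 3 := ⟨q - 3, by omega⟩
      norm_num
      nlinarith [Nat.zero_le (q ^ 2), Nat.zero_le (q ^ 3)]
  · have : ∑ e ∈ d.divisors.erase 1, (e ^ 2 - 1) * #(Sq F (n / e)) ≤ q * (q + 2) ^ (n - 2) := by
      refine (sum_le_card_nsmul _ _ ((q + 2) ^ (n - 2)) fun e he => ?_).trans
        (Nat.mul_le_mul_right _ ((card_le_card (t := Ico 2 (q + 2)) fun e he => ?_).trans (by simp)))
      all_goals
        obtain ⟨h9, he⟩ := mem_erase.1 he
        have h10 := Nat.pos_of_mem_divisors he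
        have h11 := Nat.divisor_le he
      · obtain ⟨m, rfl⟩ := (Nat.dvd_of_mem_divisors he).trans h1
        rw [Nat.mul_div_cancel_left _ h10]
        exact (Nat.mul_le_mul_left _ ((h8 m).resolve_right (by rintro rfl; omega))).trans
          (term_le (by omega) (by omega) hn)
      · exact mem_Ico.2 ⟨by omega, by omega⟩
    obtain ⟨n, rfl⟩ : ∃ m, n = m + 2 := ⟨n - 2, by omega⟩
    rw [show n + 2 - 1 = n + 1 from rfl, Nat.add_sub_cancel] at *
    rw [pow_succ, pow_succ] at h7
    rw [pow_succ]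
    nlinarith [Nat.zero_le ((q + 2) ^ n), Nat.zero_le ((q + 2) ^ n * q)]

theorem KK_half {n : ℕ} (hn : n ≠ 0) {c : F} (hc : c ≠ 0) :
    2 * KK n c ≤ 5 * Fintype.card F ^ (n - 1) := by
  obtain rfl | rfl | hn : n = 1 ∨ n = 2 ∨ 3 ≤ n := by omega
  · have := KK_one hc
    simp only [Nat.sub_self, pow_zero]
    omega
  · simpa using (KK_two hc).2
  · have := KK_three hn hc
    have := Nat.mul_le_mul_left (Fintype.card F ^ (n - 2)) (Fintype.one_lt_card (α := F))
    rw [← pow_succ, show n - 2 + 1 = n - 1 by omega] at this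
    omega

end Cfsg.Agent.H7.KG
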