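import Cfsg.Agent.H7.KGL4

/-!
Class numbers of `GL`, `SL`, `PSL`: upper bounds.
-/

set_option autoImplicit false
set_option linter.dupNamespace false

namespace Cfsg.Agent.H7.KG

open Finset Polynomial H28 Module Matrix

/-- The centre acts on the conjugacy classes. -/
@[reducible] def cact (G : Type*) [Group G] : MulAction (Subgroup.center G) (ConjClasses G) where
  smul z := Quotient.map (z.1 * ·) fun a b h => by
    obtain ⟨c, rfl⟩ := isConj_iff.1 h
    exact isConj_iff.2 ⟨c, by rw [← mul_assoc, Subgroup.mem_center_iff.1 z.2 c]; group⟩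
  one_smul := by rintro ⟨a⟩; exact congrArg ConjClasses.mk (one_mul a)
  mul_smul z w := by rintro ⟨a⟩; exact congrArg ConjClasses.mk (mul_assoc _ _ a)

theorem card_center_mul (G : Type*) [Group G] [Finite G] [Fintype (Subgroup.center G)] :
    Nat.card (Subgroup.center G) * Nat.card (ConjClasses (G ⧸ Subgroup.center G)) =
      ∑ z : Subgroup.center G,
        Nat.card {c : ConjClasses G // ∃ u, ConjClasses.mk u = c ∧ IsConj (z.1 * u) u} := by
  classical
  let _ := cact G
  have := Fintype.ofFinite (ConjClasses G)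
  have := Fintype.ofFinite (MulAction.orbitRel.Quotient (Subgroup.center G) (ConjClasses G))
  have h := MulAction.sum_card_fixedBy_eq_card_orbits_mul_card_group (Subgroup.center G)
    (ConjClasses G)
  simp only [← Nat.card_eq_fintype_card] at h
  rw [mul_comm, ← Nat.card_congr ((Quotient.congrRight (r := MulAction.orbitRel (Subgroup.center G) _) ?_).trans
    (Setoid.quotientKerEquivOfSurjective (ConjClasses.map (QuotientGroup.mk' _))
      (ConjClasses.map_surjective (QuotientGroup.mk'_surjective _)))), ← h]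
  · refine sum_congr rfl fun z _ => Nat.card_congr (Equiv.subtypeEquivRight ?_)
    rintro ⟨a⟩
    refine ⟨fun h => ⟨a, rfl, ConjClasses.mk_eq_mk_iff_isConj.1 h⟩, fun ⟨u, h1, h2⟩ => ?_⟩
    rw [← h1]
    exact ConjClasses.mk_eq_mk_iff_isConj.2 h2
  · rintro ⟨a⟩ ⟨b⟩
    refine ⟨fun ⟨z, h⟩ => ?_, fun h => ?_⟩
    · have := (ConjClasses.mk_eq_mk_iff_isConj.1 h).symm
      refine ConjClasses.mk_eq_mk_iff_isConj.2 ?_
      simpa [(QuotientGroup.eq_one_iff z.1).2 z.2] using
        (QuotientGroup.mk' (Subgroup.center G)).map_isConj this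
    · obtain ⟨⟨c⟩, h⟩ := isConj_iff.1 (ConjClasses.mk_eq_mk_iff_isConj.1 h)
      have h1 : (c * a * c⁻¹)⁻¹ * b ∈ Subgroup.center G := QuotientGroup.eq.1 h
      refine ⟨⟨_, inv_mem h1⟩, ConjClasses.mk_eq_mk_iff_isConj.2 (IsConj.symm (isConj_iff.2 ⟨c, ?_⟩))⟩
      exact Eq.trans (by group) (Subgroup.mem_center_iff.1 (inv_mem h1) b)

variable {F : Type*} [Field F] [Fintype F] {n : ℕ}

theorem card_GL_le : Nat.card (ConjClasses (GL (Fin n) F)) ≤ #(Sq F n) := by
  rw [← Nat.card_eq_finsetCard]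
  refine Nat.card_le_card_of_injective (Quotient.lift (fun g : GL (Fin n) F =>
    ⟨gseq (med g.1), gseq_mem g.det_ne_zero⟩) fun g h e => by simp only [isConj_GL_iff_med.1 e]) ?_
  rintro ⟨g⟩ ⟨h⟩ e
  exact Quotient.sound (isConj_GL_iff_med.2 (gseq_injective (congrArg Subtype.val e)))

theorem card_fiber_le [NeZero n] (g : ℕ → F[X]) : Nat.card {c : ConjClasses (SpecialLinearGroup (Fin n) F) //
    ∃ u, ConjClasses.mk u = c ∧ gseq (med u.1) = g} ≤ dd g := by
  rcases isEmpty_or_nonempty {c : ConjClasses (SpecialLinearGroup (Fin n) F) //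
    ∃ u, ConjClasses.mk u = c ∧ gseq (med u.1) = g} with h | ⟨⟨-, u, -, rfl⟩⟩
  · simp
  rw [H13.card_classes_split SpecialLinearGroup.toGL GeneralLinearGroup.det
    SpecialLinearGroup.toGL_injective (x := SpecialLinearGroup.toGL u) ?_ (Units.ext u.2)
    fun v => by rw [isConj_GL_iff_med, gseq_injective.eq_iff, eq_comm]; rfl,
    MonoidHom.range_eq_top.mpr GeneralLinearGroup.det_surjective, Subgroup.relIndex_top_right]
  · refine Subgroup.index_antitone (iSup_le ?_)
    rintro ⟨k, hk⟩ _ ⟨c, rfl⟩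
    obtain ⟨x, hx, rfl⟩ := exists_of_gseq_ne hk
    obtain ⟨b, h1, h2⟩ := exists_commute_det _ hx c.1
    obtain ⟨b, rfl⟩ := toLin'.surjective b
    rw [LinearMap.det_toLin'] at h2
    refine ⟨GeneralLinearGroup.mkOfDetNeZero b (by simp [h2]),
      Subgroup.mem_centralizer_singleton_iff.2 (Units.ext (toLin'.injective ?_)), Units.ext h2⟩
    exact ((toLin'_mul _ _).trans (h1.symm.trans (toLin'_mul _ _).symm) :)
  · ext g
    exact ⟨fun ⟨a, h⟩ => h ▸ Units.ext a.2, fun h => ⟨⟨g, congrArg Units.val h⟩, Units.ext rfl⟩⟩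

open Classical in
theorem card_SL_le_sum [NeZero n] (P : (ℕ → F[X]) → Prop) (Q : SpecialLinearGroup (Fin n) F → Prop)
    (h : ∀ u, Q u → P (gseq (med u.1))) :
    Nat.card {c : ConjClasses (SpecialLinearGroup (Fin n) F) // ∃ u, ConjClasses.mk u = c ∧ Q u} ≤
      ∑ g ∈ Sq F n with cst n g = (-1) ^ n ∧ P g, dd g := by
  have := Fintype.ofFinite (ConjClasses (SpecialLinearGroup (Fin n) F))
  rw [Nat.subtype_card _ fun _ => (mem_filter_univ _)]
  refine (card_le_card (t := {g ∈ Sq F n | cst n g = (-1) ^ n ∧ P g}.biUnion fun g =>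
    {c | ∃ u, ConjClasses.mk u = c ∧ gseq (med u.1) = g}) fun c hc => ?_).trans
    (card_biUnion_le.trans (sum_le_sum fun g _ => ?_))
  · obtain ⟨u, rfl, hu⟩ := (mem_filter_univ _).1 hc
    exact mem_biUnion.2 ⟨_, mem_filter.2 ⟨gseq_mem (by simp), by simp [cst_gseq], h u hu⟩,
      (mem_filter_univ _).2 ⟨u, rfl, rfl⟩⟩
  · rw [← Nat.subtype_card _ fun _ => (mem_filter_univ _)]
    exact card_fiber_le g

theorem card_SL_le [NeZero n] :
    Nat.card (ConjClasses (SpecialLinearGroup (Fin n) F)) ≤ KK n ((-1) ^ n : F) := by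
  have := card_SL_le_sum (F := F) (n := n) (fun _ => True) (fun _ => True) fun _ _ => trivial
  rw [Nat.card_congr (Equiv.subtypeUnivEquiv fun c => (ConjClasses.mk_surjective c).imp
    fun _ h => ⟨h, trivial⟩)] at this
  exact this.trans (sum_congr (by ext; simp) fun _ _ => rfl).le

theorem card_fix_le [NeZero n] {z : SpecialLinearGroup (Fin n) F}
    (hz : z ∈ Subgroup.center _) (h1 : z ≠ 1) : ∃ m, m ≠ 0 ∧ m ≤ n / 2 ∧
    Nat.card {c : ConjClasses (SpecialLinearGroup (Fin n) F) //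
      ∃ u, ConjClasses.mk u = c ∧ IsConj (z * u) u} ≤ KK m ((-1) ^ n : F) := by
  obtain ⟨r, h2, h3⟩ := Matrix.SpecialLinearGroup.mem_center_iff.1 hz
  rw [Fintype.card_fin] at h2
  have h4 := orderOf_dvd_of_pow_eq_one h2
  have h5 := ne_zero_of_dvd_ne_zero (NeZero.ne n) h4
  have h6 : orderOf r ≠ 1 := fun e => h1 (Subtype.ext (by simp [← h3, orderOf_eq_one_iff.1 e]))
  refine ⟨n / orderOf r, (Nat.div_pos (Nat.le_of_dvd (NeZero.pos n) h4) (by omega)).ne',
    Nat.div_le_div_left (by omega) two_pos, le_trans (card_SL_le_sum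
      (fun g => ∀ k, (g k).scaleRoots r = g k) _ fun u hu k => ?_) (sum_dd_scale_le n _ h5)⟩
  have h7 := isConj_GL_iff_med.1 (SpecialLinearGroup.toGL.map_isConj hu)
  obtain ⟨ζ, rfl⟩ : IsUnit r := IsUnit.of_pow_eq_one h2 (NeZero.ne n)
  rw [← gseq_scl, med, ← ed_smul, ← map_smul]
  refine congrArg (gseq · k) (Eq.trans (congrArg med ?_) h7)
  simp [← h3, smul_eq_diagonal_mul]

end Cfsg.Agent.H7.KG
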