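import Cfsg.Agent.H7.KGL5

/-!
Weighted counts of sequences of monic polynomials subject to a symmetry condition.
-/

set_option autoImplicit false
set_option linter.dupNamespace false

namespace Cfsg.Agent.H7.KG

open Finset Polynomial

variable {F : Type*} [Field F] (U : Type*) [CommGroup U]

/-- The subgroup generated by the `k`-th powers, `k ∈ S`. -/
def HU (S : Set ℕ) : Subgroup U := ⨆ k : S, (powMonoidHom k.1 : U →* U).range

/-- The index attached to a sequence. -/
noncomputable def du (g : ℕ → F[X]) : ℕ := (HU U {k | g k ≠ 1}).index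

theorem du_dvd [Finite U] [IsCyclic U] {g : ℕ → F[X]} {k : ℕ} (h : g k ≠ 1) : du U g ∣ k :=
  (Subgroup.index_dvd_of_le (le_iSup (fun k : {k | g k ≠ 1} => (powMonoidHom k.1 : U →* U).range)
    ⟨k, h⟩)).trans (by rw [IsCyclic.index_powMonoidHom_range]; exact Nat.gcd_dvd_right _ _)

variable {U}

/-- The constant terms can be twisted by the elements of `U`. -/
def Tw (ι : U →* Fˣ) (P : F[X] → Prop) : Prop := ∀ u : U, ∃ φ : F[X] → F[X],
  Set.InjOn φ {g | g.Monic ∧ 0 < g.natDegree} ∧ ∀ g, g.Monic → 0 < g.natDegree → P g →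
    (φ g).Monic ∧ (φ g).natDegree = g.natDegree ∧ (φ g).coeff 0 = ι u * g.coeff 0 ∧ P (φ g)

variable [Fintype F] {ι : U →* Fˣ} (P : F[X] → Prop)

open Classical in
/-- Sequences of polynomials satisfying `P`. -/
noncomputable def SqP (n : ℕ) : Finset (ℕ → F[X]) := {g ∈ Sq F n | ∀ k, P (g k)}

variable {P}

theorem mem_SqP {n : ℕ} {g : ℕ → F[X]} : g ∈ SqP P n ↔ g ∈ Sq F n ∧ ∀ k, P (g k) := by
  simp [SqP]

open Classical in
theorem card_twistP (hT : Tw ι P) (n : ℕ) (S : Set ℕ) {l : U} (hl : l ∈ HU U S) (c : F) :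
    #{g ∈ SqP P n | {k | g k ≠ 1} = S ∧ cst n g = c} ≤
      #{g ∈ SqP P n | {k | g k ≠ 1} = S ∧ cst n g = c * ι l} := by
  induction hl using Subgroup.iSup_induction' generalizing c with
  | h1 => simp
  | hmul x y _ _ hx hy => simpa [mul_assoc] using (hx c).trans (hy _)
  | hp k x hx =>
  obtain ⟨μ, rfl⟩ := hx
  obtain ⟨φ, hφ, hφ'⟩ := hT μ
  have key : ∀ g ∈ Sq F n, {k | g k ≠ 1} = S → 0 < (g k).natDegree ∧ k.1 ∈ Ioc 0 n := fun g hg h => by
    have : g k ≠ 1 := h.ge k.2
    exact ⟨Nat.pos_of_ne_zero fun e => this (((mem_Sq.1 hg).1 k).1.natDegree_eq_zero.1 e),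
      not_not.1 fun e => this ((mem_Sq.1 hg).2.1 k e)⟩
  refine card_le_card_of_injOn (fun g => Function.update g k (φ (g k))) (fun g hg => ?_) ?_
  · simp only [coe_filter, Set.mem_ofPred_eq, mem_SqP] at hg ⊢
    obtain ⟨⟨hg, hP⟩, h1, h2⟩ := hg
    obtain ⟨h3, h4⟩ := key g hg h1
    obtain ⟨h5, h6, h7⟩ := mem_Sq.1 hg
    obtain ⟨a1, a2, a3, a4⟩ := hφ' _ (h5 k).1 h3 (hP k)
    have h8 : ∀ j, (Function.update g k (φ (g k)) j).natDegree = (g j).natDegree := fun j => by
      by_cases e : j = k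
      · rw [e, Function.update_self, a2]
      · rw [Function.update_of_ne e]
    refine ⟨⟨mem_Sq.2 ⟨fun j => ?_, fun j hj => ?_, by simp only [h8, h7]⟩, fun j => ?_⟩, ?_, ?_⟩
    · by_cases e : j = k
      · rw [e, Function.update_self, a3]
        exact ⟨a1, mul_ne_zero (ι μ).ne_zero (h5 k).2⟩
      · rw [Function.update_of_ne e]; exact h5 j
    · rw [Function.update_of_ne (by rintro rfl; exact hj h4), h6 j hj]
    · by_cases e : j = k
      · rwa [e, Function.update_self]
      · rw [Function.update_of_ne e]; exact hP j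
    · refine Eq.trans ?_ h1
      ext j
      by_cases e : j = k
      · subst e
        refine iff_of_true (fun e => ?_) fun e => by simp [e] at h3
        have := h8 k
        rw [e, natDegree_one] at this
        omega
      · simp [Function.update_of_ne e]
    · rw [← h2, cst, cst, ← mul_prod_erase _ _ h4, ← mul_prod_erase _ _ h4, Function.update_self, a3,
        prod_congr rfl fun j hj => by rw [Function.update_of_ne (mem_erase.1 hj).1]]
      simp; ring
  · intro g hg g' hg' e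
    simp only [coe_filter, Set.mem_ofPred_eq, mem_SqP] at hg hg'
    funext j
    have h1 := congrFun e j
    by_cases h : j = k
    · subst h
      simp only [Function.update_self] at h1
      exact hφ ⟨((mem_Sq.1 hg.1.1).1 _).1, (key g hg.1.1 hg.2.1).1⟩
        ⟨((mem_Sq.1 hg'.1.1).1 _).1, (key g' hg'.1.1 hg'.2.1).1⟩ h1
    · simpa [Function.update_of_ne h] using h1

variable [Finite U]

open Classical in
theorem sum_du_le (hι : Function.Injective ι) (hT : Tw ι P) (n : ℕ) {c : F} (hc : c ≠ 0) :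
    Nat.card U * ∑ g ∈ SqP P n with cst n g = c, du U g ≤ ∑ g ∈ SqP P n, du U g ^ 2 := by
  have := Fintype.ofFinite U
  obtain ⟨σ, hσ⟩ : ∃ σ : (ℕ → F[X]) → Set ℕ, σ = fun g => {k | g k ≠ 1} := ⟨_, rfl⟩
  rw [← sum_fiberwise_of_maps_to (s := {g ∈ SqP P n | cst n g = c}) (t := (SqP P n).image σ)
    (g := σ) (fun g h => mem_image_of_mem _ (mem_filter.1 h).1) (du U),
    ← sum_fiberwise_of_maps_to (s := SqP P n) (t := (SqP P n).image σ)
    (g := σ) (fun g h => mem_image_of_mem _ h) fun g => du U g ^ 2, mul_sum]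
  subst hσ
  refine sum_le_sum fun S _ => ?_
  rw [sum_congr rfl fun g h => show du U g = (HU U S).index by rw [← (mem_filter.1 h).2]; rfl,
    sum_congr rfl fun g h => show du U g ^ 2 = (HU U S).index ^ 2 by rw [← (mem_filter.1 h).2]; rfl,
    sum_const, sum_const, smul_eq_mul, smul_eq_mul, ← (HU U S).card_mul_index, mul_mul_mul_comm, sq]
  refine Nat.mul_le_mul_right _ ?_
  have := sum_card_fiberwise_eq_card_filter {g ∈ SqP P n | {k | g k ≠ 1} = S}
    (univ.image fun l : HU U S => c * ι l.1) (cst n)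
  refine le_trans ?_ (this.le.trans (card_filter_le _ _))
  rw [sum_image fun l _ l' _ e => Subtype.ext (hι (Units.ext (mul_left_cancel₀ hc e))),
    Nat.card_eq_fintype_card, ← card_univ, ← smul_eq_mul, ← sum_const]
  refine sum_le_sum fun l _ => ?_
  simpa only [filter_filter, and_comm] using card_twistP hT n S l.2 c

variable [IsCyclic U]

open Classical in
theorem card_du_le {n e : ℕ} (he : e ≠ 0) : #{g ∈ SqP P n | du U g = e} ≤ #(SqP P (n / e)) := by
  have key : ∀ g ∈ {g ∈ SqP P n | du U g = e}, ∀ j, ¬ e ∣ j → g j = 1 := fun g hg j hj =>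
    not_not.1 fun h => hj ((mem_filter.1 hg).2 ▸ du_dvd U h)
  refine card_le_card_of_injOn (fun g k => g (e * k)) (fun g hg => ?_) fun g hg g' hg' h => ?_
  · obtain ⟨h0, hP⟩ := mem_SqP.1 (mem_filter.1 hg).1
    obtain ⟨h1, h2, h3⟩ := mem_Sq.1 h0
    have h4 : ∀ k, e * k ∈ Ioc 0 n ↔ k ∈ Ioc 0 (n / e) := fun k => by
      simp [Nat.le_div_iff_mul_le (Nat.pos_of_ne_zero he), Nat.pos_of_ne_zero he, mul_comm]
    refine mem_SqP.2 ⟨mem_Sq.2 ⟨fun k => h1 _, fun k hk => h2 _ ((h4 k).not.2 hk), ?_⟩, fun k => hP _⟩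
    refine (Nat.div_eq_of_eq_mul_right (Nat.pos_of_ne_zero he) (h3.symm.trans ?_)).symm
    rw [mul_sum, sum_congr rfl fun k _ => (mul_assoc _ _ _).symm, ← sum_image
      (f := fun j => j * (g j).natDegree) (mul_right_injective₀ he).injOn]
    refine (sum_subset (fun j hj => ?_) fun j hj hj' => ?_).symm
    · obtain ⟨k, hk, rfl⟩ := mem_image.1 hj
      exact (h4 k).2 hk
    · rw [key g hg j (by rintro ⟨k, rfl⟩; exact hj' (mem_image_of_mem _ ((h4 k).1 hj)))]; simp
  · funext j
    by_cases hj : e ∣ j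
    · obtain ⟨k, rfl⟩ := hj
      exact congrFun h k
    · rw [key g hg j hj, key g' hg' j hj]

theorem sum_du_sq_le (n : ℕ) : ∑ g ∈ SqP P n, du U g ^ 2 ≤ #(SqP P n) +
    ∑ e ∈ (n.gcd (Nat.card U)).divisors.erase 1, (e ^ 2 - 1) * #(SqP P (n / e)) := by
  classical
  have hq : Nat.card U ≠ 0 := Nat.card_pos.ne'
  have h0 : ∀ g : ℕ → F[X], du U g ≠ 0 := fun g => Subgroup.index_ne_zero_of_finite
  rw [sum_congr rfl fun g _ => (Nat.add_sub_cancel' (Nat.one_le_pow 2 _
    (Nat.pos_of_ne_zero (h0 g)))).symm, sum_add_distrib, ← card_eq_sum_ones,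
    ← sum_fiberwise_of_maps_to (t := (n.gcd (Nat.card U)).divisors) (g := du U)
      fun g hg => Nat.mem_divisors.2 ⟨Nat.dvd_gcd ?_ (Subgroup.index_dvd_card _), by simp [hq]⟩,
    ← add_sum_erase _ _ (Nat.one_mem_divisors.2 (by simp [hq])),
    sum_eq_zero fun g hg => by simp [(mem_filter.1 hg).2], zero_add]
  · refine Nat.add_le_add_left (sum_le_sum fun e he => ?_) _
    rw [sum_congr rfl fun g h => by rw [(mem_filter.1 h).2], sum_const, smul_eq_mul, mul_comm]
    exact Nat.mul_le_mul_left _ (card_du_le (Nat.pos_of_mem_divisors (mem_erase.1 he).2).ne')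
  · rw [← (mem_Sq.1 (mem_SqP.1 hg).1).2.2]
    refine dvd_sum fun k _ => ?_
    by_cases h : g k = 1
    · simp [h]
    · exact (du_dvd U h).mul_right _

open Classical in
theorem card_SqP_le {w : ℕ → ℕ} (hw : ∀ d, #{p ∈ mon F d | P p} ≤ w d) (n : ℕ) :
    #(SqP P n) ≤ PowerSeries.coeff n
      (∏ k ∈ Ioc 0 n, PowerSeries.mk fun m => if k ∣ m then w (m / k) else 0) := by
  rw [PowerSeries.coeff_prod]
  refine (card_le_card (t := (finsuppAntidiag (Ioc 0 n) n).biUnion fun l =>
    ((Ioc 0 n).pi fun k => if k ∣ l k then {p ∈ mon F (l k / k) | P p} else ∅).image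
      fun f k => if h : k ∈ Ioc 0 n then f k h else 1) fun g hg => ?_).trans
    (card_biUnion_le.trans (sum_le_sum fun l _ => card_image_le.trans ?_))
  · obtain ⟨h0, hP⟩ := mem_SqP.1 hg
    obtain ⟨h1, h2, h3⟩ := mem_Sq.1 h0
    simp only [mem_biUnion, mem_image, mem_pi, mem_finsuppAntidiag]
    refine ⟨Finsupp.onFinset (Ioc 0 n) (fun k => k * (g k).natDegree) fun k h => by
      by_contra e; simp [h2 k e] at h, ⟨h3, Finsupp.support_onFinset_subset⟩, fun k _ => g k,
      fun k h => ?_, funext fun k => by split_ifs with h; exacts [rfl, (h2 k h).symm]⟩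
    rw [Finsupp.onFinset_apply, if_pos (dvd_mul_right _ _),
      Nat.mul_div_cancel_left _ (mem_Ioc.1 h).1]
    exact mem_filter.2 ⟨mem_mon.2 ⟨(h1 k).1, rfl, (h1 k).2⟩, hP k⟩
  · rw [card_pi]
    refine prod_le_prod' fun k _ => ?_
    simp only [PowerSeries.coeff_mk]
    split_ifs
    exacts [hw _, le_rfl]

/-- The series `(1 + X ^ k) / (1 - q X ^ k)`. -/
noncomputable def gu (q k : ℕ) : PowerSeries ℕ :=
  PowerSeries.mk fun m => if k ∣ m then (if m / k = 0 then 1 else (q + 1) * q ^ (m / k - 1)) else 0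

theorem gu_eq (q : ℕ) {k : ℕ} (hk : k ≠ 0) :
    gu q k = 1 + PowerSeries.X ^ k + PowerSeries.X ^ k * (PowerSeries.C q * gu q k) := by
  ext m
  simp only [gu, map_add, PowerSeries.coeff_X_pow_mul', PowerSeries.coeff_C_mul, PowerSeries.coeff_mk,
    PowerSeries.coeff_one, PowerSeries.coeff_X_pow]
  by_cases h : k ∣ m
  · obtain ⟨j, rfl⟩ := h
    rcases j with _ | _ | j
    · simp [hk, hk.symm]
    · simp [hk, add_comm, Nat.div_self (Nat.pos_of_ne_zero hk)]
    · simp [hk, Nat.mul_div_cancel_left _ (Nat.pos_of_ne_zero hk), pow_succ,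
        show k * (j + 1 + 1) - k = k * (j + 1) by simp [mul_add], Nat.le_mul_of_pos_right]
      ring
  · rw [if_neg h, if_neg (by rintro rfl; simp at h), if_neg (by rintro rfl; simp at h)]
    by_cases h1 : k ≤ m
    · rw [if_pos h1, if_neg (mt (Nat.dvd_sub_iff_left h1 dvd_rfl).1 h)]; simp
    · simp [h1]

/-- The coefficients of the partial products. -/
noncomputable def cu (q j m : ℕ) : ℕ := PowerSeries.coeff m (∏ k ∈ Ioc 0 j, gu q k)

theorem cu_step {q j : ℕ} {A B : ℝ} (h : ∀ m, cu q j m ≤ A * q ^ m)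
    (hB : A * (q ^ (j + 1) + 1) ≤ B * (q ^ (j + 1) - q)) (hAB : A ≤ B) (m : ℕ) :
    cu q (j + 1) m ≤ B * q ^ m := by
  simp only [cu, prod_Ioc_succ_top j.zero_le] at h ⊢
  generalize ∏ k ∈ Ioc 0 j, gu q k = R at h
  induction m using Nat.strong_induction_on with
  | _ m ih =>
  rw [gu_eq q j.succ_ne_zero, mul_add, mul_add, mul_one, mul_left_comm, mul_left_comm R, mul_comm R,
    map_add, map_add, PowerSeries.coeff_X_pow_mul', PowerSeries.coeff_X_pow_mul']
  split_ifs with h1
  · obtain ⟨m, rfl⟩ := Nat.exists_eq_add_of_le h1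
    rw [Nat.add_sub_cancel_left, PowerSeries.coeff_C_mul]
    have h2 := mul_le_mul_of_nonneg_left (ih m (by omega)) (Nat.cast_nonneg (α := ℝ) q)
    have h3 := h m
    have h4 := h (j + 1 + m)
    have h5 := mul_le_mul_of_nonneg_right hB (show (0 : ℝ) ≤ q ^ m by positivity)
    push_cast [Nat.succ_eq_add_one]
    rw [pow_add] at h4 ⊢
    linarith
  · simpa using (h m).trans (mul_le_mul_of_nonneg_right hAB (by positivity))

theorem cu_one {q : ℕ} (hq : 1 ≤ q) (m : ℕ) : cu q 1 m ≤ ((q : ℝ) + 1) / q * q ^ m := by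
  have : (0 : ℝ) < q := by exact_mod_cast hq
  rcases m with _ | m
  · simp [cu, gu, one_le_div this]
  · simp [cu, gu, pow_succ]
    exact le_of_eq (by field_simp)

theorem cu_bound {q j : ℕ} (hq : 2 ≤ q) {L a : ℝ} (hL : 0 ≤ L) (ha : q + 1 ≤ a * (q - 1))
    (h : ∀ m, cu q j m ≤ L * (1 - a / q ^ j) * q ^ m) {n : ℕ} (hn : j ≤ n) (m : ℕ) :
    cu q n m ≤ L * q ^ m := by
  have h1 : (2 : ℝ) ≤ q := by exact_mod_cast hq
  have h2 : 0 ≤ a := by nlinarith
  suffices ∀ m, cu q n m ≤ L * (1 - a / q ^ n) * q ^ m from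
    (this m).trans (mul_le_mul_of_nonneg_right (mul_le_of_le_one_right hL (sub_le_self _
      (by positivity))) (by positivity))
  induction hn with
  | refl => exact h
  | @step n _ ih =>
  refine cu_step ih ?_ (mul_le_mul_of_nonneg_left (sub_le_sub_left
    (div_le_div_of_nonneg_left h2 (by positivity) (pow_le_pow_right₀ (by linarith) n.le_succ)) _) hL)
  rw [mul_assoc, mul_assoc, pow_succ]
  refine mul_le_mul_of_nonneg_left ?_ hL
  have h3 : (0 : ℝ) < q ^ n := by positivity
  generalize (q : ℝ) ^ n = t at h3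
  rw [← sub_nonneg, show (1 - a / (t * q)) * (t * q - q) - (1 - a / t) * (t * q + 1) =
    a * (q - 1) - (q + 1) + 2 * a / t by field_simp; ring]
  have := sub_nonneg.2 ha
  positivity

theorem cu_le {q : ℕ} (hq : 3 ≤ q) {n : ℕ} (hn : n ≠ 0) (m : ℕ) :
    (q - 2) * cu q n m ≤ (q + 1) * q ^ m := by
  have h1 : (3 : ℝ) ≤ q := by exact_mod_cast hq
  have h2 : (0 : ℝ) < q - 2 := by linarith
  have := cu_bound (q := q) (j := 1) (L := (q + 1) / (q - 2)) (a := 2) (by omega) (by positivity)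
    (by linarith) (fun m => (cu_one (by omega) m).trans_eq (by field_simp)) (n := n) (by omega) m
  rw [div_mul_eq_mul_div, le_div_iff₀' h2] at this
  rw [← Nat.cast_le (α := ℝ)]
  push_cast [show 2 ≤ q by omega]
  exact this

theorem cu_two (m : ℕ) : 2 * cu 2 1 m ≤ 3 * 2 ^ m ∧ 4 * cu 2 2 m ≤ 15 * 2 ^ m ∧
    ∀ n, cu 2 (n + 1) m ≤ 9 * 2 ^ m := by
  have h1 := cu_one (q := 2) one_le_two
  have h2 := cu_step (B := 15 / 4) h1 (by norm_num) (by norm_num)
  have h3 := cu_step (B := 45 / 8) h2 (by norm_num) (by norm_num)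
  have h4 := fun n hn => cu_bound (q := 2) (j := 3) (L := 9) (a := 3) le_rfl (by norm_num)
    (by norm_num) (fun m => (h3 m).trans_eq (by norm_num)) (n := n) hn m
  have : (0 : ℝ) < 2 ^ m := by positivity
  replace h1 := h1 m
  replace h2 := h2 m
  simp only [← Nat.cast_le (α := ℝ)]
  push_cast at *
  refine ⟨by linarith, by linarith, fun n => ?_⟩
  rcases n with _ | _ | n
  exacts [by linarith, by linarith, h4 (n + 3) (by omega)]

theorem sum_term_le {q n d : ℕ} (hq : 3 ≤ q) (hn : 2 ≤ n) (h1 : d ∣ n) (h2 : d ≤ q + 1) :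
    3 * ∑ e ∈ d.divisors.erase 1, (e ^ 2 - 1) * q ^ (n / e) ≤ 5 * q ^ n := by
  obtain ⟨q, rfl⟩ := Nat.exists_eq_add_of_le' hq
  rcases le_or_gt n 4 with h | h
  · have := Nat.le_of_dvd (by omega) h1
    refine le_trans (Nat.mul_le_mul_left _ (sum_le_sum_of_subset (erase_subset_erase _
      (Nat.divisors_subset_of_dvd (by omega) h1)))) ?_
    interval_cases n
    · rw [show (Nat.divisors 2).erase 1 = {2} by decide, sum_singleton]
      norm_num
      nlinarith
    · rw [show (Nat.divisors 3).erase 1 = {3} by decide, sum_singleton]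
      norm_num
      nlinarith [Nat.zero_le (q ^ 2), Nat.zero_le (q ^ 3)]
    · rw [show (Nat.divisors 4).erase 1 = {2, 4} by decide, sum_pair (by simp)]
      norm_num
      nlinarith [Nat.zero_le (q ^ 2), Nat.zero_le (q ^ 3), Nat.zero_le (q ^ 4)]
  · rw [mul_sum, ← Nat.sub_add_cancel (show 1 ≤ n by omega), pow_succ', mul_left_comm,
      Nat.sub_add_cancel (by omega)]
    refine (sum_le_card_nsmul _ _ (5 * (q + 3) ^ (n - 1)) fun e he => ?_).trans
      (Nat.mul_le_mul_right _ ((card_le_card (t := Ioc 1 (q + 3 + 1)) fun e he => ?_).trans (by simp)))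
    all_goals
      obtain ⟨h9, he⟩ := mem_erase.1 he
      have h10 := Nat.pos_of_mem_divisors he
      have h11 := Nat.divisor_le he
    · obtain ⟨m, rfl⟩ := (Nat.dvd_of_mem_divisors he).trans h1
      rw [Nat.mul_div_cancel_left _ h10, ← mul_assoc]
      refine le_trans ?_ (Nat.mul_le_mul_left _ (Nat.pow_le_pow_right (by omega)
        (show 2 + m ≤ _ from ?_)))
      · rw [pow_add, ← mul_assoc]
        have := Nat.pow_le_pow_left (h11.trans h2) 2
        have : e ^ 2 - 1 ≤ (q + 3) ^ 2 + 2 * (q + 3) := by rw [tsub_le_iff_right]; nlinarith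
        exact Nat.mul_le_mul_right _ (by nlinarith)
      · obtain rfl | rfl | h3 : e = 2 ∨ e = 3 ∨ 4 ≤ e := by omega
        · omega
        · omega
        · have := Nat.mul_le_mul_right m h3
          rcases m with _ | m <;> omega
    · exact mem_Ioc.2 ⟨by omega, by omega⟩

theorem su_numerics {q n d K : ℕ} {N : ℕ → ℕ} (hq : 2 ≤ q) (hn : 2 ≤ n) (h1 : d ∣ n) (h2 : d ∣ q + 1)
    (hN : ∀ m, N m ≤ cu q m m)
    (h : (q + 1) * K ≤ N n + ∑ e ∈ d.divisors.erase 1, (e ^ 2 - 1) * N (n / e)) :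
    100 * K ≤ 826 * q ^ (n - 1) := by
  obtain ⟨n, rfl⟩ := Nat.exists_eq_add_of_le' (show 1 ≤ n by omega)
  rw [Nat.add_sub_cancel]
  obtain rfl | hq := hq.eq_or_lt
  · have h3 := (hN _).trans ((cu_two (n + 1)).2.2 n)
    rw [pow_succ] at h3
    obtain rfl | rfl := (Nat.dvd_prime Nat.prime_three).1 h2
    · simp only [Nat.divisors_one, erase_singleton, sum_empty, add_zero] at h
      omega
    rw [show (Nat.divisors 3).erase 1 = {3} by decide, sum_singleton] at h
    obtain ⟨m, hm⟩ := h1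
    rw [hm, Nat.mul_div_cancel_left _ three_pos, ← hm] at h
    have h4 := hN m
    have h5 := cu_two m
    rcases m with _ | _ | _ | m
    · omega
    · obtain rfl : n = 2 := by omega
      norm_num at *
      omega
    · obtain rfl : n = 5 := by omega
      norm_num at *
      omega
    · have h6 := h4.trans (h5.2.2 _)
      have h7 := Nat.pow_le_pow_right two_pos (show m + 1 + 1 + 1 + 4 ≤ n by omega)
      rw [pow_add _ _ 4] at h7
      clear h5
      generalize 2 ^ (m + 1 + 1 + 1) = t at *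
      omega
  · have h3 := sum_term_le hq hn h1 (Nat.le_of_dvd q.succ_pos h2)
    have h4 : (q - 2) * (N (n + 1) + ∑ e ∈ d.divisors.erase 1, (e ^ 2 - 1) * N ((n + 1) / e)) ≤
        (q + 1) * (q ^ (n + 1) + ∑ e ∈ d.divisors.erase 1, (e ^ 2 - 1) * q ^ ((n + 1) / e)) := by
      rw [mul_add, mul_add (q + 1), mul_sum, mul_sum]
      refine add_le_add ((Nat.mul_le_mul_left _ (hN _)).trans (cu_le hq n.succ_ne_zero _))
        (sum_le_sum fun e he => ?_)
      have he := (mem_erase.1 he).2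
      rw [mul_left_comm, mul_left_comm (q + 1)]
      exact Nat.mul_le_mul_left _ ((Nat.mul_le_mul_left _ (hN _)).trans (cu_le hq (Nat.div_pos
        (Nat.le_of_dvd n.succ_pos ((Nat.dvd_of_mem_divisors he).trans h1))
        (Nat.pos_of_mem_divisors he)).ne' _))
    have h5 := Nat.le_of_mul_le_mul_left ((mul_left_comm _ _ _).trans_le
      ((Nat.mul_le_mul_left _ h).trans h4)) q.succ_pos
    obtain ⟨q, rfl⟩ := Nat.exists_eq_add_of_le' hq
    rw [show q + (2 + 1) - 2 = q + 1 from rfl, pow_succ] at *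
    refine Nat.le_of_mul_le_mul_left (c := 3 * (q + 1)) ?_ (by omega)
    nlinarith [Nat.zero_le ((q + (2 + 1)) ^ n), Nat.zero_le (q * (q + (2 + 1)) ^ n)]

end Cfsg.Agent.H7.KG
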