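import Cfsg.Agent.H7.EqDeg
import Cfsg.Agent.H1.Coprime
import Cfsg.Agent.H8.Deg1

/-!
Blocks with a normal defect group.
-/

set_option linter.style.haveILetI false

namespace Cfsg.Agent.H7

open MonoidAlgebra Cfsg Cfsg.Agent.H3 Cfsg.Agent.H4
open Cfsg.Agent.H6 (Res locRing redC redA eB fB intAlg classSum omega chiL)
open scoped Pointwise

section abstract
variable {k G : Type*} [Field k] [Group G] [Finite G] {p : ℕ} [Fact p.Prime] [CharP k p]
  {K H P : Subgroup G} {b e : k[G]} (S : MaxP p K H b P e)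
  (hN : H ≤ Subgroup.normalizer (P : Set G))
include S hN

theorem MaxP.exists_cj_of_normal {Q : Subgroup G} {f e' : k[G]} (h : PLe p K Q f P e)
    (h' : PLe p K Q f P e') : ∃ c ∈ CK K Q, cj c e' = e := by
  induction hn : Nat.card P - Nat.card Q using Nat.strong_induction_on generalizing Q f e' with
  | _ n ih =>
  have hf := h.isPair S.pair
  have he' := h'.isPair_right hf
  by_cases hQ : Q = P
  · subst hQ
    exact ⟨1, one_mem _, by rw [cj_one, ← h'.eq_of_eq he', h.eq_of_eq S.pair]⟩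
  have hlt := lt_inf_normalizer_of_lt S.pair.isPGroup (lt_of_le_of_ne h.le hQ)
  have h4 := card_lt_of_lt' hlt
  have h5 : Nat.card Q < Nat.card P := card_lt_of_lt' (lt_of_le_of_ne h.le hQ)
  set R := P ⊓ Subgroup.normalizer (Q : Set G)
  obtain ⟨g, hg, hg1⟩ := h.exists_nle_of_le S.pair hlt.le inf_le_left inf_le_right
  obtain ⟨g', hg', hg1'⟩ := h'.exists_nle_of_le he' hlt.le inf_le_left inf_le_right
  have hTN : CK K Q ⊔ R ≤ NS H Q f := sup_le (hf.CK_le_NS S.le) (h.inf_le_NS S.pair S.isDef.le)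
  have hTQ : CK K Q ⊔ R ≤ Subgroup.normalizer (Q : Set G) := fun x hx => (mem_NS.1 (hTN hx)).1
  have hTH : CK K Q ⊔ R ≤ H := hTN.trans (NS_le _ _ _)
  have hi : Invt (CK K Q ⊔ R) f := (invt_NS H Q f).mono hTN
  obtain ⟨D, hD⟩ := exists_isDef p (hf.prim le_sup_left hi)
  obtain ⟨x, hx, -, hxD⟩ := S.exists_conj_eq_inf hf (h.le.trans S.isDef.le) (S.br_mul_of_ple h)
    hTQ hTH hi hD
  have hDP : D ≤ P := by
    have : MulAut.conj x • D ≤ MulAut.conj x • P := by
      rw [hxD, mem_normalizer_iff_conj_smul.1 (hN hx)]; exact inf_le_left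
    exact Subgroup.pointwise_smul_le_pointwise_smul_iff.1 this
  have hR := h.isDef_inf_of_card S.pair hTQ hi hD
    (Subgroup.card_le_of_le (le_inf hDP hD.le))
  rw [show P ⊓ (CK K Q ⊔ R) = R from le_antisymm (inf_le_inf_left _ hTQ)
    (le_inf inf_le_left le_sup_right)] at hR
  obtain ⟨t, ht, h1⟩ := local_sylow le_sup_left hTQ (hTH.trans S.norm) hi hR hg hg' le_sup_right
  have hRn : ∀ t ∈ CK K Q ⊔ R, MulAut.conj t • R = R := fun t ht =>
    mem_normalizer_iff_conj_smul.1 (le_normalizer_inf (hTH.trans hN)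
      (hTQ.trans Subgroup.le_normalizer) ht)
  rw [hRn t ht] at h1
  obtain ⟨c, hc, r, hr, rfl⟩ := exists_mul_of_mem_sup
    ((le_sup_right.trans hTN).trans (NS_le_normalizer_CK S.norm Q f)) ht
  have h2 := h1.eq_of_eq hg.right
  rw [← cj_cj, hg'.right.invt r hr] at h2
  have hcH : c ∈ H := S.le hc.2
  have h3 := hg1'.conj_mem (S.norm hcH)
  rw [hRn c (Subgroup.mem_sup_left hc), mem_normalizer_iff_conj_smul.1 (hN hcH), h2] at h3
  obtain ⟨c', hc', e1⟩ := ih _ (by omega) hg1 h3 rfl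
  exact ⟨c' * c, mul_mem (CK_anti hlt.le hc') hc, by rw [← cj_cj, e1]⟩

theorem MaxP.exists_mul_of_normal {Q : Subgroup G} {f : k[G]} (h : PLe p K Q f P e) {x : G}
    (hx : x ∈ NS H Q f) : ∃ c ∈ CK K Q, c * x ∈ NS H P e := by
  obtain ⟨h1, h2, h3⟩ := mem_NS.1 hx
  have h4 := h.conj_mem (S.norm h2)
  rw [mem_normalizer_iff_conj_smul.1 h1, mem_normalizer_iff_conj_smul.1 (hN h2), h3] at h4
  obtain ⟨c, hc, e1⟩ := S.exists_cj_of_normal hN h h4
  have h5 := mul_mem (S.le hc.2) h2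
  exact ⟨c, hc, mem_NS.2 ⟨hN h5, h5, by rw [← cj_cj, e1]⟩⟩

theorem MaxP.nilB_of_normal (h : NS H P e ≤ Subgroup.centralizer (P : Set G) ⊔ P) :
    NilB p K H b := by
  refine S.nilB_iff_ple.2 fun Q f hQ x hx hxp => ?_
  obtain ⟨c, hc, h1⟩ := S.exists_mul_of_normal hN hQ hx
  obtain ⟨u, hu, c', hc', e1⟩ := exists_mul_of_mem_sup'
    (Subgroup.le_normalizer.trans (normalizer_le_normalizer_centralizer P)) (h h1)
  obtain ⟨a, ha⟩ := IsPGroup.exists_pow_eq_one' S.pair.isPGroup hu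
  refine mem_centralizer_of_act_eq (mem_NS.1 hx).1 hxp ha fun q hq => ?_
  rw [← mem_centralizer_iff_conj.1 hc.1 _
    ((Subgroup.mem_normalizer_iff.1 (mem_NS.1 hx).1 q).1 hq)]
  conv_rhs => rw [← mem_centralizer_iff_conj.1 hc' q (hQ.le hq)]
  calc _ = (c * x) * q * (c * x)⁻¹ := by group
    _ = _ := by rw [← e1]; group

end abstract

theorem exists_relIndex_eq_pow {G : Type*} [Group G] [Finite G] {p : ℕ} [hp : Fact p.Prime]
    {N L : Subgroup G} [(N.subgroupOf L).Normal] (h : ∀ g ∈ L, ¬ p ∣ orderOf g → g ∈ N) :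
    ∃ n, N.relIndex L = p ^ n := by
  refine IsPGroup.iff_card.1 fun x => ?_
  obtain ⟨x, rfl⟩ := QuotientGroup.mk_surjective x
  refine ⟨(orderOf (x : G)).factorization p, ?_⟩
  rw [← QuotientGroup.mk_pow, QuotientGroup.eq_one_iff]
  refine h _ (Subgroup.pow_mem _ x.2 _) ?_
  rw [map_pow, Subgroup.subtype_apply, orderOf_pow_of_dvd (pow_ne_zero _ hp.out.ne_zero) (Nat.ordProj_dvd _ _)]
  exact Nat.not_dvd_ordCompl hp.out (orderOf_pos _).ne'

theorem mem_centralizer_of_comap {G : Type*} [Group G] [Finite G] {p : ℕ} [hp : Fact p.Prime]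
    {D N : Subgroup G} [D.Normal] [N.Normal] (hD : IsPGroup p D) (hN : N ≤ ⁅D, D⁆) {g : G}
    (hg : g ∈ (Subgroup.centralizer ((D.map (QuotientGroup.mk' N) : Subgroup (G ⧸ N)) :
      Set (G ⧸ N))).comap (QuotientGroup.mk' N)) (hgp : ¬ p ∣ orderOf g) :
    g ∈ Subgroup.centralizer (D : Set G) := by
  refine H1.le_centralizer_of_commutator_le_frattini (A := Subgroup.zpowers g)
    (by rw [Subgroup.normalizer_eq_top]; exact le_top) ?_ ?_ (Subgroup.mem_zpowers g)
  · obtain ⟨n, hn⟩ := IsPGroup.iff_card.1 (hD.to_subgroup (frattini D))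
    rw [hn, Nat.card_zpowers]
    exact (Nat.Coprime.pow_right _ ((Nat.Prime.coprime_iff_not_dvd hp.out).2 hgp).symm)
  · refine le_trans ?_ (hN.trans (H1.commutator_le_map_frattini hD.isNilpotent))
    refine Subgroup.commutator_le.2 fun d hd y hy => ?_
    have := (Subgroup.zpowers_le.2 hg hy) _ ⟨d, hd, rfl⟩
    rw [← QuotientGroup.ker_mk' N, MonoidHom.mem_ker, map_commutatorElement,
      commutatorElement_eq_one_iff_mul_comm]
    exact this

variable {M : Ideal AlgInt} [hMm : M.IsMaximal] {G : Type*} [Group G] [Finite G] {p : ℕ}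
  [hp : Fact p.Prime] (hM : IsPModular p M)
include hM

/-- a dominated block whose nilpotency forces that of a block with normal defect group -/
theorem exists_dominated_nilB {D N : Subgroup G} [D.Normal] [N.Normal] (hN : N ≤ ⁅D, D⁆)
    {B : (Res M)[G]} (hB : Blk ⊤ B) (hD : IsDef p ⊤ B D) :
    ∃ b : (Res M)[G ⧸ N], Blk ⊤ b ∧ push (Res M) (QuotientGroup.mk' N) B * b = b ∧
      IsDef p ⊤ b (D.map (QuotientGroup.mk' N)) ∧ (NilB p ⊤ ⊤ b → NilB p ⊤ ⊤ B) := by
  haveI := H6.charP_res hM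
  set π := QuotientGroup.mk' N
  have hπ : Function.Surjective π := QuotientGroup.mk'_surjective N
  haveI : (D.map π).Normal := Subgroup.Normal.map inferInstance π hπ
  obtain ⟨e, S⟩ := exists_maxP le_rfl Subgroup.le_normalizer hB hD
  set L := (Subgroup.centralizer ((D.map π : Subgroup (G ⧸ N)) : Set (G ⧸ N))).comap π
  have hL : ∀ g ∈ L, ¬ p ∣ orderOf g → g ∈ Subgroup.centralizer (D : Set G) := fun g hg =>
    mem_centralizer_of_comap hD.isPGroup hN hg
  have hCL : CK ⊤ D ≤ L := by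
    rintro c hc _ ⟨d, hd, rfl⟩
    rw [← map_mul, ← map_mul, hc.1 d hd]
  have hCn : (CK ⊤ D).Normal := by rw [CK_top]; infer_instance
  have hLn : L ≤ Subgroup.normalizer (CK ⊤ D : Set G) := by
    rw [Subgroup.normalizer_eq_top]; exact le_top
  have hND : N ≤ D := hN.trans (Subgroup.commutator_le_left D D)
  obtain ⟨n, hn⟩ := exists_relIndex_eq_pow (p := p) (N := CK ⊤ D) (L := L)
    fun g hg hgp => ⟨hL g hg hgp, trivial⟩
  have h1 := (blk_iff_of_relIndex hM hCL hLn hn).2 (S.blk.orbSum_prim hCL hLn)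
  have hk : π.ker = N := QuotientGroup.ker_mk' N
  have h2 := (blk_push_and_isDef hM (π := π) (N := L)
    (hD.isPGroup.to_le (inf_le_left.trans (hk.le.trans hND)))
    (fun g hg hgp => Subgroup.centralizer_le (inf_le_left.trans (hk.le.trans hND)) (hL g hg hgp))
    h1).1
  rw [Subgroup.map_comap_eq_self_of_surjective hπ, ← CK_top] at h2
  have hDt : (⊤ : Subgroup G) ≤ Subgroup.normalizer (D : Set G) := by
    rw [Subgroup.normalizer_eq_top]
  have h3 : B * orbSum L e = orbSum L e := mul_orbSum (hB.mem.2.mono le_top) (by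
    rw [← br_eq_self_of_idem hD.isPGroup le_top hDt hB.mem hB.idem, S.br_mul])
  obtain ⟨b, hb, h4⟩ := exists_blk_mul_ne_zero ⊤ h2.ne_zero
  have hp' : IsPGroup p (D.map π) := hD.isPGroup.map π
  have h5 : br (D.map π) b = b := br_eq_self_of_idem hp' le_top
    (by rw [Subgroup.normalizer_eq_top]) hb.mem hb.idem
  have h6 : b * push (Res M) π (orbSum L e) = push (Res M) π (orbSum L e) := by
    refine (h2.mul_eq_or (h5 ▸ br_mem_Z le_rfl hb.mem) hb.idem).resolve_left ?_
    rwa [hb.commute (supp_top _)]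
  have h7 : push (Res M) π B * b = b := by
    refine (hb.mul_eq_or (push_mem_Z_top hπ hB.mem) (hB.idem.map _)).resolve_left fun h => ?_
    apply h2.ne_zero
    rw [← h3, map_mul, ← h6, ← mul_assoc, h, zero_mul]
  refine ⟨b, hb, h7, isDef_map_of_br_ne hπ hB hb.mem.2 h7 hD (h5.symm ▸ hb.ne_zero), fun hn => ?_⟩
  refine S.nilB_of_normal hDt ?_
  rw [← CK_top, eq_of_not_dvd_of_forall (C := Subgroup.centralizer (D : Set G))
    (sup_le (S.pair.CK_le_NS le_rfl) (S.pair.le_NS le_top))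
    (S.not_dvd_relIndex S.pair S.isDef_NS)
    (le_sup_of_le_left (inf_le_inf_left _ le_top)) fun x hx hxp => hL x ?_ hxp]
  refine hn _ _ ⟨hp', by rw [Subgroup.normalizer_eq_top]; exact le_top, h2⟩ le_top
    (by rw [h5, h6]) (π x) (mem_NS.2 ⟨by rw [Subgroup.normalizer_eq_top]; trivial, trivial, ?_⟩)
    fun h => hxp (h.trans (orderOf_map_dvd π x))
  rw [← push_cj, cj_orbSum (by rw [Subgroup.normalizer_eq_top]; trivial), (mem_NS.1 hx).2.2]

end Cfsg.Agent.H7
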