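import Cfsg.Agent.H7.PCov
import Cfsg.Agent.H6.Dade2
import Cfsg.Agent.H8.Glaub4
import Cfsg.Agent.H8.Princ
import Cfsg.Agent.H1.Frattini

/-!
Canonical extensions of characters of the principal block.
-/

set_option linter.style.haveILetI false

namespace Cfsg.Agent.H7

open MonoidAlgebra Cfsg Cfsg.Agent.H3 Cfsg.Agent.H4
open Cfsg.Agent.H5 (NEmb detHom)
open scoped Pointwise ComplexConjugate

section rs
variable {J : Type*} [Group J] {p : ℕ}

variable (p) in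
/-- the sum of the values on the `p`-regular elements -/
noncomputable def rs (f : J → ℂ) : ℂ := ∑ᶠ g, pRegularPart p f g

theorem rs_congr {f f' : J → ℂ} (h : ∀ g, ¬ p ∣ orderOf g → f g = f' g) : rs p f = rs p f' :=
  finsum_congr fun g => by
    by_cases hg : p ∣ orderOf g
    · rw [H8.pReg_of_dvd _ hg, H8.pReg_of_dvd _ hg]
    · rw [H8.pReg_of_not_dvd _ hg, H8.pReg_of_not_dvd _ hg, h g hg]

variable [Finite J]

theorem rs_map (σ : ℂ →+* ℂ) (f : J → ℂ) : rs p (fun g => σ (f g)) = σ (rs p f) := by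
  haveI := Fintype.ofFinite J
  rw [rs, rs, finsum_eq_sum_of_fintype, finsum_eq_sum_of_fintype, map_sum]
  refine Finset.sum_congr rfl fun g _ => ?_
  by_cases hg : p ∣ orderOf g
  · rw [H8.pReg_of_dvd _ hg, H8.pReg_of_dvd _ hg, map_zero]
  · rw [H8.pReg_of_not_dvd _ hg, H8.pReg_of_not_dvd _ hg]

theorem rs_comp {K : Type*} [Group K] {φ : K →* J} (hφ : Function.Injective φ)
    (h : ∀ g, ¬ p ∣ orderOf g → g ∈ φ.range) (f : J → ℂ) :
    rs p (fun x => f (φ x)) = rs p f := by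
  haveI := Fintype.ofFinite J
  haveI := Finite.of_injective _ hφ
  haveI := Fintype.ofFinite K
  rw [rs, rs, finsum_eq_sum_of_fintype, finsum_eq_sum_of_fintype]
  refine Fintype.sum_of_injective φ hφ _ _ (fun g hg => H8.pReg_of_dvd _ ?_) fun x => ?_
  · by_contra hc
    exact hg (h g hc)
  · by_cases hx : p ∣ orderOf x
    · rw [H8.pReg_of_dvd _ hx, H8.pReg_of_dvd _ (by rwa [orderOf_injective φ hφ])]
    · rw [H8.pReg_of_not_dvd _ hx, H8.pReg_of_not_dvd _ (by rwa [orderOf_injective φ hφ])]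

theorem mem_principal_iff_rs {M : Ideal AlgInt} (hM : IsPModular p M) (χ : IrrCharacter J) :
    χ ∈ principalBlock M J ↔ rs p (χ : J → ℂ) ≠ 0 := by
  haveI := Fintype.ofFinite J
  haveI := Fact.mk hM.1
  rw [H8.mem_principal_iff hM, rs, finsum_eq_sum_of_fintype]

theorem linear_eq_one [hp : Fact p.Prime] {μ : J →* ℂˣ} {n : ℕ} (hn : ¬ p ∣ n)
    (h : ∀ g, μ g ^ n = 1) (h1 : ∀ g, ¬ p ∣ orderOf g → μ g = 1) : μ = 1 := by
  ext1 g
  have h2 : μ g ^ p ^ (orderOf g).factorization p = 1 := by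
    rw [← map_pow]
    apply h1
    rw [orderOf_pow_of_dvd (pow_ne_zero _ hp.out.ne_zero) (Nat.ordProj_dvd _ _)]
    exact Nat.not_dvd_ordCompl hp.out (orderOf_pos _).ne'
  exact (pow_eq_one_iff_of_coprime
    (Nat.Coprime.pow_left _ ((Nat.Prime.coprime_iff_not_dvd hp.out).2 hn))).1 ⟨h2, h g⟩

omit [Finite J] in
theorem linear_pow_orderOf (μ : J →* ℂˣ) (g : J) : μ g ^ orderOf μ = 1 :=
  DFunLike.congr_fun (pow_orderOf_eq_one μ) g

omit [Finite J] in
theorem orderOf_linear_dvd {μ : J →* ℂˣ} {n : ℕ} (h : ∀ g, μ g ^ n = 1) : orderOf μ ∣ n :=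
  orderOf_dvd_of_pow_eq_one (MonoidHom.ext h)

theorem detHom_linear_mul_apply (lam : J →* ℂˣ) {χ : J → ℂ} (h : IsCharacter J χ) {d : ℕ}
    (hd : χ 1 = d) (g : J) : detHom (fun g => lam g * χ g) g = lam g ^ d * detHom χ g :=
  DFunLike.congr_fun (H5.detHom_linear_mul lam h hd) g

end rs

section emb
variable {N G : Type*} [Group N] [Group G] [Finite G] {p : ℕ} [hp : Fact p.Prime]
  {M : Ideal AlgInt} (hM : IsPModular p M) (E : NEmb N G) {Q : Subgroup N} (hQ : ¬ p ∣ Q.index)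
  (hsup : E.f.range ⊔ Subgroup.centralizer ((Q.map E.f : Subgroup G) : Set G) = ⊤)
  {θ : N → ℂ} (hθ : IsIrrCharacter N θ) (h0 : rs p θ ≠ 0)

include hM hθ h0 in
omit hp in
theorem exists_range_char : ∃ θ' ∈ principalBlock M E.f.range,
    ∀ n, (θ' : E.f.range → ℂ) ⟨E.f n, n, rfl⟩ = θ n := by
  haveI := E.finite
  let e := MonoidHom.ofInjective E.inj
  refine ⟨irrComp e.symm.toMonoidHom e.symm.surjective ⟨θ, hθ⟩, ?_, fun n => ?_⟩
  · rw [mem_principal_iff_rs hM]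
    exact (rs_comp (φ := e.symm.toMonoidHom) e.symm.injective
      (fun g _ => e.symm.surjective g) θ).trans_ne h0
  · exact congrArg θ (e.symm_apply_apply n)

include hM hQ hsup in
theorem exists_Dd_emb : haveI := hM.2.1; ∃ u, H6.Dd M E.f.range u := by
  haveI := hM.2.1
  refine H6.exists_Dd_of_sup hM (Subgroup.map_le_range _ _) ?_ hsup
  rwa [MonoidHom.range_eq_map, Subgroup.relIndex_map_map_of_injective _ _ E.inj,
    Subgroup.relIndex_top_right]

include hM hQ hsup hθ h0 in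
theorem exists_ext_emb (hidx : ¬ p ∣ E.f.range.index) :
    ∃ χ, IsCharacter G χ ∧ ∀ n, χ (E.f n) = θ n := by
  haveI := hM.2.1
  obtain ⟨θ', h1, h2⟩ := exists_range_char hM E hθ h0
  obtain ⟨u, hu⟩ := exists_Dd_emb hM E hQ hsup
  obtain ⟨χ, h3, -⟩ := hu.exists_ext hM hidx h1
  exact ⟨χ, χ.2.isCharacter, fun n => (h3 ⟨E.f n, n, rfl⟩).trans (h2 n)⟩

include hM hQ hsup hθ h0 in
theorem exists_twist_emb {ψ : G → ℂ} (hψ : IsCharacter G ψ) (hext : ∀ n, ψ (E.f n) = θ n) :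
    ∃ lam : G →* ℂˣ, (∀ n, lam (E.f n) = 1) ∧ (∃ m, ¬ p ∣ m ∧ ∀ g, lam g ^ m = 1) ∧
      ∀ (J : Type*) [Group J] [Finite J] (f : J →* G), E.f.range ≤ f.range →
        IsIrrCharacter J (fun y => lam (f y) * ψ (f y)) →
        rs p (fun y => lam (f y) * ψ (f y)) ≠ 0 := by
  haveI := hM.2.1
  obtain ⟨θ', h1, h2⟩ := exists_range_char hM E hθ h0
  obtain ⟨u, hu⟩ := exists_Dd_emb hM E hQ hsup
  have h3 : ∀ n : E.f.range, ψ n = θ'.1 n := by
    rintro ⟨_, n, rfl⟩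
    exact (hext n).trans (h2 n).symm
  obtain ⟨lam, h4, h5⟩ := hu.exists_twist hM h1 hψ h3
  refine ⟨lam.comp (QuotientGroup.mk' _), fun n => ?_, ⟨_, Nat.not_dvd_ordCompl hp.out
    (Subgroup.index_ne_zero_of_finite (H := E.f.range)), fun g => Units.ext (h4 g)⟩,
    fun J _ _ f hf hirr => ?_⟩
  · rw [MonoidHom.comp_apply, QuotientGroup.mk'_apply,
      (QuotientGroup.eq_one_iff _).2 (MonoidHom.mem_range.2 ⟨n, rfl⟩), map_one]
  · have h6 : IsCharacter G fun g : G => (lam g : ℂ) * ψ g :=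
      (isCharacter_linear (lam.comp (QuotientGroup.mk' _))).mul hψ
    exact (mem_principal_iff_rs hM ⟨_, hirr⟩).1 (hu.mem_principal h1
      (H6.chiL_mul_fb_of_res h6 (θ := θ') (e := 1) fun n => by
        rw [(QuotientGroup.eq_one_iff _).2 n.2, map_one, Units.val_one, h3]) h5 f hf fun _ => rfl)

include hM hQ hsup in
theorem eq_one_emb (hidx : ¬ p ∣ E.f.range.index) {χ : G → ℂ} (hχ : IsIrrCharacter G χ)
    {β : G →* ℂˣ} (hβ : ∀ n, β (E.f n) = 1) (h1 : rs p χ ≠ 0)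
    (h2 : rs p (fun g => β g * χ g) ≠ 0) : β = 1 := by
  haveI := hM.2.1
  have h3 : IsIrrCharacter G fun g => β g * χ g := by
    have := hχ.mul_linear β
    rwa [mul_comm] at this
  have := H6.eq_one_of_mul_mem_principal (N := E.f.range) hM hidx (fun σ => ?_)
    ((mem_principal_iff_rs hM ⟨_, hχ⟩).2 h1) ((mem_principal_iff_rs hM ⟨_, h3⟩).2 h2)
    (isIrrCharacter_linear β) (by rw [charKer_linear]; rintro _ ⟨n, rfl⟩; exact hβ n) rfl
  · ext g
    exact congrFun this g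
  · obtain ⟨g, rfl⟩ := QuotientGroup.mk_surjective σ
    have hg : g ∈ ((E.f.range ⊔ Subgroup.centralizer ((Q.map E.f : Subgroup G) : Set G) :
      Subgroup G) : Set G) := by rw [hsup]; trivial
    rw [Subgroup.normal_mul] at hg
    obtain ⟨n, hn, x, hx, rfl⟩ := hg
    refine ⟨x, ?_, fun hd => ?_⟩
    · simp only [QuotientGroup.mk_mul, (QuotientGroup.eq_one_iff n).2 hn, one_mul]
    · have h4 : Q.map E.f ≤ Subgroup.centralizer ({x} : Set G) := fun y hy =>
        H6.mem_centralizer_singleton.2 (hx y hy).symm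
      have h5 := hd.trans (Subgroup.index_dvd_of_le h4)
      rw [Subgroup.index_map_of_injective _ E.inj] at h5
      exact ((Nat.Prime.dvd_mul hp.out).1 h5).elim hQ hidx

omit [Finite G] in
theorem sup_restrict (T : Subgroup G) (h : ∀ n, E.f n ∈ T)
    (hT : T ≤ E.f.range ⊔ Subgroup.centralizer ((Q.map E.f : Subgroup G) : Set G)) :
    (E.restrict T h).f.range ⊔
      Subgroup.centralizer ((Q.map (E.restrict T h).f : Subgroup T) : Set T) = ⊤ := by
  rw [eq_top_iff]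
  rintro ⟨t, ht⟩ -
  have hg : t ∈ ((E.f.range ⊔ Subgroup.centralizer ((Q.map E.f : Subgroup G) : Set G) :
    Subgroup G) : Set G) := hT ht
  rw [Subgroup.normal_mul] at hg
  obtain ⟨_, ⟨n, rfl⟩, x, hx, rfl⟩ := hg
  have hxT : x ∈ T := (Subgroup.mul_mem_cancel_left T (h n)).1 ht
  refine (show (E.restrict T h).f n * ⟨x, hxT⟩ = ⟨_, ht⟩ from rfl) ▸
    Subgroup.mul_mem_sup ⟨n, rfl⟩ ?_
  rintro _ ⟨q, hq, rfl⟩
  exact Subtype.ext (hx _ ⟨q, hq, rfl⟩)

end emb

section main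
variable {G : Type*} [Group G] [Finite G] {p : ℕ} [hp : Fact p.Prime]

variable (p) in
/-- restrictions to extensions of `p'`-index lie in the principal block -/
def Good (N : Subgroup G) (χ : G → ℂ) : Prop :=
  ∀ J : Subgroup G, N ≤ J → ¬ p ∣ N.relIndex J → rs p (fun y : J => χ y) ≠ 0

theorem le_of_index_pow {N U J : Subgroup G} [N.Normal] [U.Normal] (hNU : N ≤ U) {a : ℕ}
    (ha : U.index = p ^ a) (hJ : ¬ p ∣ N.relIndex J) : J ≤ U := by
  intro x hx
  have h1 := hNU (pow_relIndex_mem Subgroup.le_normalizer_of_normal hx)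
  have h2 := U.pow_index_mem x
  rw [ha] at h2
  rw [← QuotientGroup.eq_one_iff, QuotientGroup.mk_pow] at h1 h2
  rw [← QuotientGroup.eq_one_iff]
  exact (pow_eq_one_iff_of_coprime
    (Nat.Coprime.pow_left _ ((Nat.Prime.coprime_iff_not_dvd hp.out).2 hJ))).1 ⟨h2, h1⟩

omit [Finite G] in
theorem not_dvd_relIndex_sup_zpowers {N : Subgroup G} [N.Normal] {g : G} (hg : ¬ p ∣ orderOf g) :
    ¬ p ∣ N.relIndex (N ⊔ Subgroup.zpowers g) := fun h => hg (by
  rw [Subgroup.relIndex_sup_left, H1.relIndex_zpowers_eq_orderOf] at h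
  exact h.trans (orderOf_map_dvd (QuotientGroup.mk' N) g))

theorem Good.mul {N : Subgroup G} [N.Normal] {χ : G → ℂ} (h : Good p N χ) {μ : G →* ℂˣ}
    (h1 : ∀ n ∈ N, μ n = 1) {a : ℕ} (h2 : ∀ g, μ g ^ p ^ a = 1) :
    Good p N fun g => μ g * χ g := by
  intro J hJ hp'
  refine (rs_congr fun y hy => ?_).trans_ne (h J hJ hp')
  have h3 := h2 y
  beta_reduce
  have h4 : μ y ^ orderOf y = 1 := by
    rw [← map_pow, ← Subgroup.coe_pow, pow_orderOf_eq_one, Subgroup.coe_one, map_one]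
  rw [(pow_eq_one_iff_of_coprime
    (Nat.Coprime.pow_left _ ((Nat.Prime.coprime_iff_not_dvd hp.out).2 hy))).1 ⟨h3, h4⟩,
    Units.val_one, one_mul]

variable {M : Ideal AlgInt} (hM : IsPModular p M) {N : Subgroup G} [N.Normal] {Q : Subgroup N}
  (hQ : ¬ p ∣ Q.index) {U : Subgroup G} [U.Normal]
  (hU : U = N ⊔ Subgroup.centralizer ((Q.map N.subtype : Subgroup G) : Set G)) {a : ℕ}
  (ha : U.index = p ^ a) {θ : N → ℂ} (hθ : IsIrrCharacter N θ)
include hM hQ hU ha hθ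

theorem eq_one_of_rs {J : Subgroup G} (hJ : N ≤ J) (hp' : ¬ p ∣ N.relIndex J) {χ : J → ℂ}
    (hχ : IsCharacter J χ) (hext : ∀ n : N, χ ⟨n, hJ n.2⟩ = θ n) {β : J →* ℂˣ}
    (hβ : ∀ n : N, β ⟨n, hJ n.2⟩ = 1) (h1 : rs p χ ≠ 0) (h2 : rs p (fun g => β g * χ g) ≠ 0) :
    β = 1 := by
  let E := (NEmb.ofNormal N).restrict J fun n => hJ n.2
  refine eq_one_emb hM E hQ (sup_restrict _ J _ ?_) ?_ (E.irr_of_ext hθ hχ hext) hβ h1 h2
  · rw [NEmb.ofNormal_range]
    exact hU ▸ le_of_index_pow (hU ▸ le_sup_left) ha hp'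
  · rwa [NEmb.restrict_range, NEmb.ofNormal_range]

theorem eq_of_good {d : ℕ} (hd : θ 1 = d) (hpd : ¬ p ∣ d) {χ χ' : G → ℂ} (hχ : IsCharacter G χ)
    (hχ' : IsCharacter G χ') (h : ∀ n : N, χ n = θ n) (h' : ∀ n : N, χ' n = θ n)
    (hg : Good p N χ) (hg' : Good p N χ') {m : ℕ} (hm : ¬ p ∣ m)
    (h1 : ∀ g, detHom χ g ^ m = 1) (h2 : ∀ g, detHom χ' g ^ m = 1) : χ' = χ := by
  haveI := Fintype.ofFinite G
  haveI := Fintype.ofFinite N
  obtain ⟨μ, h3, rfl⟩ := (NEmb.ofNormal N).exists_linear_of_ext hθ hχ h hχ' h'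
  have h5 : ∀ g, μ g ^ (d * m) = 1 := fun g => by
    have := (congrArg (· ^ m) (detHom_linear_mul_apply μ hχ ((h 1).trans hd) g)).symm.trans (h2 g)
    rwa [mul_pow, h1, mul_one, ← pow_mul] at this
  have := linear_eq_one (fun h => ((Nat.Prime.dvd_mul hp.out).1 h).elim hpd hm) h5 fun g hg1 => by
    have h4 := not_dvd_relIndex_sup_zpowers (N := N) hg1
    have := eq_one_of_rs hM hQ hU ha hθ le_sup_left h4 (hχ.restrict _) h
      (β := μ.comp (Subgroup.subtype _)) h3 (hg _ le_sup_left h4) (hg' _ le_sup_left h4)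
    exact DFunLike.congr_fun this ⟨g, Subgroup.mem_sup_right (Subgroup.mem_zpowers g)⟩
  rw [this]
  ext g
  simp

variable (h0 : rs p θ ≠ 0) (hinv : ∀ g n, θ ((NEmb.ofNormal N).act g n) = θ n)
include h0 hinv

theorem exists_good_of_ext {ψ : G → ℂ} (hψ : IsCharacter G ψ) (hext : ∀ n : N, ψ n = θ n) :
    ∃ χ, IsCharacter G χ ∧ (∀ n : N, χ n = θ n) ∧ Good p N χ ∧ rs p χ ≠ 0 := by
  have hNU : N ≤ U := hU ▸ le_sup_left
  let E := (NEmb.ofNormal N).restrict U fun n => hNU n.2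
  obtain ⟨lam, h1, ⟨m, hm, h2⟩, h3⟩ := exists_twist_emb hM E hQ (sup_restrict _ U _ (by
    rw [NEmb.ofNormal_range]; exact hU.le)) hθ h0 (hψ.restrict U) hext
  have key : ∀ (J : Subgroup G) (hJ : N ≤ J) (hJU : J ≤ U) (g : G),
      let f : J →* U := ((NEmb.ofNormal U).actEquiv g).toMonoidHom.comp (Subgroup.inclusion hJU)
      (∀ n : N, lam (f ⟨n, hJ n.2⟩) = 1) ∧ IsCharacter J (fun y => lam (f y) * ψ y) ∧
        rs p (fun y => lam (f y) * ψ y) ≠ 0 := by
    intro J hJ hJU g f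
    have e1 : ∀ y : J, ψ (f y) = ψ y := fun y => hψ.isClassFunction y g
    have e2 : ∀ n : N, lam (f ⟨n, hJ n.2⟩) = 1 := fun n => h1 ((NEmb.ofNormal N).act g n)
    have e3 : IsCharacter J (fun y => lam (f y) * ψ y) :=
      (isCharacter_linear (lam.comp f)).mul (hψ.restrict J)
    refine ⟨e2, e3, ?_⟩
    have := h3 J f ?_ ?_
    · simpa only [e1] using this
    · rintro _ ⟨n, rfl⟩
      refine ⟨⟨(NEmb.ofNormal N).act g⁻¹ n, hJ (Subtype.prop _)⟩, Subtype.ext ?_⟩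
      change g * (g⁻¹ * n * g⁻¹⁻¹) * g⁻¹ = n
      group
    · simp only [e1]
      exact ((NEmb.ofNormal N).restrict J fun n => hJ n.2).irr_of_ext hθ e3 fun n => by
        change lam (f ⟨n, hJ n.2⟩) * ψ n = _
        rw [e2, Units.val_one, one_mul, hext]
  have hl : ∀ g u, lam ((NEmb.ofNormal U).act g u) = lam u := by
    intro g
    have := linear_eq_one (μ := lam.comp ((NEmb.ofNormal U).actEquiv g).toMonoidHom / lam) hm
      (fun u => by simp [div_pow, h2]) fun y hy => ?_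
    · intro u
      have := DFunLike.congr_fun this u
      simpa [div_eq_one] using this
    have h4 := not_dvd_relIndex_sup_zpowers (N := N) (g := (y : G))
      (by rwa [Subgroup.orderOf_coe])
    have hJU := le_of_index_pow hNU ha h4
    obtain ⟨a1, a2, a3⟩ := key _ le_sup_left hJU 1
    obtain ⟨b1, -, b3⟩ := key _ le_sup_left hJU g
    simp only [MonoidHom.comp_apply, MulEquiv.coe_toMonoidHom, NEmb.actEquiv_apply,
      NEmb.act_one] at a1 a2 a3 b1 b3
    have := eq_one_of_rs hM hQ hU ha hθ le_sup_left h4 a2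
      (fun n => by rw [a1, Units.val_one, one_mul, hext])
      (β := (lam.comp ((NEmb.ofNormal U).actEquiv g).toMonoidHom / lam).comp
        (Subgroup.inclusion hJU)) (fun n => by simp [a1, b1]) a3 (by simpa [← mul_assoc] using b3)
    exact DFunLike.congr_fun this ⟨y, Subgroup.mem_sup_right (Subgroup.mem_zpowers _)⟩
  obtain ⟨μ, hμ, -⟩ := (NEmb.ofNormal U).exists_linear_ext_of_coprime hl (by
    rw [NEmb.ofNormal_range, ha]
    exact Nat.Coprime.pow_left _ ((Nat.Prime.coprime_iff_not_dvd hp.out).2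
      fun h => hm (h.trans (orderOf_linear_dvd h2))))
  have h5 : ∀ J : Subgroup G, N ≤ J → J ≤ U → rs p (fun y : J => μ y * ψ y) ≠ 0 := by
    intro J hJ hJU
    have := (key J hJ hJU 1).2.2
    simp only [MonoidHom.comp_apply, MulEquiv.coe_toMonoidHom, NEmb.actEquiv_apply,
      NEmb.act_one, ← hμ] at this
    exact this
  refine ⟨fun g => μ g * ψ g, (isCharacter_linear μ).mul hψ, fun n => ?_,
    fun J hJ h => h5 J hJ (le_of_index_pow hNU ha h), ?_⟩
  · have : μ n = 1 := (hμ ⟨n, hNU n.2⟩).trans (h1 n)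
    simp only [this, Units.val_one, one_mul, hext]
  · rw [← rs_comp U.subtype_injective fun g hg => by
      rw [Subgroup.range_subtype]; exact H6.mem_of_not_dvd_orderOf hp.out ⟨a, ha⟩ hg]
    exact h5 U hNU le_rfl

theorem exists_good {d : ℕ} (hd : θ 1 = d) (hpd : ¬ p ∣ d) (hdet : ¬ p ∣ detOrder θ) :
    ∃ χ, IsCharacter G χ ∧ (∀ n : N, χ n = θ n) ∧ Good p N χ ∧ rs p χ ≠ 0 ∧
      ∃ m, ¬ p ∣ m ∧ ∀ g, detHom χ g ^ m = 1 := by
  obtain ⟨ψ, hψ, hext⟩ := (NEmb.ofNormal N).exists_ext_of_forall_prime hθ hinv fun r hr _ => by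
    haveI := Fact.mk hr
    obtain ⟨S⟩ : Nonempty (Sylow r G) := inferInstance
    obtain ⟨k, hk⟩ := exists_relIndex_sup_eq_pow (N := N) S.isPGroup'
      Subgroup.le_normalizer_of_normal
    let E := (NEmb.ofNormal N).restrict (N ⊔ S) fun n => Subgroup.mem_sup_left n.2
    have hi : E.f.range.index = r ^ k := by rwa [NEmb.restrict_range, NEmb.ofNormal_range]
    have h1 : ¬ r ∣ (N ⊔ S : Subgroup G).index := fun h =>
      S.not_dvd_index (h.trans (Subgroup.index_dvd_of_le le_sup_right))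
    by_cases hrp : r = p
    · subst hrp
      obtain ⟨η, h2, h3, -⟩ := E.exists_canonical_ext hθ (fun g n => hinv g n) hd
        (hi ▸ Nat.Coprime.pow_left _ ((Nat.Prime.coprime_iff_not_dvd hr).2 hpd))
        (hi ▸ Nat.Coprime.pow_left _ ((Nat.Prime.coprime_iff_not_dvd hr).2 hdet))
      exact ⟨_, _, η, h1, h2.isCharacter, h3⟩
    · have h2 : ¬ p ∣ r ^ k := fun h =>
        hrp ((Nat.prime_dvd_prime_iff_eq hp.out hr).1 (hp.out.dvd_of_dvd_pow h)).symm
      obtain ⟨η, h3, h4⟩ := exists_ext_emb hM E hQ (sup_restrict _ _ _ (by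
        rw [NEmb.ofNormal_range]
        exact hU ▸ le_of_index_pow (hU ▸ le_sup_left) ha (hk ▸ h2))) hθ h0 (hi ▸ h2)
      exact ⟨_, _, η, h1, h3, h4⟩
  obtain ⟨χ, h1, h2, h3, h4⟩ := exists_good_of_ext hM hQ hU ha hθ h0 hinv hψ.isCharacter hext
  obtain ⟨k, m, hm, e⟩ := Nat.exists_eq_pow_mul_and_not_dvd
    (H5.orderOf_linear_pos (detHom χ)).ne' p hp.out.ne_one
  obtain ⟨t, ht⟩ : ∃ t, p ^ k ∣ m * t * d + 1 := by
    have hc : (m * d).Coprime (p ^ k) := (Nat.Coprime.pow_left _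
      ((Nat.Prime.coprime_iff_not_dvd hp.out).2
        fun h => ((Nat.Prime.dvd_mul hp.out).1 h).elim hm hpd)).symm
    obtain ⟨t, ht⟩ := Nat.exists_mul_mod_eq_of_coprime (p ^ k - 1) hc (pow_ne_zero _ hp.out.ne_zero)
    refine ⟨t, ?_⟩
    have h5 : m * d * t + 1 ≡ p ^ k - 1 + 1 [MOD p ^ k] := Nat.ModEq.add_right _ ht.2
    rw [Nat.sub_add_cancel (Nat.one_le_pow _ _ hp.out.pos)] at h5
    rw [mul_right_comm]
    exact (h5.dvd_iff dvd_rfl).2 dvd_rfl
  let μ : G →* ℂˣ := (powMonoidHom (m * t)).comp (detHom χ)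
  have hμ : ∀ g, μ g = detHom χ g ^ (m * t) := fun _ => rfl
  have h5 : ∀ g, μ g ^ p ^ k = 1 := fun g => by
    rw [hμ, ← pow_mul, mul_comm, ← mul_assoc, ← e, pow_mul, linear_pow_orderOf, one_pow]
  have h6 : ∀ n ∈ N, μ n = 1 := by
    intro n hn
    have h8 : detHom χ n ^ detOrder θ = 1 := by
      rw [show detHom χ n = detHom θ ⟨n, hn⟩ from (NEmb.ofNormal N).detHom_ext h1 h2 ⟨n, hn⟩,
        H5.detOrder_eq, linear_pow_orderOf]
    refine (pow_eq_one_iff_of_coprime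
      (Nat.Coprime.pow_left k ((Nat.Prime.coprime_iff_not_dvd hp.out).2 hdet))).1 ⟨h5 n, ?_⟩
    rw [hμ, ← pow_mul, mul_comm, pow_mul, h8, one_pow]
  refine ⟨fun g => μ g * χ g, (isCharacter_linear _).mul h1, fun n => ?_,
    h3.mul h6 h5, (rs_congr fun y hy => ?_).trans_ne h4, m, hm, fun g => ?_⟩
  · simp only [h6 n n.2, Units.val_one, one_mul, h2]
  · have h8 : μ y ^ orderOf y = 1 := by rw [← map_pow, pow_orderOf_eq_one, map_one]
    rw [(pow_eq_one_iff_of_coprime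
      (Nat.Coprime.pow_left _ ((Nat.Prime.coprime_iff_not_dvd hp.out).2 hy))).1 ⟨h5 y, h8⟩,
      Units.val_one, one_mul]
  · obtain ⟨s, hs⟩ := ht
    rw [detHom_linear_mul_apply _ h1 ((h2 1).trans hd), hμ, ← pow_mul, ← pow_succ, hs, ← pow_mul,
      mul_right_comm, ← e, pow_mul, linear_pow_orderOf, one_pow]

end main

end Cfsg.Agent.H7
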