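import Cfsg.Agent.H7.OneCls
import Cfsg.Agent.H6.Princ
import Cfsg.Agent.H6.Fr8
import Cfsg.Agent.H8.Subsec3
import Cfsg.Agent.H3.Action

/-!
Pairs of elements of order `p` generating `p`-solvable subgroups.
-/

set_option autoImplicit false
set_option linter.style.haveILetI false

open Cfsg Subgroup
open scoped Pointwise ComplexConjugate

namespace Cfsg.Agent.H7

open Cfsg.Agent.H4

section Grp
variable {p : ℕ} [hp : Fact p.Prime] {K : Type*} [Group K] [Finite K]

theorem exists_injective_sylow (P : Sylow p K) {L : Type*} [Group L] (hL : IsPGroup p L)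
    (f : L →* K) (hf : Function.Injective f) :
    ∃ φ : L →* (P : Subgroup K), Function.Injective φ := by
  obtain ⟨S, hS⟩ := ((hL.of_equiv topEquiv.symm).map f).exists_le_sylow
  exact ⟨(S.equiv P).toMonoidHom.comp (f.codRestrict _ fun x => hS ⟨x, mem_top x, rfl⟩),
    (S.equiv P).injective.comp fun a b e => hf (congrArg Subtype.val e)⟩

theorem exists_mk_eq_of_comm (hK : IsPSolvable p K)
    (hab : ∀ S : Sylow p K, ∀ a b : (S : Subgroup K), a * b = b * a) (S : Sylow p K) {y : K}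
    (hy : ∃ k, orderOf y = p ^ k) :
    ∃ s ∈ (S : Subgroup K), (y : K ⧸ pPrimeCore p K) = s := by
  have key : ∀ S : Sylow p K, (S : Subgroup K).map (QuotientGroup.mk' (pPrimeCore p K)) =
      pCore p (K ⧸ pPrimeCore p K) := fun S => by
    have h1 := H1.pCore_le_sylow (S.mapSurjective (QuotientGroup.mk'_surjective (pPrimeCore p K)))
    refine le_antisymm (le_trans ?_ (H9.centralizer_pCore_le_of_isPSolvable
      (H9.isPSolvable_quotient hK _) (H1.pPrimeCore_quotient_pPrimeCore p))) h1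
    rintro _ ⟨a, ha, rfl⟩ z hz
    obtain ⟨b, hb, rfl⟩ := h1 hz
    rw [← map_mul, ← map_mul]
    exact congrArg _ (congrArg Subtype.val (hab S ⟨b, hb⟩ ⟨a, ha⟩))
  obtain ⟨T, hT⟩ := (H6.isPGroup_zpowers hp.out hy).exists_le_sylow
  have : QuotientGroup.mk' _ y ∈ (S : Subgroup K).map (QuotientGroup.mk' (pPrimeCore p K)) := by
    rw [key, ← key T]; exact ⟨y, hT (mem_zpowers y), rfl⟩
  obtain ⟨s, hs, e⟩ := this
  exact ⟨s, hs, e.symm⟩

theorem eq_one_of_mem_of_coprime {N : Subgroup K} (hN : (Nat.card N).Coprime p) {x : K}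
    (hx : ∃ k, orderOf x = p ^ k) (h : x ∈ N) : x = 1 := by
  obtain ⟨k, hk⟩ := hx
  exact orderOf_eq_one_iff.1 (Nat.eq_one_of_dvd_coprimes (hN.pow_right k)
    (orderOf_dvd_natCard _ h) hk.dvd)

theorem isConj_of_mk_eq {N : Subgroup K} [N.Normal] (hN : (Nat.card N).Coprime p) {z a : K}
    (hz : ∃ k, orderOf z = p ^ k) (ha : ∃ k, orderOf a = p ^ k) (h : (z : K ⧸ N) = a) :
    IsConj z a := by
  have hA := H6.isPGroup_zpowers hp.out ha
  have hS : H3.SylowIn p (zpowers a) (N ⊔ zpowers a) :=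
    H3.sylowIn_of_forall_eq hA le_sup_right fun R hR h1 h2 => le_antisymm (fun r hr => by
      have h3 := h1 hr
      rw [← SetLike.mem_coe, normal_mul] at h3
      obtain ⟨n, hn, b, hb, rfl⟩ := h3
      have h4 : n ∈ R := (Subgroup.mul_mem_cancel_right _ (h2 hb)).1 hr
      rw [eq_one_of_mem_of_coprime hN (H6.exists_orderOf_eq_of_mem hp.out hR h4) hn]
      simpa using hb) h2
  have hzm : z ∈ N ⊔ zpowers a := by
    have := mul_mem_sup (inv_mem ((QuotientGroup.eq_iff_div_mem).1 h.symm)) (mem_zpowers a)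
    simpa using this
  obtain ⟨g, hg, hle⟩ := hS.exists_conj_le (H6.isPGroup_zpowers hp.out hz) (zpowers_le.2 hzm)
  have h1 : g * z * g⁻¹ ∈ zpowers a := hle (H3.conj_mem_conj_smul.2 (mem_zpowers z))
  rw [← SetLike.mem_coe, sup_comm, mul_normal] at hg
  obtain ⟨b, hb, n, hn, rfl⟩ := hg
  have h2 : n * z * n⁻¹ ∈ zpowers a := by
    have := mul_mem (mul_mem (inv_mem hb) h1) hb
    rwa [show b⁻¹ * (b * n * z * (b * n)⁻¹) * b = n * z * n⁻¹ by group] at this
  refine isConj_iff.2 ⟨n, mul_inv_eq_one.1 (eq_one_of_mem_of_coprime hN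
    (H6.exists_orderOf_eq_of_mem hp.out hA (mul_mem h2 (inv_mem (mem_zpowers a)))) ?_)⟩
  rw [← QuotientGroup.eq_one_iff]
  simp [(QuotientGroup.eq_one_iff n).2 hn, h]

theorem not_dvd_or_not_dvd (hp2 : p ≠ 2) (hK : IsPSolvable p K)
    (hab : ∀ S : Sylow p K, ∀ a b : (S : Subgroup K), a * b = b * a) {x y : K}
    (hx : orderOf x = p) (hy : orderOf y = p) : p ∣ orderOf (x * y) ∨ p ∣ orderOf (x * y⁻¹) := by
  by_contra hc
  obtain ⟨h1, h2⟩ := not_or.1 hc
  obtain ⟨S, hS⟩ := (H6.isPGroup_zpowers hp.out ⟨1, by rw [hx, pow_one]⟩).exists_le_sylow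
  have hxS := hS (mem_zpowers x)
  obtain ⟨s, hs, e⟩ := exists_mk_eq_of_comm hK hab S (y := y) ⟨1, by rw [hy, pow_one]⟩
  have hO := H1.coprime_card_pPrimeCore p K
  have key : ∀ g t : K, ¬ p ∣ orderOf g → t ∈ (S : Subgroup K) →
      (g : K ⧸ pPrimeCore p K) = t → t = 1 := fun g t hg ht e => by
    obtain ⟨k, hk⟩ := H6.exists_orderOf_eq_of_mem hp.out S.2 ht
    refine eq_one_of_mem_of_coprime hO ⟨k, hk⟩ ((QuotientGroup.eq_one_iff t).1 ?_)
    refine orderOf_eq_one_iff.1 (Nat.eq_one_of_dvd_coprimes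
      (((Nat.Prime.coprime_iff_not_dvd hp.out).2 hg).symm.pow_right k) ?_ ?_)
    · rw [← e]; exact orderOf_map_dvd (QuotientGroup.mk' _) g
    · rw [← hk]; exact orderOf_map_dvd (QuotientGroup.mk' _) t
  have e1 := key _ _ h1 (mul_mem hxS hs) (by simp [e])
  have e2 := key _ _ h2 (mul_mem hxS (inv_mem hs)) (by simp [e])
  have e3 : x ^ 2 = 1 := by rw [pow_two]; nth_rw 2 [mul_inv_eq_one.1 e2]; exact e1
  exact hp2 ((Nat.prime_dvd_prime_iff_eq hp.out Nat.prime_two).1 (hx ▸ orderOf_dvd_of_pow_eq_one e3))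

theorem exists_pow_eq_of_isCyclic {S : Type*} [Group S] [Finite S] [IsCyclic S] {a b : S}
    (ha : orderOf a = p) (hb : b ^ p = 1) : ∃ k : ℕ, a ^ k = b := by
  classical
  haveI := Fintype.ofFinite S
  have h1 := IsCyclic.card_pow_eq_one_le (α := S) hp.out.pos
  have h2 : (zpowers a : Set S).toFinset = Finset.univ.filter fun c : S => c ^ p = 1 := by
    refine Finset.eq_of_subset_of_card_le (fun c hc => ?_) (h1.trans_eq ?_)
    · obtain ⟨k, rfl⟩ := Set.mem_toFinset.1 hc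
      simp only [Finset.mem_filter, Finset.mem_univ, true_and]
      rw [← zpow_natCast, ← zpow_mul, mul_comm, zpow_mul, zpow_natCast, ← ha, pow_orderOf_eq_one,
        one_zpow]
    · rw [← Nat.card_eq_card_toFinset, SetLike.coe_sort_coe, Nat.card_zpowers, ha]
  have h3 : b ∈ (zpowers a : Set S).toFinset := by rw [h2]; simpa using hb
  exact (mem_powers_iff_mem_zpowers.2 (Set.mem_toFinset.1 h3) : b ∈ Submonoid.powers a)

theorem exists_pPart_isConj (hK : IsPSolvable p K)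
    (hc : ∀ S : Sylow p K, IsCyclic (S : Subgroup K)) {x y : K}
    (hx : orderOf x = p) (hy : orderOf y = p) : ∃ k : ℕ, k.Coprime p ∧ ∀ i j : ℕ, ∃ z,
      IsPPart p (x ^ i * (y ^ k) ^ j) z ∧ IsConj z (x ^ i * (x ^ j)⁻¹) := by
  have hA := H6.isPGroup_zpowers hp.out ⟨1, by rw [hx, pow_one]⟩
  obtain ⟨S, hS⟩ := hA.exists_le_sylow
  have hxS := hS (mem_zpowers x)
  haveI := hc S
  obtain ⟨s, hs, e⟩ := exists_mk_eq_of_comm hK
    (fun S => haveI := hc S; IsCyclic.commGroup.mul_comm) S (y := y) ⟨1, by rw [hy, pow_one]⟩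
  have hO := H1.coprime_card_pPrimeCore p K
  have hsp : s ^ p = 1 := eq_one_of_mem_of_coprime hO
    (H6.exists_orderOf_eq_of_mem hp.out S.2 (pow_mem hs p)) (by
      rw [← QuotientGroup.eq_one_iff, QuotientGroup.mk_pow, ← e, ← QuotientGroup.mk_pow, ← hy,
        pow_orderOf_eq_one, QuotientGroup.mk_one])
  have hs1 : s ≠ 1 := fun h => by
    rw [h, QuotientGroup.mk_one, QuotientGroup.eq_one_iff] at e
    rw [eq_one_of_mem_of_coprime hO ⟨1, by rw [hy, pow_one]⟩ e, orderOf_one] at hy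
    exact hp.out.one_lt.ne hy
  obtain ⟨k, hk⟩ := exists_pow_eq_of_isCyclic (p := p) (a := (⟨s, hs⟩ : (S : Subgroup K)))
    (b := ⟨x⁻¹, inv_mem hxS⟩) (by rw [← orderOf_coe]; exact orderOf_eq_prime hsp hs1)
    (Subtype.ext (by simp [← hx]))
  have hk' : s ^ k = x⁻¹ := congrArg Subtype.val hk
  refine ⟨k, ((Nat.Prime.coprime_iff_not_dvd hp.out).2 fun hm => ?_).symm, fun i j => ?_⟩
  · obtain ⟨m, hm⟩ := hm
    rw [hm, pow_mul, hsp, one_pow, eq_comm, inv_eq_one] at hk'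
    rw [hk', orderOf_one] at hx
    exact hp.out.one_lt.ne hx
  · obtain ⟨z, hz⟩ := H6.exists_isPPart hp.out (x ^ i * (y ^ k) ^ j)
    have ha : ∃ n, orderOf (x ^ i * (x ^ j)⁻¹) = p ^ n := H6.exists_orderOf_eq_of_mem hp.out hA
      (mul_mem (pow_mem (mem_zpowers x) i) (inv_mem (pow_mem (mem_zpowers x) j)))
    refine ⟨z, hz, isConj_of_mk_eq hO (H6.IsPPart.pow_order hz) ha ?_⟩
    have h1 := H6.IsPPart.map hp.out hz (QuotientGroup.mk' (pPrimeCore p K))
    have h2 := H6.IsPPart.map hp.out (H6.isPPart_self hp.out ha) (QuotientGroup.mk' (pPrimeCore p K))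
    have h3 : QuotientGroup.mk' (pPrimeCore p K) (x ^ i * (y ^ k) ^ j) =
        QuotientGroup.mk' (pPrimeCore p K) (x ^ i * (x ^ j)⁻¹) := by
      rw [← inv_pow, ← hk']
      simp [e]
    rw [h3] at h1
    exact H6.IsPPart.unique hp.out h1 h2

theorem hasNormalPComplement_of_isCyclic (P : Sylow p K) [IsCyclic (P : Subgroup K)] {u : K}
    (hu : u ∈ (P : Subgroup K)) (ou : orderOf u = p)
    (h : ∀ g ∈ normalizer ((P : Subgroup K) : Set K), g * u * g⁻¹ = u) :
    HasNormalPComplement p K := by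
  haveI := Fintype.ofFinite (P : Subgroup K)
  have hc : ∀ a b : (P : Subgroup K), a * b = b * a := IsCyclic.commGroup.mul_comm
  refine H3.hasNormalPComplement_of_forall_prime P ⟨⟨hc⟩⟩ fun q A hq hqp _ hA hAN g hg => ?_
  haveI := Fact.mk hq
  obtain ⟨k, hk⟩ := H6.exists_orderOf_eq_of_mem hq hA hg
  have h1 := H6.aut_eq_one_of_fix hc P.2 (α := normalizerMonoidHom _ ⟨g, hAN hg⟩) (fun hd => by
    have := hd.trans (orderOf_map_dvd _ _)
    rw [← orderOf_coe, hk] at this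
    exact hqp ((Nat.prime_dvd_prime_iff_eq hp.out hq).1 (hp.out.dvd_of_dvd_pow this)).symm)
    fun v hv => by
      obtain ⟨m, rfl⟩ := exists_pow_eq_of_isCyclic (p := p) (a := (⟨u, hu⟩ : (P : Subgroup K)))
        (by rw [← orderOf_coe]; exact ou) hv
      rw [map_pow]
      exact congrArg (· ^ m) (Subtype.ext (h g (hAN hg)))
  intro v hv
  have h2 : g * v * g⁻¹ = v :=
    congrArg Subtype.val (DFunLike.congr_fun h1 (⟨v, hv⟩ : (P : Subgroup K)))
  exact (mul_inv_eq_iff_eq_mul.1 h2).symm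

end Grp

section Char
variable {G : Type*} [Group G] [Fintype G]

/-- characters are positive definite functions -/
theorem re_sum_nonneg {χ : G → ℂ} (hχ : IsIrrCharacter G χ) {ι : Type*} (s : Finset ι)
    (c : ι → ℝ) (g : ι → G) :
    0 ≤ (∑ i ∈ s, ∑ j ∈ s, (c i * c j : ℂ) * χ ((g i)⁻¹ * g j)).re := by
  obtain ⟨n, hn, h1⟩ := hχ.exists_degree
  have hn' : (n : ℂ) ≠ 0 := Nat.cast_ne_zero.2 hn.ne'
  have hG : (Nat.card G : ℂ) ≠ 0 := Nat.cast_ne_zero.2 Nat.card_pos.ne'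
  have h2 : ∀ a b : G, χ (a⁻¹ * b) = (n / Nat.card G) * ∑ h, χ (h * b) * conj (χ (h * a)) :=
    fun a b => by
      have := hχ.sum_apply_mul_mul_conj hχ.isClassFunction (a⁻¹ * b)
      rw [hχ.classInner_self, h1] at this
      rw [← Equiv.sum_comp (Equiv.mulRight a⁻¹)]
      simp only [Equiv.coe_mulRight, inv_mul_cancel_right, mul_assoc _ a⁻¹ b]
      rw [this]
      field_simp
  have h3 : ∑ i ∈ s, ∑ j ∈ s, (c i * c j : ℂ) * χ ((g i)⁻¹ * g j) = ((n / Nat.card G *
      ∑ h, Complex.normSq (∑ j ∈ s, c j * χ (h * g j)) : ℝ) : ℂ) := by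
    push_cast
    simp only [h2, Complex.normSq_eq_conj_mul_self, map_sum, map_mul, Complex.conj_ofReal,
      Finset.sum_mul, Finset.mul_sum]
    rw [Finset.sum_comm (s := Finset.univ), Finset.sum_comm]
    refine Finset.sum_congr rfl fun i _ => ?_
    rw [Finset.sum_comm (s := Finset.univ)]
    exact Finset.sum_congr rfl fun j _ => Finset.sum_congr rfl fun h _ => by ring
  rw [h3, Complex.ofReal_re]
  exact mul_nonneg (by positivity) (Finset.sum_nonneg fun _ _ => Complex.normSq_nonneg _)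

end Char

end Cfsg.Agent.H7
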