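import Cfsg.Agent.H7.LS3

/-!
Projections onto the eigenspaces of an elementary abelian subgroup.
-/

set_option autoImplicit false
set_option linter.dupNamespace false

namespace Cfsg.Agent.H7.LS

open Finset Module Cfsg.Agent.H12

variable {F U G M : Type*} [Field F] [AddCommGroup U] [Module F U] [Group G] [AddCommGroup M]
  [Module ℂ M] (ρ : G →* End ℂ M) (ψ : AddChar F ℂ) (t : U → G)

/-- The joint eigenspace. -/
def eig (φ : Dual F U) : Submodule ℂ M where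
  carrier := {w | ∀ u, ρ (t u) w = ψ (φ u) • w}
  add_mem' ha hb u := by rw [map_add, ha, hb, smul_add]
  zero_mem' u := by simp
  smul_mem' c w hw u := by rw [map_smul, hw, smul_comm]

theorem chain {P : Dual F U → Prop} [FiniteDimensional F U] (h2 : 2 ≤ finrank F U)
    (h3 : ∀ φ₁ φ₂ x, P φ₁ → φ₁ x = 1 → φ₂ x = 1 → P φ₂) {φ φ' : Dual F U} (h : P φ) (h0 : φ ≠ 0)
    (hφ' : φ' ≠ 0) : P φ' := by
  have hx : ∀ φ : Dual F U, φ ≠ 0 → ∃ x, φ x = 1 := fun φ h =>
    LinearMap.range_eq_top.1 (Module.Dual.range_eq_top_of_ne_zero h) 1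
  obtain ⟨x, hx1⟩ := hx φ h0
  obtain ⟨y, hy, hy1⟩ : ∃ y, y ∉ F ∙ x ∧ φ' y = 1 := by
    by_contra! H
    obtain ⟨y, hy⟩ := hx φ' hφ'
    have h5 : ∀ y, φ' y = 1 → y ∈ F ∙ x := fun y h => not_not.1 fun e => H y e h
    have : (F ∙ x) = ⊤ := eq_top_iff.2 fun z _ => by
      have := Submodule.sub_mem _ (h5 (z + (1 - φ' z) • y) (by simp [hy]))
        (Submodule.smul_mem _ (1 - φ' z) (h5 y hy))
      rwa [add_sub_cancel_right] at this
    have h3 := finrank_span_le_card (R := F) ({x} : Set U)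
    rw [this, finrank_top] at h3
    simp at h3
    omega
  have hx0 : x ≠ 0 := by rintro rfl; simp at hx1
  obtain ⟨θ, hθ⟩ := ((Basis.span (li_pair_of_notMem hx0 hy)).constr F fun _ => (1 : F)).exists_extend
  have e : ∀ i, θ (![x, y] i) = 1 := fun i => by
    have := LinearMap.congr_fun hθ (Basis.span (li_pair_of_notMem hx0 hy) i)
    rwa [Basis.constr_basis, LinearMap.comp_apply, Submodule.subtype_apply, Basis.span_apply] at this
  exact h3 θ φ' y (h3 φ θ x h hx1 (e 0)) (e 1) hy1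

variable [Fintype U]

/-- The projection onto the joint eigenspace. -/
noncomputable def pj (φ : Dual F U) : End ℂ M :=
  (Fintype.card U : ℂ)⁻¹ • ∑ u, ψ (-φ u) • ρ (t u)

variable {ρ ψ t}

theorem pj_apply_of {φ : Dual F U} {w : M} (h : w ∈ eig ρ ψ t φ) : pj ρ ψ t φ w = w := by
  simp only [pj, LinearMap.smul_apply, LinearMap.sum_apply, h _, smul_smul,
    ← AddChar.map_add_eq_mul, neg_add_cancel, AddChar.map_zero_eq_one, one_smul, sum_const,
    card_univ, ← Nat.cast_smul_eq_nsmul ℂ]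
  rw [inv_mul_cancel₀ (by simp), one_smul]

theorem pj_mul_of {φ : Dual F U} {T : End ℂ M} (h : ∀ u, ρ (t u) * T = ψ (φ u) • T) :
    pj ρ ψ t φ * T = T :=
  LinearMap.ext fun w => pj_apply_of fun u => LinearMap.congr_fun (h u) w

theorem mul_pj_of {φ : Dual F U} {T : End ℂ M} (h : ∀ u, T * ρ (t u) = ψ (φ u) • T) :
    T * pj ρ ψ t φ = T := by
  simp only [pj, mul_smul_comm, mul_sum, h, smul_smul, ← AddChar.map_add_eq_mul, neg_add_cancel,
    AddChar.map_zero_eq_one, one_smul, sum_const, card_univ, ← Nat.cast_smul_eq_nsmul ℂ]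
  rw [inv_mul_cancel₀ (by simp), one_smul]

theorem commute_pj {φ : Dual F U} {T : End ℂ M} (h : ∀ u, Commute T (ρ (t u))) :
    Commute T (pj ρ ψ t φ) :=
  (Commute.sum_right _ _ _ fun u _ => (h u).smul_right _).smul_right _

variable (ht : ∀ u v, t (u + v) = t u * t v)
include ht

theorem mul_pj (φ : Dual F U) (v : U) : ρ (t v) * pj ρ ψ t φ = ψ (φ v) • pj ρ ψ t φ := by
  rw [pj, mul_smul_comm, smul_comm (ψ (φ v)), mul_sum]
  congr 1
  rw [smul_sum, ← Equiv.sum_comp (Equiv.addLeft v) fun u => ψ (φ v) • ψ (-φ u) • ρ (t u)]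
  refine sum_congr rfl fun u _ => ?_
  simp [← map_mul, ← ht, smul_smul, ← AddChar.map_add_eq_mul]

theorem pj_mul (φ : Dual F U) (v : U) : pj ρ ψ t φ * ρ (t v) = ψ (φ v) • pj ρ ψ t φ := by
  rw [← mul_pj ht]
  exact (commute_pj fun u => by
    rw [Commute, SemiconjBy, ← map_mul, ← map_mul, ← ht, ← ht, add_comm]).eq.symm

theorem pj_mem (φ : Dual F U) (w : M) : pj ρ ψ t φ w ∈ eig ρ ψ t φ :=
  fun u => LinearMap.congr_fun (mul_pj ht φ u) w

theorem trace_pj [FiniteDimensional ℂ M] (φ : Dual F U) :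
    LinearMap.trace ℂ M (pj ρ ψ t φ) = finrank ℂ (eig ρ ψ t φ) :=
  LinearMap.IsProj.trace ⟨pj_mem ht φ, fun _ => pj_apply_of⟩

theorem pj_conj {U' : Type*} [AddCommGroup U'] [Module F U'] [Fintype U'] {t' : U' → G}
    (ht' : ∀ u v, t' (u + v) = t' u * t' v) {g : G} (h : ∀ u, ∃ u', g * t u = t' u' * g)
    (h' : ∀ u', ∃ u, g * t u = t' u' * g) :
    ρ g * pj ρ ψ t (0 : Dual F U) = pj ρ ψ t' (0 : Dual F U') * ρ g := by
  have h1 : pj ρ ψ t' (0 : Dual F U') * (ρ g * pj ρ ψ t (0 : Dual F U)) = _ :=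
    pj_mul_of fun u' => by
      obtain ⟨u, hu⟩ := h' u'
      rw [← mul_assoc, ← map_mul, ← hu, map_mul, mul_assoc, mul_pj ht]; simp
  rw [← h1, ← mul_assoc]
  refine mul_pj_of fun u => ?_
  obtain ⟨u', hu⟩ := h u
  rw [mul_assoc, ← map_mul, hu, map_mul, ← mul_assoc, pj_mul ht']; simp

variable [Finite F] [Fintype (Dual F U)] (hψ : ψ ≠ 1)
include hψ

theorem sum_pj : ∑ φ : Dual F U, pj ρ ψ t φ = 1 := by
  simp only [pj, ← smul_sum]
  rw [sum_comm, sum_eq_single 0]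
  · have : Fintype.card (Dual F U) = Fintype.card U := by
      rw [← Nat.card_eq_fintype_card, card_dual, Nat.card_eq_fintype_card]
    simp [show t 0 = 1 by simpa using ht 0 0, this, ← Nat.cast_smul_eq_nsmul ℂ, smul_smul]
  · intro u _ hu
    obtain ⟨φ, hφ⟩ := Module.Projective.exists_dual_eq_one F hu
    obtain ⟨a, ha⟩ := AddChar.ne_one_iff.1 hψ
    have := AddChar.sum_eq_zero_iff_ne_zero.2 (AddChar.ne_zero_iff.2 ⟨-a • φ, by simpa [hφ]⟩ :
      ψ.compAddMonoidHom (-Module.Dual.eval F U u).toAddMonoidHom ≠ 0)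
    rw [← sum_smul, show ∑ φ : Dual F U, ψ (-φ u) = 0 from this, zero_smul]
  · simp

theorem trace_eq_sum [FiniteDimensional ℂ M] (T : End ℂ M) :
    LinearMap.trace ℂ M T = ∑ φ : Dual F U, LinearMap.trace ℂ M (T * pj ρ ψ t φ) := by
  rw [← map_sum, ← mul_sum, sum_pj ht hψ, mul_one]

omit [Fintype (Dual F U)] in
theorem finrank_eig [FiniteDimensional ℂ M] (h2 : 2 ≤ finrank F U)
    (htv : ∀ (x : U) (η : Dual F U), η x = 0 → ∃ g, ∀ u, t u * g = g * t (u + η u • x))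
    {u₀ : U} (h0 : ρ (t u₀) ≠ 1) (hD : finrank ℂ M < 2 * (Fintype.card U - 1)) {φ : Dual F U}
    (hφ : φ ≠ 0) : finrank ℂ (eig ρ ψ t φ) = 1 := by
  classical
  have : Finite (Dual F U) := Module.finite_of_finite F
  have := Fintype.ofFinite (Dual F U)
  have h3 : ∀ φ₁ φ₂ : Dual F U, φ₁ ≠ 0 → φ₂ ≠ 0 →
      finrank ℂ (eig ρ ψ t φ₁) ≤ finrank ℂ (eig ρ ψ t φ₂) := fun φ₁ φ₂ => chain
    (P := fun φ => finrank ℂ (eig ρ ψ t φ₁) ≤ finrank ℂ (eig ρ ψ t φ)) h2 (fun φ₁ φ₂ x h h6 h7 => by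
      obtain ⟨g, hg⟩ := htv x (φ₂ - φ₁) (by simp [h6, h7])
      have h1 : ∀ w ∈ eig ρ ψ t φ₁, ρ g w ∈ eig ρ ψ t φ₂ := fun w hw u => by
        rw [← End.mul_apply, ← map_mul, hg, map_mul, End.mul_apply, hw, map_smul]
        simp [h6]
      refine h.trans (LinearMap.finrank_le_finrank_of_injective (f := (ρ g).restrict h1) ?_)
      intro x y e
      simpa [← End.mul_apply, ← map_mul] using congrArg (fun z => ρ g⁻¹ z.1) e) le_rfl
  have h4 := trace_eq_sum (ρ := ρ) ht hψ 1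
  simp only [one_mul, trace_pj ht, LinearMap.trace_one] at h4
  have h5 : (univ.erase (0 : Dual F U)).card * finrank ℂ (eig ρ ψ t φ) ≤ finrank ℂ M := by
    rw [Nat.cast_injective (R := ℂ) (h4.trans (Nat.cast_sum _ _).symm), ← smul_eq_mul, ← sum_const]
    exact (sum_le_sum fun φ' h => h3 _ _ hφ (mem_erase.1 h).1).trans
      (sum_le_sum_of_subset (erase_subset _ _))
  rw [card_erase_of_mem (mem_univ _), card_univ, ← Nat.card_eq_fintype_card, card_dual,
    Nat.card_eq_fintype_card, mul_comm] at h5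
  have h6 := Nat.lt_of_mul_lt_mul_right (h5.trans_lt hD)
  suffices finrank ℂ (eig ρ ψ t φ) ≠ 0 by omega
  intro e
  apply h0
  have h7 := sum_pj (ρ := ρ) ht hψ
  rw [sum_eq_single 0 (fun φ' _ h => LinearMap.ext fun w => by
    have := h3 _ _ h hφ
    rw [e, Nat.le_zero, Submodule.finrank_eq_zero] at this
    simpa [this] using pj_mem (ρ := ρ) (ψ := ψ) ht φ' w) (by simp)] at h7
  simpa [h7] using mul_pj (ρ := ρ) (ψ := ψ) ht (0 : Dual F U) u₀

end Cfsg.Agent.H7.LS
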