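import Cfsg.Agent.H7.SLD1
import Cfsg.Agent.H28.PSLInd
import Cfsg.Agent.H12.Lin

/-!
Transvection subgroups of `SL_n`: linear algebra for the minimal degree of `SL_n(q)`.
-/

set_option autoImplicit false
set_option linter.dupNamespace false

namespace Cfsg.Agent.H7.LS

open Finset Module Matrix Cfsg.Agent.H12 Cfsg.Agent.H28

variable {F ι : Type*} [Field F] [Fintype ι]

local notation "SL'" => Matrix.SpecialLinearGroup

/-- The orthogonal complement for the dot product. -/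
def perp (a : ι → F) : Submodule F (ι → F) := LinearMap.ker (dotProductBilin F F a)

theorem mem_perp {a u : ι → F} : u ∈ perp a ↔ a ⬝ᵥ u = 0 := Iff.rfl

theorem perp_dot {a : ι → F} (u : perp a) : a ⬝ᵥ u.1 = 0 := u.2

theorem dot_perp {a : ι → F} (u : perp a) : u.1 ⬝ᵥ a = 0 := (dotProduct_comm _ _).trans u.2

variable [DecidableEq ι]

theorem exists_dot_eq (η : Dual F (ι → F)) : ∃ v, ∀ u, η u = v ⬝ᵥ u :=
  ⟨fun i => η (Pi.single i 1), fun u => by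
    conv_lhs => rw [← Finset.univ_sum_single u, map_sum]
    exact Finset.sum_congr rfl fun i _ => by
      rw [mul_comm, ← smul_eq_mul, ← map_smul, ← Pi.single_smul']; simp⟩

theorem exists_dot_eq' {U : Submodule F (ι → F)} (η : Dual F U) : ∃ v, ∀ u : U, η u = v ⬝ᵥ u.1 := by
  obtain ⟨η', rfl⟩ := η.exists_extend
  obtain ⟨v, hv⟩ := exists_dot_eq η'
  exact ⟨v, fun u => hv u⟩

theorem exists_dot_one {x y : ι → F} (h : y ∉ F ∙ x) : ∃ f, f ⬝ᵥ x = 0 ∧ f ⬝ᵥ y = 1 := by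
  obtain ⟨η, h1, h2⟩ := Submodule.exists_dual_map_eq_bot_of_notMem h inferInstance
  obtain ⟨v, hv⟩ := exists_dot_eq η
  have h3 : η x = 0 := by
    have : η x ∈ (F ∙ x).map η := ⟨x, Submodule.mem_span_singleton_self x, rfl⟩
    simpa [h2] using this
  exact ⟨(η y)⁻¹ • v, by simp [← hv, h3], by simp [← hv, h1]⟩

theorem exists_dot_one' {y : ι → F} (h : y ≠ 0) : ∃ f, f ⬝ᵥ y = 1 :=
  (exists_dot_one (x := 0) (by simpa)).imp fun _ h => h.2

theorem finrank_perp {a : ι → F} (ha : a ≠ 0) : finrank F (perp a) + 1 = Fintype.card ι := by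
  have := (dotProductBilin F F a).finrank_range_add_finrank_ker
  obtain ⟨f, hf⟩ := exists_dot_one' ha
  rw [Module.Dual.range_eq_top_of_ne_zero fun e => by
    simpa [dotProduct_comm a, hf] using LinearMap.congr_fun e f] at this
  rw [finrank_top, finrank_self, add_comm, finrank_fintype_fun_eq_card] at this
  exact this

omit [DecidableEq ι] in
theorem exists_notMem_ker {k : ℕ} (x : ι → F) (L : Fin k → ι → F) (h : k + 1 < Fintype.card ι) :
    ∃ y ∉ F ∙ x, ∀ i, L i ⬝ᵥ y = 0 := by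
  by_contra! H
  have h1 : LinearMap.ker (Matrix.mulVecLin (Matrix.of L)) ≤ F ∙ x := fun y hy => by
    by_contra e
    obtain ⟨i, hi⟩ := H y e
    exact hi (congrFun hy i)
  have h2 := (Matrix.mulVecLin (Matrix.of L)).finrank_range_add_finrank_ker
  have h3 := (Submodule.finrank_mono h1).trans (finrank_span_le_card (R := F) ({x} : Set _))
  have h4 := Submodule.finrank_le (LinearMap.range (Matrix.mulVecLin (Matrix.of L)))
  simp at h2 h3 h4
  omega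

theorem tv_mul (h : SL' ι F) {v f : ι → F} (hf : f ⬝ᵥ (h.1 *ᵥ v) = 0) :
    tvSL (h.1 *ᵥ v) f * h = h * tvSL v (f ᵥ* h.1) := SL_ext (by
  rw [Matrix.SpecialLinearGroup.coe_mul, Matrix.SpecialLinearGroup.coe_mul, coe_tvSL hf,
    coe_tvSL (by rwa [← dotProduct_mulVec]), add_mul, mul_add, vecMulVec_mul, mul_vecMulVec]
  simp)

theorem tv_smul (c : F) (v f : ι → F) (h : f ⬝ᵥ v = 0) : tvSL (c • v) f = tvSL v (c • f) :=
  Subtype.ext (by rw [coe_tvSL (by simp [h]), coe_tvSL (by simp [h]), smul_vecMulVec, vecMulVec_smul])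

theorem dil_mulVec (v f x : ι → F) : (1 + vecMulVec v f) *ᵥ x = x + (f ⬝ᵥ x) • v := by
  rw [add_mulVec, one_mulVec, vecMulVec_mulVec, op_smul_eq_smul]

theorem vecMul_dil (v f x : ι → F) : x ᵥ* (1 + vecMulVec v f) = x + (x ⬝ᵥ v) • f := by
  rw [vecMul_add, vecMul_one, vecMul_vecMulVec]

theorem tv_mulVec {v f : ι → F} (h : f ⬝ᵥ v = 0) (x : ι → F) :
    (tvSL v f).1 *ᵥ x = x + (f ⬝ᵥ x) • v := by rw [coe_tvSL h, dil_mulVec]

theorem vecMul_tv {v f : ι → F} (h : f ⬝ᵥ v = 0) (x : ι → F) :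
    x ᵥ* (tvSL v f).1 = x + (x ⬝ᵥ v) • f := by rw [coe_tvSL h, vecMul_dil]

/-- Transvections with a given axis. -/
noncomputable def tA (θ : ι → F) (u : perp θ) : SL' ι F := tvSL u.1 θ

/-- Transvections with a given centre. -/
noncomputable def tB (x : ι → F) (f : perp x) : SL' ι F := tvSL x f.1

theorem tA_add (θ : ι → F) (u v : perp θ) : tA θ (u + v) = tA θ u * tA θ v := SL_ext (by
  rw [Matrix.SpecialLinearGroup.coe_mul, tA, tA, tA, coe_tvSL (perp_dot _), coe_tvSL (perp_dot _),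
    coe_tvSL (perp_dot _), Submodule.coe_add, add_vecMulVec]
  simp [add_mul, mul_add, vecMulVec_mul_vecMulVec, perp_dot, add_assoc, add_comm, add_left_comm])

theorem tB_add (x : ι → F) (u v : perp x) : tB x (u + v) = tB x u * tB x v := SL_ext (by
  rw [Matrix.SpecialLinearGroup.coe_mul, tB, tB, tB, coe_tvSL (dot_perp _), coe_tvSL (dot_perp _),
    coe_tvSL (dot_perp _), Submodule.coe_add, vecMulVec_add]
  simp [add_mul, mul_add, vecMulVec_mul_vecMulVec, dot_perp, add_assoc, add_comm, add_left_comm])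

theorem tA_tv (θ : ι → F) (x : perp θ) (η : Dual F (perp θ)) (h : η x = 0) :
    ∃ g, ∀ u, tA θ u * g = g * tA θ (u + η u • x) := by
  obtain ⟨v, hv⟩ := exists_dot_eq' η
  have h1 : (-v) ⬝ᵥ x.1 = 0 := by simp [← hv, h]
  refine ⟨tvSL x.1 (-v), fun u => ?_⟩
  have h2 : (tvSL x.1 (-v)).1 *ᵥ (u + η u • x).1 = u := by
    rw [tv_mulVec h1, neg_dotProduct, ← hv]; simp [h]
  have := tv_mul (tvSL x.1 (-v)) (v := (u + η u • x).1) (f := θ) (by rw [h2, perp_dot])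
  rwa [h2, vecMul_tv h1, perp_dot, zero_smul, add_zero] at this

theorem tB_tv (x : ι → F) (y : perp x) (η : Dual F (perp x)) (h : η y = 0) :
    ∃ g, ∀ u, tB x u * g = g * tB x (u + η u • y) := by
  obtain ⟨v, hv⟩ := exists_dot_eq' η
  have h1 : y.1 ⬝ᵥ v = 0 := by rw [dotProduct_comm, ← hv, h]
  refine ⟨tvSL v y.1, fun u => ?_⟩
  have h2 : (tvSL v y.1).1 *ᵥ x = x := by rw [tv_mulVec h1, dot_perp, zero_smul, add_zero]
  have := tv_mul (tvSL v y.1) (v := x) (f := u.1) (by rw [h2, dot_perp])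
  rwa [h2, vecMul_tv h1, dotProduct_comm, ← hv] at this

theorem exists_move {ξ x z z' : ι → F} (hξ : ξ ≠ 0) (hx : ξ ⬝ᵥ x = 0) (hz : ξ ⬝ᵥ z = 0)
    (h : z ∉ F ∙ x) (h' : z' ∉ F ∙ x) : ∃ g : SL' ι F, g.1 *ᵥ x = x ∧ g.1 *ᵥ z = z' ∧
      (ξ ⬝ᵥ z' = 0 → ∃ c : F, ξ ᵥ* g.1 = c • ξ) := by
  obtain ⟨v, hv⟩ := exists_dot_one' hξ
  rw [dotProduct_comm] at hv
  obtain ⟨f, h1, h2, h3⟩ : ∃ f, f ⬝ᵥ x = 0 ∧ f ⬝ᵥ z = 1 ∧ f ⬝ᵥ z' ≠ 0 := by
    obtain ⟨f, h1, h2⟩ := exists_dot_one h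
    obtain ⟨f', h3, h4⟩ := exists_dot_one h'
    by_cases e : f ⬝ᵥ z' = 0
    · exact ⟨f' + (1 - f' ⬝ᵥ z) • f, by simp [h1, h3], by simp [h2], by simp [e, h4]⟩
    · exact ⟨f, h1, h2, e⟩
  refine ⟨⟨(1 + vecMulVec (z' - z) f) * (1 + vecMulVec v (((f ⬝ᵥ z')⁻¹ - 1) • ξ)), ?_⟩, ?_, ?_,
    fun e => ⟨(f ⬝ᵥ z')⁻¹, ?_⟩⟩
  · rw [det_mul, det_one_add_vecMulVec, det_one_add_vecMulVec]; simp [hv, h2, h3]
  · simp only [← mulVec_mulVec, dil_mulVec]; simp [hx, h1]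
  · simp only [← mulVec_mulVec, dil_mulVec]; simp [hz, h2]
  · simp only [← vecMul_vecMul, vecMul_dil]; simp [hz, e, hv, sub_smul]

theorem exists_move' (hn : 3 ≤ Fintype.card ι) {x z z' : ι → F} (h : z ∉ F ∙ x) (h' : z' ∉ F ∙ x) :
    ∃ g : SL' ι F, g.1 *ᵥ x = x ∧ g.1 *ᵥ z = z' := by
  obtain ⟨ξ, h1, h2⟩ : ∃ ξ : ι → F, ξ ≠ 0 ∧ ∀ i, ![x, z] i ⬝ᵥ ξ = 0 := by
    by_contra! H
    have h1 : LinearMap.ker (Matrix.mulVecLin (Matrix.of ![x, z])) = ⊥ :=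
      eq_bot_iff.2 fun y hy => by
        by_contra e
        obtain ⟨i, hi⟩ := H y e
        exact hi (congrFun hy i)
    have := LinearMap.finrank_le_finrank_of_injective (LinearMap.ker_eq_bot.1 h1)
    simp at this
    omega
  obtain ⟨g, h3, h4, -⟩ := exists_move h1 ((dotProduct_comm _ _).trans (h2 0))
    ((dotProduct_comm _ _).trans (h2 1)) h h'
  exact ⟨g, h3, h4⟩

theorem exists_comm [Fintype F] (hn : 3 ≤ Fintype.card ι)
    (h3 : Fintype.card ι = 3 → Fintype.card F ≠ 2 ∧ Fintype.card F ≠ 4)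
    (h4 : Fintype.card ι = 4 → Fintype.card F ≠ 2 ∧ Fintype.card F ≠ 3) {θ φ x f : ι → F}
    (hx : x ≠ 0) (h1 : θ ⬝ᵥ x = 0) (h2 : φ ⬝ᵥ x = 0) (hf : f ⬝ᵥ x = 0) :
    ∃ (h : SL' ι F) (a c : F) (f' : ι → F), θ ᵥ* h.1 = a • θ ∧ φ ᵥ* h.1 = a • φ ∧
      h.1 *ᵥ x = c • x ∧ f' ⬝ᵥ x = 0 ∧ f' ᵥ* h.1 = c • f' + f := by
  by_cases H : ∃ y ∉ F ∙ x, θ ⬝ᵥ y = 0 ∧ φ ⬝ᵥ y = 0 ∧ f ⬝ᵥ y = 0
  · obtain ⟨y, hy, e1, e2, e3⟩ := H
    obtain ⟨f', e4, e5⟩ := exists_dot_one hy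
    exact ⟨tvSL y f, 1, 1, f', by simp [vecMul_tv e3, e1], by simp [vecMul_tv e3, e2],
      by simp [tv_mulVec e3, hf], e4, by simp [vecMul_tv e3, e5]⟩
  have hq : 1 < Fintype.card F := Fintype.one_lt_card
  have hpow : ∀ k : ℕ, ¬ Fintype.card F - 1 ∣ k → ∃ a : F, a ≠ 0 ∧ a ^ k ≠ 1 := fun k hk => by
    obtain ⟨a, ha⟩ := not_forall.1 ((FiniteField.forall_pow_eq_one_iff F k).not.2 hk)
    exact ⟨a, a.ne_zero, fun e => ha (Units.ext (by simpa using e))⟩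
  obtain ⟨a, b, c, y, e1, e2, e3, e4, e5⟩ : ∃ (a b c : F) (y : ι → F), θ ⬝ᵥ y = 0 ∧ φ ⬝ᵥ y = 0 ∧
      (b - 1) * f ⬝ᵥ y = b - 1 ∧ a ^ Fintype.card ι * (b * c) = 1 ∧ a * b - a * c ≠ 0 := by
    rcases hn.eq_or_lt with hn | hn
    · obtain ⟨a, ha, ha'⟩ := hpow 3 fun e => by
        have := (Nat.dvd_prime Nat.prime_three).1 e
        have := h3 hn.symm
        omega
      refine ⟨a, 1, (a ^ 3)⁻¹, 0, by simp, by simp, by simp, by simp [← hn, ha], fun e => ha' ?_⟩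
      field_simp at e
      linear_combination e
    · have hn' : ¬ 3 + 1 < Fintype.card ι := fun e => by
        obtain ⟨y, hy, e⟩ := exists_notMem_ker x ![θ, φ, f] e
        exact H ⟨y, hy, e 0, e 1, e 2⟩
      obtain ⟨b, hb, hb'⟩ := hpow 2 fun e => by
        have := (Nat.dvd_prime Nat.prime_two).1 e
        have := h4 (by omega)
        omega
      obtain ⟨y, hy, e⟩ := exists_notMem_ker x ![θ, φ] hn
      have e3 : f ⬝ᵥ y ≠ 0 := fun e3 => H ⟨y, hy, e 0, e 1, e3⟩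
      refine ⟨1, b, b⁻¹, (f ⬝ᵥ y)⁻¹ • y, by simp [show θ ⬝ᵥ y = 0 from e 0],
        by simp [show φ ⬝ᵥ y = 0 from e 1], by simp [e3], by simp [hb], fun e => hb' ?_⟩
      field_simp at e
      linear_combination e
  obtain ⟨ξ, hξ⟩ := exists_dot_one' hx
  refine ⟨⟨a • ((1 + vecMulVec y ((b - 1) • f)) * (1 + vecMulVec x ((c - 1) • ξ))), ?_⟩, a, a * c,
    (a * b - a * c)⁻¹ • f, ?_, ?_, ?_, by simp [hf], ?_⟩
  · rw [det_smul, det_mul, det_one_add_vecMulVec, det_one_add_vecMulVec]; simpa [e3, hξ] using e4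
  · simp only [vecMul_smul, ← vecMul_vecMul, vecMul_dil]; simp [e1, h1]
  · simp only [vecMul_smul, ← vecMul_vecMul, vecMul_dil]; simp [e2, h2]
  · simp only [smul_mulVec, ← mulVec_mulVec, dil_mulVec]; simp [hf, hξ, sub_smul, smul_smul]
  · have : f ᵥ* (1 + vecMulVec y ((b - 1) • f)) = b • f := by
      rw [vecMul_dil, smul_smul, mul_comm, e3]; simp [sub_smul]
    simp only [smul_vecMul, vecMul_smul, ← vecMul_vecMul, this]
    rw [vecMul_dil, hf, zero_smul, add_zero]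
    match_scalars
    linear_combination mul_inv_cancel₀ e5

end Cfsg.Agent.H7.LS
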