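import Cfsg.Agent.H7.SLD2
import Cfsg.Agent.H4.Rep1

/-!
The minimal degree of `SL_n(q)`: the trace computations.
-/

set_option autoImplicit false
set_option linter.dupNamespace false

namespace Cfsg.Agent.H7.LS

open Finset Module Matrix Cfsg.Agent.H12 Cfsg.Agent.H28

local notation "SL'" => Matrix.SpecialLinearGroup

section count
variable {F U : Type*} [Field F] [Fintype F] [AddCommGroup U] [Module F U] [Fintype U]

theorem sum_dual [Fintype (Dual F U)] {x y : U} (hx : x ≠ 0) (hy : y ∉ F ∙ x) (g : F × F → ℂ) :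
    (Fintype.card F : ℂ) ^ 2 * ∑ φ : Dual F U, g (φ x, φ y) = Fintype.card U * ∑ p, g p := by
  classical
  let f : Dual F U →+ F × F := (Module.Dual.eval F U x).toAddMonoidHom.prod
    (Module.Dual.eval F U y).toAddMonoidHom
  have hf : Function.Surjective f := fun p => by
    obtain ⟨θ, hθ⟩ := ((Basis.span (li_pair_of_notMem hx hy)).constr F ![p.1, p.2]).exists_extend
    have e : ∀ i, θ (![x, y] i) = ![p.1, p.2] i := fun i => by
      have := LinearMap.congr_fun hθ (Basis.span (li_pair_of_notMem hx hy) i)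
      rwa [Basis.constr_basis, LinearMap.comp_apply, Submodule.subtype_apply,
        Basis.span_apply] at this
    exact ⟨θ, Prod.ext (e 0) (e 1)⟩
  have key : ∀ g : F × F → ℂ, ∑ φ, g (f φ) = #{φ | f φ = 0} * ∑ p, g p := fun g => by
    rw [← sum_fiberwise univ f, mul_sum]
    refine sum_congr rfl fun p _ => ?_
    rw [sum_congr rfl fun φ h => congrArg g (mem_filter.1 h).2, sum_const, nsmul_eq_mul,
      AddMonoidHom.card_fiber_eq_of_mem_range f (hf p) (hf 0)]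
  have h1 := key fun _ => 1
  have : Fintype.card (Dual F U) = Fintype.card U := by
    rw [← Nat.card_eq_fintype_card, card_dual, Nat.card_eq_fintype_card]
  simp only [sum_const, card_univ, this, Fintype.card_prod, nsmul_eq_mul, mul_one, Nat.cast_mul] at h1
  rw [h1, show ∑ φ : Dual F U, g (φ x, φ y) = _ from key g]
  ring

theorem sum_line {y : U} (hy : y ≠ 0) (h : U → ℂ) {α β : ℂ} (h0 : h 0 = 0)
    (h1 : ∀ c : F, c ≠ 0 → h (c • y) = α) (h2 : ∀ x, x ∉ F ∙ y → h x = β) :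
    ∑ x, h x = (Fintype.card F - 1) * α + (Fintype.card U - Fintype.card F) * β := by
  classical
  have h3 : ∑ x, (h x - β) = ∑ c : F, (h (c • y) - β) := by
    rw [← sum_image (s := univ) (g := fun c : F => c • y) (f := fun x => h x - β)
      (smul_left_injective F hy).injOn]
    refine (sum_subset (subset_univ _) fun x _ hx => sub_eq_zero.2 (h2 x fun e => hx ?_)).symm
    obtain ⟨c, rfl⟩ := Submodule.mem_span_singleton.1 e
    exact mem_image_of_mem _ (mem_univ c)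
  rw [← add_sum_erase _ _ (mem_univ (0 : F)), zero_smul, h0,
    sum_congr rfl fun (c : F) hc => by rw [h1 c (mem_erase.1 hc).1]] at h3
  simp only [sum_sub_distrib, sum_const, card_univ, nsmul_eq_mul, card_erase_of_mem (mem_univ _),
    Nat.cast_sub Fintype.card_pos, Nat.cast_one] at h3
  linear_combination h3

omit [Fintype F] in
theorem eq_zero_of_char {ψ : AddChar F ℂ} (hψ : ψ ≠ 1) {N : Type*} [AddCommGroup N] [Module ℂ N]
    {a : F} (ha : a ≠ 0) {T : N} (h : ∀ c, T = ψ (c * a) • T) : T = 0 := by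
  obtain ⟨b, hb⟩ := AddChar.ne_one_iff.1 hψ
  have := h (b / a)
  rw [div_mul_cancel₀ _ ha, ← sub_eq_zero, ← one_smul ℂ T, smul_smul, ← sub_smul, mul_one] at this
  exact (smul_eq_zero.1 this).resolve_left (sub_ne_zero.2 hb.symm)

theorem arith {q P D D₀ : ℤ} (hq : 2 ≤ q) (hP : 0 ≤ P) (h1 : D + 1 ≤ q * (q * (q * P + 1) + 1))
    (h2 : D₀ + (q - 1) * (q * (q * P + 1) + 1) ≤ D)
    (h : ((q * (q * (q * P + 1) + 1) + 1) * (q * (q * P + 1) + 1) - q * ((q - 1) * P + 1) * D) * D₀ =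
      (q * (q * P + 1) + 1) * (q * P + 1) * D) : False := by
  obtain ⟨k, rfl⟩ : ∃ k, D = q * (q * (q * P + 1) + 1) + 1 - k := ⟨_, (sub_sub_cancel _ _).symm⟩
  obtain ⟨j, rfl⟩ : ∃ j, D₀ = q * (q * P + 1) + 1 - j := ⟨_, (sub_sub_cancel _ _).symm⟩
  have h3 : (k - j) * ((q * (q * (q * P + 1) + 1) + 1) * (q * P + 1)) =
      q * ((q - 1) * P + 1) * (k * (j - 1)) := by linear_combination h
  have h4 : k - 1 ≤ j := by linarith
  rcases h4.eq_or_lt with rfl | h4
  · have : q ∣ 1 := ⟨((q - 1) * P + 1) * (k * (k - 1 - 1)) - P - (q * (q * P + 1) + 1) * (q * P + 1),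
      by linear_combination h3⟩
    have := Int.le_of_dvd one_pos this
    omega
  · have h5 : 0 < q * ((q - 1) * P + 1) * (k * (j - 1)) := by
      have : 0 < q - 1 := by omega
      have : 0 < k := by omega
      have : 0 < j - 1 := by omega
      positivity
    have h6 : 0 < (q * (q * (q * P + 1) + 1) + 1) * (q * P + 1) := by positivity
    nlinarith

end count

variable {F ι M : Type*} [Field F] [Fintype F] [Fintype ι] [DecidableEq ι] [AddCommGroup M]
  [Module ℂ M] (ρ : SL' ι F →* End ℂ M) (ψ : AddChar F ℂ)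

noncomputable instance instFintypePerp (a : ι → F) : Fintype (perp a) := Fintype.ofFinite _

noncomputable instance instFintypeDualPerp (a : ι → F) : Fintype (Dual F (perp a)) :=
  haveI : Finite (Dual F (perp a)) := Module.finite_of_finite F
  Fintype.ofFinite _

/-- The projection onto the moved space of the transvections with centre `x`. -/
noncomputable def uu (x : ι → F) : End ℂ M := 1 - pj ρ ψ (tB x) (0 : Dual F (perp x))

theorem uu_conj (g : SL' ι F) (x : ι → F) : ρ g * uu ρ ψ x = uu ρ ψ (g.1 *ᵥ x) * ρ g := by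
  rw [uu, uu, mul_sub, sub_mul, mul_one, one_mul, pj_conj (tB_add x) (tB_add (g.1 *ᵥ x))]
  · intro u
    have h1 : (u.1 ᵥ* (g⁻¹).1) ᵥ* g.1 = u := by
      rw [vecMul_vecMul, ← Matrix.SpecialLinearGroup.coe_mul]; simp
    have h2 : (u.1 ᵥ* (g⁻¹).1) ⬝ᵥ (g.1 *ᵥ x) = 0 := by rw [dotProduct_mulVec, h1, dot_perp]
    exact ⟨⟨_, (dotProduct_comm _ _).trans h2⟩, by rw [tB, tB, tv_mul g h2, h1]⟩
  · intro u
    exact ⟨⟨u.1 ᵥ* g.1, by rw [mem_perp, dotProduct_comm, ← dotProduct_mulVec, dot_perp]⟩,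
      (tv_mul g (dot_perp u)).symm⟩

theorem uu_smul {c : F} (hc : c ≠ 0) (x : ι → F) : uu ρ ψ (c • x) = uu ρ ψ x := by
  have := pj_conj (ρ := ρ) (ψ := ψ) (F := F) (tB_add (c • x)) (tB_add x) (g := 1) (fun u => by
    have h1 : u.1 ⬝ᵥ x = 0 := by simpa [hc] using dot_perp u
    exact ⟨⟨c • u.1, by simp [mem_perp, dotProduct_comm x, h1]⟩, by simp [tB, tv_smul _ _ _ h1]⟩)
    fun u => ⟨⟨c⁻¹ • u.1, by simp [mem_perp, perp_dot]⟩, by
      rw [tB, tB, tv_smul _ _ _ (by simp [dot_perp])]; simp [hc]⟩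
  rw [map_one, one_mul, mul_one] at this
  rw [uu, uu, this]

theorem uu_zero : uu ρ ψ 0 = 0 := by
  rw [uu, sub_eq_zero, ← mul_one (pj _ _ _ _), pj_mul_of]
  intro u
  rw [show tB 0 u = 1 from SL_ext (by rw [tB, coe_tvSL (by simp)]; simp)]; simp

theorem uu_mul_self (x : ι → F) : uu ρ ψ x * uu ρ ψ x = uu ρ ψ x := by
  rw [uu, mul_sub, sub_mul, sub_mul, pj_mul_of (mul_pj (tB_add x) 0)]; simp

variable {ψ} in
theorem uu_eq (hψ : ψ ≠ 1) (x : ι → F) [DecidableEq (Dual F (perp x))] :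
    uu ρ ψ x = ∑ χ ∈ univ.erase (0 : Dual F (perp x)), pj ρ ψ (tB x) χ := by
  rw [uu, ← sum_pj (ρ := ρ) (tB_add x) hψ, sum_erase_eq_sub (mem_univ _)]

theorem card_perp {a : ι → F} (ha : a ≠ 0) :
    Fintype.card (perp a) = Fintype.card F ^ (Fintype.card ι - 1) := by
  rw [Module.card_eq_pow_finrank (K := F), ← finrank_perp ha]; rfl

variable {ρ ψ} [FiniteDimensional ℂ M] (hψ : ψ ≠ 1) (hn : 3 ≤ Fintype.card ι) (hρ : ρ ≠ 1)
  (hD : finrank ℂ M < 2 * (Fintype.card F ^ (Fintype.card ι - 1) - 1))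
include hn hρ

omit [FiniteDimensional ℂ M] [Fintype F] in
theorem exists_tv_ne : ∃ x f : ι → F, f ⬝ᵥ x = 0 ∧ x ≠ 0 ∧ f ≠ 0 ∧ ρ (tvSL x f) ≠ 1 := by
  by_contra! H
  refine hρ (MonoidHom.ext fun g => SL_transvection_induction (fun g => ρ g = 1) (map_one ρ)
    (fun i j h c => ?_) (fun A B h h' => by rw [map_mul, h, h', mul_one]) g)
  have h1 : (Pi.single j 1 : ι → F) ⬝ᵥ Pi.single i c = 0 := by simp [h.symm]
  have h2 : Matrix.SpecialLinearGroup.transvection h c = tvSL (Pi.single i c) (Pi.single j 1) :=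
    SL_ext (by
      rw [coe_tvSL h1, Matrix.SpecialLinearGroup.transvection_coe]
      congr 1
      ext a b
      simp [vecMulVec_apply, Pi.single_apply, Matrix.single_apply, ← ite_and, eq_comm, and_comm])
  by_cases hc : c = 0
  · rw [hc, Matrix.SpecialLinearGroup.transvection_coeff_zero, map_one]
  · rw [h2]; exact H _ _ h1 (by simpa) (by simp)

include hψ hD

theorem finrank_eigA {θ : ι → F} (hθ : θ ≠ 0) {φ : Dual F (perp θ)} (hφ : φ ≠ 0) :
    finrank ℂ (eig ρ ψ (tA θ) φ) = 1 := by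
  obtain ⟨x, f, h1, -, h2, h3⟩ := exists_tv_ne hn hρ
  obtain ⟨g, -, hg⟩ := exists_move' hn (x := 0) (z := f) (z' := θ) (by simpa) (by simpa)
  have h4 : g.transpose.1 *ᵥ ((g.transpose⁻¹).1 *ᵥ x) = x := by
    rw [mulVec_mulVec, ← Matrix.SpecialLinearGroup.coe_mul]; simp
  have h5 : f ᵥ* g.transpose.1 = θ := (vecMul_transpose _ _).trans hg
  have h6 := tv_mul g.transpose (v := (g.transpose⁻¹).1 *ᵥ x) (f := f) (by rw [h4, h1])
  rw [h4, h5] at h6
  refine finrank_eig (tA_add θ) hψ (by have := finrank_perp hθ; omega) (tA_tv θ)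
    (u₀ := ⟨(g.transpose⁻¹).1 *ᵥ x, by rw [mem_perp, ← h5, ← dotProduct_mulVec, h4, h1]⟩) (fun e => h3 ?_)
    (by rwa [card_perp hθ]) hφ
  rw [eq_mul_inv_of_mul_eq h6, map_mul, map_mul, show ρ (tvSL _ θ) = 1 from e, mul_one, ← map_mul,
    mul_inv_cancel, map_one]

theorem finrank_eigB {y : ι → F} (hy : y ≠ 0) {φ : Dual F (perp y)} (hφ : φ ≠ 0) :
    finrank ℂ (eig ρ ψ (tB y) φ) = 1 := by
  obtain ⟨x, f, h1, h2, -, h3⟩ := exists_tv_ne hn hρ
  obtain ⟨g, -, rfl⟩ := exists_move' hn (x := 0) (z := y) (z' := x) (by simpa) (by simpa)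
  refine finrank_eig (tB_add y) hψ (by have := finrank_perp hy; omega) (tB_tv y)
    (u₀ := ⟨f ᵥ* g.1, by rw [mem_perp, dotProduct_comm, ← dotProduct_mulVec, h1]⟩) (fun e => h3 ?_)
    (by rwa [card_perp hy]) hφ
  rw [eq_mul_inv_of_mul_eq (tv_mul g h1), map_mul, map_mul, show ρ (tvSL y _) = 1 from e, mul_one,
    ← map_mul, mul_inv_cancel, map_one]

theorem trace_uu {x : ι → F} (hx : x ≠ 0) :
    LinearMap.trace ℂ M (uu ρ ψ x) = Fintype.card F ^ (Fintype.card ι - 1) - 1 := by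
  classical
  rw [uu_eq ρ hψ, map_sum, sum_congr rfl fun χ h => by
    rw [trace_pj (tB_add x), finrank_eigB hψ hn hρ hD hx (mem_erase.1 h).1]]
  rw [sum_const, card_erase_of_mem (mem_univ _), card_univ, ← Nat.card_eq_fintype_card, card_dual,
    Nat.card_eq_fintype_card, nsmul_eq_mul, Nat.cast_sub Fintype.card_pos, card_perp hx]
  simp

theorem uu_mul_pj (h3 : Fintype.card ι = 3 → Fintype.card F ≠ 2 ∧ Fintype.card F ≠ 4)
    (h4 : Fintype.card ι = 4 → Fintype.card F ≠ 2 ∧ Fintype.card F ≠ 3) [DecidableEq F]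
    {θ : ι → F} (hθ : θ ≠ 0) {φ : Dual F (perp θ)} (hφ : φ ≠ 0) {x : perp θ} (hx : x ≠ 0) :
    uu ρ ψ x.1 * pj ρ ψ (tA θ) φ = (if φ x = 0 then (0 : ℂ) else 1) • pj ρ ψ (tA θ) φ := by
  rw [uu, sub_mul, one_mul]
  split_ifs with h
  · rw [zero_smul, sub_eq_zero, pj_mul_of]
    intro f
    refine LinearMap.ext fun w₀ => ?_
    have hw := pj_mem (ρ := ρ) (ψ := ψ) (tA_add θ) φ w₀
    simp only [End.mul_apply, LinearMap.zero_apply, AddChar.map_zero_eq_one, one_smul]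
    generalize pj ρ ψ (tA θ) φ w₀ = w at hw
    by_cases hw0 : w = 0
    · simp [hw0]
    obtain ⟨v, hv⟩ := exists_dot_eq' φ
    have hN : ∀ (g : SL' ι F) (a : F), θ ᵥ* g.1 = a • θ → v ᵥ* g.1 = a • v →
        ∃ c : ℂ, ρ g w = c • w := fun g a e1 e2 => by
      have : ρ g w ∈ eig ρ ψ (tA θ) φ := fun u => by
        have h5 : g.1 *ᵥ ((g⁻¹).1 *ᵥ u.1) = u := by
          rw [mulVec_mulVec, ← Matrix.SpecialLinearGroup.coe_mul]; simp
        have h6 : a * θ ⬝ᵥ ((g⁻¹).1 *ᵥ u.1) = 0 := by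
          rw [← smul_eq_mul, ← smul_dotProduct, ← e1, ← dotProduct_mulVec, h5, perp_dot]
        have h7 : θ ⬝ᵥ ((g⁻¹).1 *ᵥ u.1) = 0 := (mul_eq_zero.1 h6).resolve_left (by
          rintro rfl
          apply hθ
          have := congrArg (· ᵥ* (g⁻¹).1) e1
          simp only [vecMul_vecMul, ← Matrix.SpecialLinearGroup.coe_mul] at this
          simpa using this)
        have h8 := tv_mul g (v := (g⁻¹).1 *ᵥ u.1) (f := θ) (by rw [h5, perp_dot])
        rw [h5, e1, ← tv_smul _ _ _ h7] at h8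
        rw [← End.mul_apply, ← map_mul, tA, h8, map_mul, End.mul_apply,
          show ρ (tvSL _ θ) w = _ from hw ⟨a • (g⁻¹).1 *ᵥ u.1, by rw [mem_perp, dotProduct_smul, h7, smul_zero]⟩, map_smul, hv,
          hv, dotProduct_smul, ← smul_dotProduct, ← e2, ← dotProduct_mulVec, h5]
      obtain ⟨c, hc⟩ := (finrank_eq_one_iff_of_nonzero' (⟨w, hw⟩ : eig ρ ψ (tA θ) φ)
        (by simpa using hw0)).1 (finrank_eigA hψ hn hρ hD hθ hφ) ⟨_, this⟩
      exact ⟨c, (congrArg Subtype.val hc).symm⟩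
    obtain ⟨g, a, c, f', e1, e2, e3, e4, e5⟩ := exists_comm hn h3 h4 (by simpa using hx) (perp_dot x)
      ((hv x).symm.trans h) (dot_perp f)
    have e6 : (c • f') ⬝ᵥ x.1 = 0 := by simp [e4]
    obtain ⟨α, hα⟩ := hN g a e1 e2
    obtain ⟨β, hβ⟩ := hN (tvSL x.1 (c • f')) 1 (by simp [vecMul_tv e6, perp_dot])
      (by simp [vecMul_tv e6, ← hv, h])
    have h5 := tv_mul g (v := x.1) (f := f') (by simp [e3, e4])
    rw [e3, tv_smul _ _ _ e4, e5, show tvSL x.1 (c • f' + f.1) = _ from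
      tB_add x.1 ⟨c • f', (dotProduct_comm _ _).trans e6⟩ f, ← mul_assoc] at h5
    have h6 := congrArg (fun g => ρ g w) h5
    simp only [map_mul, End.mul_apply, hα, map_smul, hβ] at h6
    apply ((End.isUnit_iff _).1 ((Group.isUnit (g * tvSL x.1 (c • f'))).map ρ)).1
    simp only [map_mul, End.mul_apply, hα, map_smul, hβ]
    exact h6.symm.trans (smul_comm _ _ _)
  · rw [one_smul, sub_eq_self]
    refine eq_zero_of_char hψ h fun c => ?_
    rw [← mul_smul_comm, ← smul_eq_mul c, ← map_smul, ← mul_pj (tA_add θ), ← mul_assoc, tA,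
      Submodule.coe_smul, tv_smul _ _ _ (perp_dot x), show pj ρ ψ (tB x.1) 0 * ρ (tvSL _ _) = _ from
        pj_mul (tB_add x.1) 0 ⟨c • θ, by simp [mem_perp, dot_perp]⟩]
    simp

theorem exists_sigma {θ : ι → F} (hθ : θ ≠ 0) : ∃ σ : ℂ, ∀ x : perp θ,
    (∑ z : perp θ, uu ρ ψ z.1) * (pj ρ ψ (tA θ) (0 : Dual F (perp θ)) * uu ρ ψ x.1) =
      σ • (pj ρ ψ (tA θ) (0 : Dual F (perp θ)) * uu ρ ψ x.1) := by
  classical
  set A := ∑ z : perp θ, uu ρ ψ z.1 with hA
  have h1 : ∀ (g : SL' ι F) (c : F), θ ᵥ* g.1 = c • θ → ρ g * A = A * ρ g := fun g c hg => by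
    have h2 : ∀ z : perp θ, g.1 *ᵥ z.1 ∈ perp θ := fun z => by
      rw [mem_perp, dotProduct_mulVec, hg, smul_dotProduct, perp_dot, smul_zero]
    rw [hA, mul_sum, sum_mul]
    refine Fintype.sum_bijective (fun z : perp θ => (⟨_, h2 z⟩ : perp θ))
      (Finite.injective_iff_bijective.1 fun z z' e => Subtype.ext ?_) _ _ fun z => uu_conj ρ ψ g z
    exact MulAction.injective g (congrArg Subtype.val e)
  let P : (ι → F) → (ι → F) → ℂ → Prop := fun x z σ => ∀ w,
    (∀ f, f ⬝ᵥ x = 0 → ρ (tvSL x f) w = ψ (z ⬝ᵥ f) • w) → A w = σ • w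
  have h2 : ∀ x z σ (g : SL' ι F) (c : F), θ ᵥ* g.1 = c • θ → P (g.1 *ᵥ x) (g.1 *ᵥ z) σ → P x z σ :=
    fun x z σ g c hg hP w hw => ((End.isUnit_iff _).1 ((Group.isUnit g).map ρ)).1 (by
      rw [← End.mul_apply, h1 g c hg, End.mul_apply, map_smul]
      refine hP _ fun f hf => ?_
      rw [← End.mul_apply, ← map_mul, tv_mul g hf, map_mul, End.mul_apply,
        hw _ (by rwa [← dotProduct_mulVec]), map_smul, dotProduct_comm, ← dotProduct_mulVec,
        dotProduct_comm])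
  obtain ⟨y, hy, hy'⟩ := exists_notMem_ker 0 ![θ] (by omega)
  obtain ⟨x₁, hx, hx'⟩ := exists_notMem_ker y ![θ] (by omega)
  replace hy' : θ ⬝ᵥ y = 0 := hy' 0
  replace hx' : θ ⬝ᵥ x₁ = 0 := hx' 0
  obtain ⟨σ, hσ⟩ : ∃ σ, P y x₁ σ := by
    obtain ⟨f, h3, h4⟩ := exists_dot_one hx
    let χ : Dual F (perp y) := dotProductBilin F F x₁ ∘ₗ (perp y).subtype
    obtain ⟨w, -, hw⟩ := finrank_eq_one_iff'.1 (finrank_eigB hψ hn hρ hD (y := y) (by simpa using hy)
      (φ := χ) fun e => by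
        simpa [χ, dotProduct_comm x₁, h4] using
          LinearMap.congr_fun e ⟨f, (dotProduct_comm _ _).trans h3⟩)
    obtain ⟨σ, hσ⟩ := hw ⟨A w, fun u => by
      rw [← End.mul_apply, tB, h1 _ 1 (by simp [vecMul_tv (dot_perp u), hy']), End.mul_apply,
        show ρ (tvSL y u.1) w = _ from w.2 u, map_smul]⟩
    refine ⟨σ, fun v hv => ?_⟩
    obtain ⟨c, hc⟩ := hw ⟨v, fun u => hv _ (dot_perp u)⟩
    rw [show v = c • w.1 from (congrArg Subtype.val hc).symm, map_smul,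
      show A w = σ • w.1 from (congrArg Subtype.val hσ).symm, smul_comm]
  have h3 : ∀ x z, x ≠ 0 → θ ⬝ᵥ x = 0 → z ∉ F ∙ x → θ ⬝ᵥ z = 0 → P x z σ := fun x z h3 h4 h5 h6 => by
    obtain ⟨g, -, e1, e2⟩ := exists_move hθ (x := 0) (z := x) (z' := y) (by simp) h4 (by simpa) hy
    obtain ⟨c, hc⟩ := e2 hy'
    obtain ⟨g', e3, e4, e5⟩ := exists_move hθ (x := y) (z := g.1 *ᵥ z) (z' := x₁) hy'
      (by rw [dotProduct_mulVec, hc, smul_dotProduct, h6, smul_zero]) (fun e => by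
        obtain ⟨a, ha⟩ := Submodule.mem_span_singleton.1 e
        rw [← e1, ← mulVec_smul] at ha
        exact h5 (Submodule.mem_span_singleton.2 ⟨a, MulAction.injective g ha⟩)) hx
    obtain ⟨c', hc'⟩ := e5 hx'
    exact h2 _ _ _ g c hc (h2 _ _ _ g' c' hc' (by rwa [e1, e3, e4]))
  refine ⟨σ, fun x => ?_⟩
  by_cases hx0 : x.1 = 0
  · simp [hx0, uu_zero]
  rw [uu_eq ρ hψ, mul_sum, mul_sum, smul_sum]
  refine sum_congr rfl fun χ hχ => ?_
  by_cases h : χ ⟨θ, dot_perp x⟩ = 0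
  · obtain ⟨z, hz⟩ := exists_dot_eq' χ
    rw [← mul_assoc, (commute_pj fun u => (h1 _ 1 (by
      simp [tA, vecMul_tv (perp_dot u), perp_dot])).symm).eq, mul_assoc, ← mul_smul_comm]
    congr 1
    refine LinearMap.ext fun w => h3 x z hx0 (perp_dot x) (fun e => (mem_erase.1 hχ).1 ?_)
      (by rw [dotProduct_comm, ← h, hz]) _ fun f hf => ?_
    · obtain ⟨a, rfl⟩ := Submodule.mem_span_singleton.1 e
      ext u; simp [hz, perp_dot]
    · exact (pj_mem (tB_add x.1) χ w ⟨f, (dotProduct_comm _ _).trans hf⟩).trans (by rw [hz])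
  · rw [eq_zero_of_char (T := pj ρ ψ (tA θ) 0 * pj ρ ψ (tB x.1) χ) hψ h fun c => by
      rw [← mul_smul_comm, ← smul_eq_mul c, ← map_smul, ← mul_pj (tB_add x.1), ← mul_assoc, tB,
        Submodule.coe_smul, ← tv_smul _ _ _ (perp_dot x),
        show pj ρ ψ (tA θ) 0 * ρ (tvSL (c • x.1) θ) = _ from pj_mul (tA_add θ) 0 (c • x)]
      simp]
    simp

end Cfsg.Agent.H7.LS
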