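import Cfsg.Agent.H7.SLD3

/-!
The minimal degree of `SL_n(q)`: the lower bound.
-/

set_option autoImplicit false
set_option linter.dupNamespace false

namespace Cfsg.Agent.H7.LS

open Finset Module Matrix Cfsg.Agent.H12 Cfsg.Agent.H28

local notation "SL'" => Matrix.SpecialLinearGroup

variable {F ι M : Type*} [Field F] [Fintype F] [Fintype ι] [DecidableEq ι] [AddCommGroup M]
  [Module ℂ M] {ρ : SL' ι F →* End ℂ M} {ψ : AddChar F ℂ} [FiniteDimensional ℂ M]

theorem trace_uu_uu (hn : 3 ≤ Fintype.card ι) {y x x' : ι → F} (h : x ∉ F ∙ y) (h' : x' ∉ F ∙ y) :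
    LinearMap.trace ℂ M (uu ρ ψ y * uu ρ ψ x') = LinearMap.trace ℂ M (uu ρ ψ y * uu ρ ψ x) := by
  obtain ⟨g, e1, rfl⟩ := exists_move' hn h h'
  have : uu ρ ψ y * uu ρ ψ (g.1 *ᵥ x) = ρ g * (uu ρ ψ y * uu ρ ψ x) * ρ g⁻¹ := by
    rw [← mul_assoc, uu_conj, e1, mul_assoc (uu _ _ y), uu_conj, mul_assoc, mul_assoc, ← map_mul,
      mul_inv_cancel, map_one, mul_one]
  rw [this, LinearMap.trace_mul_comm, ← mul_assoc, ← map_mul, inv_mul_cancel, map_one, one_mul]

theorem sum_ite_ne {A : Type*} [Fintype A] [DecidableEq A] (a : A) :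
    ∑ x, (if x = a then (0 : ℂ) else 1) = Fintype.card A - 1 := by
  rw [sum_ite, sum_const_zero, zero_add, sum_const, filter_ne', card_erase_of_mem (mem_univ _),
    card_univ, nsmul_eq_mul, Nat.cast_sub (Fintype.card_pos_iff.2 ⟨a⟩)]
  simp

omit [FiniteDimensional ℂ M] in
theorem commute_uu {θ : ι → F} (x : perp θ) :
    Commute (uu ρ ψ x.1) (pj ρ ψ (tA θ) (0 : Dual F (perp θ))) := by
  refine (Commute.one_left _).sub_left (commute_pj fun f => ?_).symm
  have := pj_conj (ρ := ρ) (ψ := ψ) (F := F) (tA_add θ) (tA_add θ) (g := tB x.1 f) (fun u =>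
    ⟨⟨(tB x.1 f).1 *ᵥ u.1, by simp [mem_perp, tB, tv_mulVec (dot_perp f), perp_dot]⟩, by
      rw [tA, tA, tv_mul _ (by simp [tB, tv_mulVec (dot_perp f), perp_dot])]
      simp [tB, vecMul_tv (dot_perp f), perp_dot]⟩) fun u =>
    ⟨⟨u.1 - (f.1 ⬝ᵥ u.1) • x.1, by simp [mem_perp, perp_dot]⟩, by
      have h1 : (tB x.1 f).1 *ᵥ (u.1 - (f.1 ⬝ᵥ u.1) • x.1) = u := by
        simp [tB, tv_mulVec (dot_perp f), dot_perp]
      have := tv_mul (tB x.1 f) (v := u.1 - (f.1 ⬝ᵥ u.1) • x.1) (f := θ) (by rw [h1, perp_dot])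
      rw [h1] at this
      rw [tA, tA, this]
      simp [tB, vecMul_tv (dot_perp f), perp_dot]⟩
  exact this.symm

variable (hψ : ψ ≠ 1) (hn : 3 ≤ Fintype.card ι) (hρ : ρ ≠ 1)
  (hD : finrank ℂ M < 2 * (Fintype.card F ^ (Fintype.card ι - 1) - 1))
include hn hρ hψ hD

theorem trace_split {θ : ι → F} (hθ : θ ≠ 0) (T : End ℂ M) (g : Dual F (perp θ) → ℂ) (h0 : g 0 = 0)
    (h : ∀ φ, φ ≠ 0 → T * pj ρ ψ (tA θ) φ = g φ • pj ρ ψ (tA θ) φ) :
    LinearMap.trace ℂ M (T * pj ρ ψ (tA θ) (0 : Dual F (perp θ))) =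
      LinearMap.trace ℂ M T - ∑ φ, g φ := by
  classical
  rw [trace_eq_sum (ρ := ρ) (tA_add θ) hψ T, ← add_sum_erase _ _ (mem_univ 0),
    ← add_sum_erase _ g (mem_univ 0), h0, zero_add,
    sum_congr rfl fun φ (hφ : φ ∈ univ.erase 0) => show LinearMap.trace ℂ M (T * _) = g φ by
      rw [h φ (mem_erase.1 hφ).1, map_smul, trace_pj (tA_add θ),
        finrank_eigA hψ hn hρ hD hθ (mem_erase.1 hφ).1]; simp]
  simp

variable (h3 : Fintype.card ι = 3 → Fintype.card F ≠ 2 ∧ Fintype.card F ≠ 4)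
  (h4 : Fintype.card ι = 4 → Fintype.card F ≠ 2 ∧ Fintype.card F ≠ 3)
  {k : ℕ} (hk : Fintype.card ι = k + 3) {θ : ι → F} (hθ : θ ≠ 0)
include h3 h4 hk hθ

theorem trace_b {x : perp θ} (h : x ≠ 0) : LinearMap.trace ℂ M
    (pj ρ ψ (tA θ) (0 : Dual F (perp θ)) * uu ρ ψ x.1) = Fintype.card F ^ (k + 1) - 1 := by
  classical
  obtain ⟨z, hz, hz'⟩ := exists_notMem_ker x.1 ![θ] (by omega)
  have := sum_dual (F := F) h (y := ⟨z, hz' 0⟩) (fun e => by
    obtain ⟨a, ha⟩ := Submodule.mem_span_singleton.1 e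
    exact hz (Submodule.mem_span_singleton.2 ⟨a, congrArg Subtype.val ha⟩))
    fun p => if p.1 = 0 then 0 else 1
  rw [LinearMap.trace_mul_comm, trace_split hψ hn hρ hD hθ _ _ (by simp)
    fun φ hφ => uu_mul_pj hψ hn hρ hD h3 h4 hθ hφ h, trace_uu hψ hn hρ hD (by simpa using h)]
  rw [card_perp hθ, Fintype.sum_prod_type_right] at this
  simp only [sum_ite_ne, sum_const, card_univ, nsmul_eq_mul] at this
  refine mul_left_cancel₀ (pow_ne_zero 2 (by simp : (Fintype.card F : ℂ) ≠ 0)) ?_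
  rw [mul_sub, this, hk, show k + 3 - 1 = k + 2 from rfl]; push_cast; ring

theorem trace_tau {x y : perp θ} (hy : y ≠ 0) (h : x ∉ F ∙ y) : LinearMap.trace ℂ M
    (uu ρ ψ x.1 * (pj ρ ψ (tA θ) (0 : Dual F (perp θ)) * uu ρ ψ y.1)) =
      LinearMap.trace ℂ M (uu ρ ψ y.1 * uu ρ ψ x.1) -
        (Fintype.card F - 1) ^ 2 * Fintype.card F ^ k := by
  classical
  have := sum_dual hy h fun p => (if p.2 = 0 then 0 else 1) * if p.1 = 0 then 0 else 1
  rw [← mul_assoc, LinearMap.trace_mul_comm, ← mul_assoc, trace_split hψ hn hρ hD hθ _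
    (fun φ => (if φ x = 0 then 0 else 1) * if φ y = 0 then 0 else 1) (by simp) fun φ hφ => by
      rw [mul_assoc, uu_mul_pj hψ hn hρ hD h3 h4 hθ hφ (x := x) (by rintro rfl; simp at h),
        mul_smul_comm, uu_mul_pj hψ hn hρ hD h3 h4 hθ hφ hy, smul_smul]]
  rw [card_perp hθ, Fintype.sum_prod_type_right] at this
  dsimp only at this
  rw [← sum_mul_sum univ univ (fun a : F => if a = 0 then (0 : ℂ) else 1)
    (fun a : F => if a = 0 then (0 : ℂ) else 1), sum_ite_ne] at this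
  refine mul_left_cancel₀ (pow_ne_zero 2 (by simp : (Fintype.card F : ℂ) ≠ 0)) ?_
  rw [mul_sub, this, hk, show k + 3 - 1 = k + 2 from rfl]; push_cast; ring

theorem level_two {x y : perp θ} (hy : y ≠ 0) (hx : x ∉ F ∙ y) : ∃ D₀ : ℕ,
    D₀ + (Fintype.card F ^ (k + 2) - 1 : ℤ) ≤ finrank ℂ M ∧
    (Fintype.card F - 1 + Fintype.card F * (LinearMap.trace ℂ M (uu ρ ψ y.1 * uu ρ ψ x.1) -
      (Fintype.card F - 1) ^ 2 * Fintype.card F ^ k)) * D₀ =
      (Fintype.card F ^ (k + 2) - 1) * (Fintype.card F ^ (k + 1) - 1) := by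
  classical
  have hn' : ∀ {x : perp θ}, x ∉ F ∙ y → x.1 ∉ F ∙ y.1 := fun h e => by
    obtain ⟨a, ha⟩ := Submodule.mem_span_singleton.1 e
    exact h (Submodule.mem_span_singleton.2 ⟨a, Subtype.ext ha⟩)
  have hb := fun x h => trace_b hψ hn hρ hD h3 h4 hk hθ (x := x) h
  have hc := card_perp hθ
  rw [hk, show k + 3 - 1 = k + 2 from rfl] at hc
  obtain ⟨σ, hσ⟩ := exists_sigma hψ hn hρ hD hθ
  have e3 := congrArg (LinearMap.trace ℂ M) (hσ y)
  rw [sum_mul, map_sum, sum_line (F := F) hy (fun z => LinearMap.trace ℂ M (uu ρ ψ z.1 * _))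
    (by simp [uu_zero]) (fun c h => by
    rw [Submodule.coe_smul, uu_smul ρ ψ h, ← mul_assoc, (commute_uu y).eq, mul_assoc, uu_mul_self,
      hb _ hy]) (fun z hz => by
    rw [trace_tau hψ hn hρ hD h3 h4 hk hθ hy hz, trace_uu_uu hn (hn' hx) (hn' hz)]), map_smul,
    hb _ hy, hc] at e3
  have hE := pj_mul_of (ρ := ρ) (ψ := ψ) (mul_pj (tA_add θ) (0 : Dual F (perp θ)))
  have e6 := trace_split hψ hn hρ hD hθ 1 (fun φ => if φ = 0 then 0 else 1) (by simp)
    fun φ h => by simp [h]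
  rw [one_mul, trace_pj (tA_add θ), sum_ite_ne, ← Nat.card_eq_fintype_card, card_dual,
    Nat.card_eq_fintype_card, hc, LinearMap.trace_one] at e6
  have h7 := pj_mem (ρ := ρ) (ψ := ψ) (tA_add θ) (0 : Dual F (perp θ))
  generalize pj ρ ψ (tA θ) (0 : Dual F (perp θ)) = E at hb hσ hE h7
  obtain ⟨B, hB⟩ : ∃ B, B = ∑ x : perp θ, E * uu ρ ψ x.1 := ⟨_, rfl⟩
  have e4 := congrArg (LinearMap.trace ℂ M) hB
  rw [map_sum, sum_line (F := F) hy (fun z => LinearMap.trace ℂ M (E * uu ρ ψ z.1))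
    (by simp [uu_zero]) (fun c h => hb _ (smul_ne_zero h hy))
    (fun x h => hb _ (by rintro rfl; simp at h)), hc] at e4
  have h6 : B * B = σ • B := by
    nth_rw 1 [hB]
    rw [← mul_sum, mul_assoc, hB, mul_sum, sum_congr rfl fun x _ => hσ x, ← smul_sum, mul_smul_comm,
      ← mul_sum, ← mul_assoc, hE]
  have e5 : LinearMap.trace ℂ M B = σ * finrank ℂ (LinearMap.range B) := by
    rw [← LinearMap.trace_restrict_eq_of_forall_mem (LinearMap.range B) B (by simp),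
      show B.restrict _ = σ • (1 : End ℂ (LinearMap.range B)) from LinearMap.ext fun ⟨_, w, rfl⟩ =>
        Subtype.ext (LinearMap.congr_fun h6 w)]
    simp
  have h8 : finrank ℂ (LinearMap.range B) ≤ finrank ℂ (eig ρ ψ (tA θ) (0 : Dual F (perp θ))) :=
    Submodule.finrank_mono (by
      rintro _ ⟨w, rfl⟩
      rw [hB, ← mul_sum]
      exact h7 _)
  refine ⟨finrank ℂ (LinearMap.range B), ?_, ?_⟩
  · have : (finrank ℂ (eig ρ ψ (tA θ) (0 : Dual F (perp θ))) : ℤ) =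
        finrank ℂ M - (Fintype.card F ^ (k + 2) - 1) := by exact_mod_cast e6
    omega
  · have : (Fintype.card F : ℂ) ^ (k + 1) - 1 ≠ 0 := by
      rw [sub_ne_zero]
      exact_mod_cast (Nat.one_lt_pow k.succ_ne_zero Fintype.one_lt_card).ne'
    push_cast at e3 e4
    refine mul_left_cancel₀ this ?_
    rw [smul_eq_mul] at e3
    linear_combination (finrank ℂ (LinearMap.range B) : ℂ) * e3 +
      ((Fintype.card F : ℂ) ^ (k + 1) - 1) * (e4 - e5)

omit h3 h4 hθ in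
theorem level_one [Representation.IsIrreducible ρ] {x y : ι → F} (hy : y ≠ 0) (hx : x ∉ F ∙ y) :
    (Fintype.card F - 1 + Fintype.card F * LinearMap.trace ℂ M (uu ρ ψ y * uu ρ ψ x)) *
      finrank ℂ M = (Fintype.card F ^ (k + 3) - 1) * (Fintype.card F ^ (k + 2) - 1) := by
  have ha := fun x hx => trace_uu hψ hn hρ hD (x := x) hx
  rw [hk, show k + 3 - 1 = k + 2 from rfl] at ha
  obtain ⟨s, hs⟩ : ∃ s : ℂ, ∑ x, uu ρ ψ x = s • 1 := H4.schur_scalar ρ _ fun g => by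
    change _ * ρ g = ρ g * _
    rw [mul_sum, sum_mul]
    exact (Fintype.sum_bijective (g • ·) (MulAction.bijective g) _ _ fun z => uu_conj ρ ψ g z).symm
  have hc : (Fintype.card (ι → F) : ℂ) = Fintype.card F ^ (k + 3) := by simp [hk]
  have e1 := congrArg (LinearMap.trace ℂ M) hs
  rw [map_sum, sum_line (F := F) hy (fun z => LinearMap.trace ℂ M (uu ρ ψ z))
    (by simp [uu_zero]) (fun c h => ha _ (smul_ne_zero h hy))
    (fun x h => ha _ (by rintro rfl; simp at h)), map_smul, LinearMap.trace_one, hc,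
    smul_eq_mul] at e1
  have e2 := congrArg (LinearMap.trace ℂ M) (congrArg (uu ρ ψ y * ·) hs)
  rw [mul_sum, map_sum, sum_line (F := F) hy (fun z => LinearMap.trace ℂ M (uu ρ ψ y * uu ρ ψ z))
    (by simp [uu_zero])
    (fun c h => by rw [uu_smul ρ ψ h, uu_mul_self, ha _ hy]) (fun z hz => trace_uu_uu hn hx hz),
    mul_smul_comm, map_smul, mul_one, ha _ hy, hc, smul_eq_mul] at e2
  have h5 : (Fintype.card F : ℂ) ^ (k + 2) - 1 ≠ 0 := by
    rw [sub_ne_zero]
    exact_mod_cast (Nat.one_lt_pow (k + 1).succ_ne_zero Fintype.one_lt_card).ne'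
  refine mul_left_cancel₀ h5 ?_
  linear_combination (finrank ℂ M : ℂ) * e2 - ((Fintype.card F : ℂ) ^ (k + 2) - 1) * e1

omit hψ hD hk hθ in
/-- The lower bound for the degree of a non-trivial irreducible representation of `SL_n(q)`. -/
theorem sl_bound [Representation.IsIrreducible ρ] :
    Fintype.card F ^ Fintype.card ι - Fintype.card F < (finrank ℂ M + 1) * (Fintype.card F - 1) := by
  classical
  by_contra! hlt
  obtain ⟨ψ, hψ, -⟩ := exists_char (σ := RingHom.id F)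
  obtain ⟨k, hk⟩ : ∃ k, Fintype.card ι = k + 3 := ⟨_, (Nat.sub_add_cancel hn).symm⟩
  have hq : 1 < Fintype.card F := Fintype.one_lt_card
  obtain ⟨P, hP⟩ : ∃ P : ℕ, Fintype.card F ^ k = (Fintype.card F - 1) * P + 1 :=
    (Nat.sub_one_dvd_pow_sub_one (Fintype.card F) k).imp fun P h => by
      rw [← h, Nat.sub_add_cancel (Nat.one_le_pow _ _ (by omega))]
  have hPz : (Fintype.card F : ℤ) ^ k = (Fintype.card F - 1) * P + 1 := by
    zify [hq.le] at hP; exact hP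
  have hlt' : (finrank ℂ M : ℤ) + 1 ≤
      Fintype.card F * (Fintype.card F * (Fintype.card F * P + 1) + 1) := by
    zify [hq.le, Nat.le_self_pow (by omega : Fintype.card ι ≠ 0) (Fintype.card F)] at hlt
    refine le_of_mul_le_mul_right (hlt.trans_eq ?_) (by omega)
    rw [hk, pow_add, hPz]; ring
  have hD : finrank ℂ M < 2 * (Fintype.card F ^ (Fintype.card ι - 1) - 1) := by
    zify [Nat.one_le_pow (Fintype.card ι - 1) _ hq.le]
    rw [hk, show k + 3 - 1 = k + 2 from rfl, pow_add, hPz]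
    have : (2 : ℤ) ≤ Fintype.card F := by omega
    have : (0 : ℤ) ≤ Fintype.card F * (Fintype.card F * P + 1) + 1 := by positivity
    nlinarith
  obtain ⟨θ, hθ, -⟩ := exists_notMem_ker (0 : ι → F) ![] (by omega)
  replace hθ : θ ≠ 0 := by simpa using hθ
  obtain ⟨y, hy, hy'⟩ := exists_notMem_ker 0 ![θ] (by omega)
  replace hy : y ≠ 0 := by simpa using hy
  obtain ⟨x, hx, hx'⟩ := exists_notMem_ker y ![θ] (by omega)
  have e1 := level_one hψ hn hρ hD hk hy hx
  obtain ⟨D₀, e3, e4⟩ := level_two hψ hn hρ hD h3 h4 hk hθ (x := ⟨x, hx' 0⟩) (y := ⟨y, hy' 0⟩)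
    (fun e => hy (congrArg Subtype.val e)) fun e => by
      obtain ⟨a, ha⟩ := Submodule.mem_span_singleton.1 e
      exact hx (Submodule.mem_span_singleton.2 ⟨a, congrArg Subtype.val ha⟩)
  have hPc : (Fintype.card F : ℂ) ^ k = (Fintype.card F - 1) * P + 1 := by exact_mod_cast hPz
  refine arith (q := Fintype.card F) (P := P) (D₀ := D₀) (by omega) (by omega) hlt'
    (by rw [pow_add, hPz] at e3; linarith) ?_
  have h6 : ((Fintype.card F : ℂ) - 1) ^ 2 ≠ 0 := pow_ne_zero _ (by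
    rw [sub_ne_zero]; exact_mod_cast hq.ne')
  simp only [pow_add, hPc] at e1 e4
  refine Int.cast_injective (α := ℂ) (mul_left_cancel₀ h6 ?_)
  push_cast
  linear_combination (finrank ℂ M : ℂ) * e4 - (D₀ : ℂ) * e1

end Cfsg.Agent.H7.LS
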