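import Cfsg.Agent.H7.SLD3

/-!
The minimal degree of symplectic groups in characteristic two.
-/

set_option autoImplicit false
set_option linter.dupNamespace false

namespace Cfsg.Agent.H7.LS

open Finset Module Cfsg.Agent.H12

universe u v

theorem li_of_eigen {K M I J : Type*} [Field K] [AddCommGroup M] [Module K M] [Fintype J]
    (T : I → End K M) {l : J → I → K} (hl : Function.Injective l) (v : J → M) (h0 : ∀ j, v j ≠ 0)
    (hv : ∀ j i, T i (v j) = l j i • v j) : LinearIndependent K v :=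
  Fintype.linearIndependent_iff.2 fun c hc j => (smul_eq_zero.1 (eq_zero_of_sum T hl univ
    (fun j => c j • v j) (fun j i => by rw [map_smul, hv, smul_comm]) hc j
    (mem_univ j))).resolve_right (h0 j)

variable {F : Type*} [Field F] [Fintype F] [CharP F 2]

theorem card_arf {W : Type*} [AddCommGroup W] [Module F W] [Fintype W]
    {B : W →ₛₗ[RingHom.id F] W →ₗ[F] F} (D : SD B) {Q : W → F} (h0 : Q 0 = 0)
    (hQ : ∀ u v, Q (u + v) = Q u + Q v + B u v) {k : ℕ} (hk : Fintype.card W = k ^ 2) :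
    k * (k - 1) ≤ 2 * Nat.card {a // ∃ y, y ^ 2 + y = Q a} := by
  classical
  let p : F →+ F := (frobenius F 2).toAddMonoidHom + AddMonoidHom.id F
  have hp : p.range.index = 2 := by
    rw [AddSubgroup.index_range, Nat.card_eq_two_iff]
    refine ⟨0, ⟨1, by simp [p, CharTwo.add_self_eq_zero]⟩, by simp [Subtype.ext_iff], ?_⟩
    refine Set.eq_univ_of_forall fun ⟨x, hx⟩ => ?_
    have : x * (x - 1) = 0 := by
      simp [p, frobenius_def] at hx
      rw [CharTwo.sub_eq_add]; linear_combination hx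
    simpa [Subtype.ext_iff, sub_eq_zero] using this
  let χ : AddChar F ℤ := ⟨fun x => if x ∈ p.range then 1 else -1, by simp, fun x y => by
    simp only [AddSubgroup.add_mem_iff_of_index_two hp]
    by_cases h : x ∈ p.range <;> by_cases h' : y ∈ p.range <;> simp [h, h']⟩
  obtain ⟨x₀, hx₀⟩ : ∃ x, x ∉ p.range := by
    by_contra! h
    rw [(AddSubgroup.eq_top_iff' _).2 h] at hp
    simp at hp
  have h1 : (∑ a, χ (Q a)) ^ 2 = k ^ 2 := by
    have h2 : ∀ a, χ (Q a) * ∑ b, χ (Q b) = ∑ d, χ (Q d) * χ (B a d) := fun a => by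
      rw [← Equiv.sum_comp (Equiv.addLeft a), mul_sum]
      refine sum_congr rfl fun d _ => ?_
      simp only [← AddChar.map_add_eq_mul, Equiv.coe_addLeft, hQ]
      congr 1
      linear_combination CharTwo.add_self_eq_zero (Q a)
    rw [sq, sum_mul, sum_congr rfl fun a _ => h2 a, sum_comm, sum_eq_single 0]
    · simp [h0, hk]
    · intro d _ hd
      obtain ⟨y, hy⟩ := D.exists_ne hd
      have := AddChar.sum_eq_zero_iff_ne_zero.2 (AddChar.ne_zero_iff.2
        ⟨(x₀ / B y d) • y, by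
          simp [χ, div_mul_cancel₀ _ (D.ne0 hy), -AddMonoidHom.mem_range, hx₀]⟩ :
        χ.compAddMonoidHom (B.flip d).toAddMonoidHom ≠ 0)
      rw [← mul_sum, show ∑ a, χ (B a d) = 0 from this, mul_zero]
    · simp
  have h3 : ∑ a, (χ (Q a) + 1) = 2 * (Nat.card {a // ∃ y, y ^ 2 + y = Q a} : ℤ) := by
    rw [Nat.card_eq_fintype_card, Fintype.card_subtype, card_filter]
    push_cast
    rw [mul_sum]
    refine sum_congr rfl fun a _ => ?_
    by_cases h : Q a ∈ p.range
    · rw [if_pos (show ∃ y, y ^ 2 + y = Q a from h)]; simp [χ, h, -AddMonoidHom.mem_range]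
    · rw [if_neg (show ¬ ∃ y, y ^ 2 + y = Q a from h)]; simp [χ, h, -AddMonoidHom.mem_range]
  rw [sum_add_distrib, sum_const, card_univ, hk] at h3
  have h4 := (abs_le_of_sq_le_sq' h1.le (by positivity)).1
  rcases k with _ | k
  · simp
  · zify
    simp only [nsmul_eq_mul] at h3
    push_cast at h3 h4 ⊢
    nlinarith

variable {V : Type u} [AddCommGroup V] [Module F V] {B : V →ₛₗ[RingHom.id F] V →ₗ[F] F}
  {M : Type v} [AddCommGroup M] [Module ℂ M] [FiniteDimensional ℂ M]

theorem exists_quad [Finite V] (D : SD B) (ρ : UG B →* End ℂ M) {e : V} {c₀ : F}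
    (h0 : ρ (tv B e c₀) ≠ 1) (W : Submodule F V) (hW : ∀ u : W, B e u = 0) :
    ∃ (ψ : AddChar F ℂ) (Q : W → F) (w : M), ψ ≠ 1 ∧ w ≠ 0 ∧ (∀ (a : F) u, Q (a • u) = a ^ 2 * Q u) ∧
      (∀ u v, Q (u + v) = Q u + Q v + B u v) ∧ ∀ (u : W) c, ρ (rho B e u c) w = ψ (c + Q u) • w := by
  have : Finite (V ≃ₗ[F] V) := DFunLike.finite _
  have hA : ∀ (u : W) c, Adm B e u c := fun u c =>
    ⟨D.self_eq_zero rfl _, hW u, by simp [D.self_eq_zero rfl]⟩
  obtain ⟨w, β, hw, hβ, hβ0⟩ := exists_eigen ρ (fun p : W × F => rho B e p.1 p.2) (fun p q => by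
    rw [Commute, SemiconjBy, rho_mul D (hA _ _) (hA _ _), rho_mul D (hA _ _) (hA _ _),
      D.skew p.1 q.1, add_comm q.1.1, add_comm q.2, CharTwo.neg_eq]; rfl) (i₀ := (0, c₀)) h0
  have hinj : ∀ {a b : ℂ}, a • w = b • w → a = b := fun h => smul_left_injective ℂ hw h
  have hmul : ∀ u c u' c', β (u + u', c + c' + B u u') = β (u, c) * β (u', c') :=
    fun u c u' c' => hinj (by
      rw [← hβ, Submodule.coe_add, ← rho_mul D (hA _ _) (hA _ _), map_mul, End.mul_apply,
        hβ (u', c'), map_smul, hβ (u, c), smul_smul, mul_comm])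
  have hz : β (0, 0) = 1 := hinj (by rw [← hβ, Submodule.coe_zero, rho_zero D, map_one]; simp)
  let ψ : AddChar F ℂ := ⟨fun c => β (0, c), hz, fun a b => by simpa using hmul 0 a 0 b⟩
  have hψ : ψ ≠ 1 := AddChar.ne_one_iff.2 ⟨c₀, hβ0⟩
  have h1 : ∀ u c, β (u, c) = β (u, 0) * ψ c := fun u c => by simpa [ψ] using hmul u 0 0 c
  choose φ hφ using fun u : W => exists_dual hψ (U := F)
    ⟨fun s => β ((frobeniusEquiv F 2).symm s • u, 0), by simpa using hz, fun s t => by
      rw [← hmul, map_add, add_smul]; simp [D.self_eq_zero rfl]⟩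
  have h2 : ∀ (t : F) u, β (t • u, 0) = ψ (t ^ 2 * φ u 1) := fun t u => by
    rw [← smul_eq_mul, ← map_smul, ← hφ]
    simp [← frobenius_def]
  have h3 : ∀ {a b : F}, (∀ t, ψ (t ^ 2 * a) = ψ (t ^ 2 * b)) → a = b := fun h =>
    eq_of_char hψ fun s => by
      obtain ⟨t, rfl⟩ := (frobeniusEquiv F 2).surjective s
      exact h t
  refine ⟨ψ, fun u => φ u 1, w, hψ, hw, fun a u => h3 fun t => ?_, fun u v => h3 fun t => ?_,
    fun u c => by rw [hβ (u, c), h1, ← one_smul F u, h2, ← AddChar.map_add_eq_mul]; simp [add_comm]⟩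
  · rw [← h2, smul_smul, h2, mul_pow, mul_assoc]
  · have := hmul (t • u) 0 (t • v) 0
    rw [h1, ← smul_add, h2, h2, h2] at this
    simp only [← AddChar.map_add_eq_mul] at this
    rw [mul_add, mul_add, AddChar.map_add_eq_mul, ← this, ← AddChar.map_add_eq_mul]
    congr 1
    simp
    linear_combination -CharTwo.add_self_eq_zero (t ^ 2 * B u v)

theorem sp_even_aux (m : ℕ) : ∀ {V : Type u} [AddCommGroup V] [Module F V] [FiniteDimensional F V]
    {B : V →ₛₗ[RingHom.id F] V →ₗ[F] F} (_ : SD B) (_ : finrank F V = 2 * (m + 1))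
    {M : Type v} [AddCommGroup M] [Module ℂ M] [FiniteDimensional ℂ M] (ρ : UG B →* End ℂ M)
    {e : V} {c : F} (_ : ρ (tv B e c) ≠ 1), ∑ i ∈ range (m + 1),
      (Fintype.card F - 1) * (Fintype.card F ^ i * (Fintype.card F ^ i - 1)) ≤ 2 * finrank ℂ M := by
  classical
  induction m with
  | zero => intros; simp
  | succ m ih =>
  intro V _ _ _ B D hn M _ _ _ ρ e c₀ h0
  have : Finite V := Module.finite_of_finite F
  have hs := D.self_eq_zero rfl
  have he : e ≠ 0 := by rintro rfl; exact h0 (by rw [tv_zero_left D, map_one])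
  obtain ⟨f, hf⟩ := D.exists_SP (hs e) he
  have hW := hf.finrank_spp D
  obtain ⟨ψ, Q, w, hψ, hw, h1, h2, h3⟩ := exists_quad D ρ h0 (spp B e f) spp_left
  have h4 : ∀ (a : spp B e f) (c₁ : F) (u : spp B e f) c, ρ (rho B e u c) (ρ (tv B a c₁) w) =
      ψ (c + (Q u + (c₁ ^ 2 * Q a + c₁) * B a u ^ 2)) • ρ (tv B a c₁) w := fun a c₁ u c => by
    have h5 := conj_rho D (tv B a c₁)⁻¹ e u c
    rw [inv_inv, tv_inv D, CharTwo.neg_eq, tv_apply_of_perp D _ (D.spp_left' a),
      tv_apply D (hs _) rfl, mul_assoc, ← inv_inv (tv B a c₁), inv_mul_eq_iff_eq_mul, tv_inv D,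
      CharTwo.neg_eq, tv_inv D, CharTwo.neg_eq] at h5
    rw [← End.mul_apply, ← map_mul, h5, map_mul, End.mul_apply,
      show ρ (rho B e (u + (c₁ * B a u) • a) c) w = _ from h3 (u + (c₁ * B a u) • a) c, map_smul, h2, h1]
    congr 2
    simp only [Submodule.coe_smul, map_smul, D.skew a u, CharTwo.neg_eq, RingHom.id_apply,
      smul_eq_mul]
    ring
  have hQ0 : Q 0 = 0 := by simpa using h1 0 0
  have hne : ∀ g, ρ g w ≠ 0 := fun g e => hw (by
    simpa [← End.mul_apply, ← map_mul] using congrArg (ρ g⁻¹) e)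
  have hsq : ∀ {a b : F}, (∀ t, ψ (a * t ^ 2) = ψ (b * t ^ 2)) → a = b := fun h =>
    eq_of_char hψ fun s => by
      obtain ⟨t, rfl⟩ := (frobeniusEquiv F 2).surjective s
      rw [mul_comm, mul_comm (frobeniusEquiv F 2 t)]; exact h t
  let S : V → F → Submodule ℂ M := fun x s => eig ρ ψ (tv B x) (s • LinearMap.id : Dual F F)
  have hS : ∀ {x s v}, v ∈ S x s ↔ ∀ c, ρ (tv B x c) v = ψ (s * c) • v := Iff.rfl
  clear_value S
  have hle : ∀ x y s, x ≠ 0 → y ≠ 0 → finrank ℂ (S x s) ≤ finrank ℂ (S y s) := fun x y s hx hy => by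
    obtain ⟨g, rfl⟩ := D.witt_one hx hy (by rw [hs, hs])
    have : ∀ v ∈ S x s, ρ g v ∈ S (g.1 x) s := fun v hv => hS.2 fun c => by
      rw [← conj_tv D, ← End.mul_apply, ← map_mul, inv_mul_cancel_right, map_mul, End.mul_apply,
        hS.1 hv, map_smul]
    refine LinearMap.finrank_le_finrank_of_injective (f := (ρ g).restrict this) fun x y e => ?_
    simpa [← End.mul_apply, ← map_mul] using congrArg (fun z => ρ g⁻¹ z.1) e
  have h5 := sum_finrank_le (fun c => ρ (tv B e c)) (l := fun s c => ψ (s * c))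
    (fun s s' h => eq_of_char hψ fun t => by simpa [mul_comm] using congrFun h t) (S e)
    fun s v hv => hS.1 hv
  have h6 : finrank ℂ (S e 0) + (Fintype.card F - 1) * finrank ℂ (S e 1) ≤ finrank ℂ M := by
    rw [← add_sum_erase _ _ (mem_univ 0)] at h5
    refine le_trans (Nat.add_le_add_left ?_ _) h5
    rw [← card_univ, ← card_erase_of_mem (mem_univ 0), ← smul_eq_mul, ← sum_const]
    refine sum_le_sum fun s h => ?_
    obtain ⟨t, rfl⟩ := (frobeniusEquiv F 2).surjective s
    have ht : t ≠ 0 := by rintro rfl; simp at h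
    refine (hle _ (t⁻¹ • e) _ he (smul_ne_zero (inv_ne_zero ht) he)).trans
      (Submodule.finrank_mono fun v hv => hS.2 fun c => ?_)
    have := hS.1 hv (t ^ 2 * c)
    rwa [H12.tv_smul D (hs _) rfl, one_mul, show t ^ 2 * c * (t⁻¹ * RingHom.id F t⁻¹) = c by
      simp; field_simp] at this
  have h7 : Nat.card {a // ∃ y, y ^ 2 + y = Q a} ≤ finrank ℂ (S e 1) := by
    have := Fintype.ofFinite {a // ∃ y, y ^ 2 + y = Q a}
    have h8 : ∀ a : {a // ∃ y, y ^ 2 + y = Q a}, ∃ c₁, c₁ ^ 2 * Q a + c₁ = 1 := fun ⟨a, y, hy⟩ => by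
      by_cases h : Q a = 0
      · exact ⟨1, by simp [h]⟩
      · exact ⟨y / Q a, by field_simp; linear_combination hy⟩
    choose c₁ hc using h8
    have h9 := li_of_eigen (fun u : spp B e f => ρ (rho B e u 0))
      (l := fun (a : {a // ∃ y, y ^ 2 + y = Q a}) u => ψ (Q u + B a.1 u ^ 2)) (fun a a' h => by
        refine Subtype.ext ((hf.sd D).ext_left fun u => (frobeniusEquiv F 2).injective
          (hsq fun t => ?_))
        have := congrFun h (t • u)
        simp only [AddChar.map_add_eq_mul, mul_right_inj' (AddChar.val_isUnit ψ _).ne_zero] at this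
        simpa [mul_pow, mul_comm, frobenius_def] using this)
      (fun a => ρ (tv B a.1 (c₁ a)) w) (fun a => hne _) fun a u => by rw [h4, hc]; simp
    rw [Nat.card_eq_fintype_card, ← finrank_span_eq_card h9]
    refine Submodule.finrank_mono (Submodule.span_le.2 ?_)
    rintro _ ⟨a, rfl⟩
    exact hS.2 fun c => by simpa [hQ0, tv] using h4 a.1 (c₁ a) 0 c
  have := Fintype.ofFinite (spp B e f)
  have h8 := card_arf (hf.sd D) hQ0 h2 (k := Fintype.card F ^ (m + 1)) (by
    rw [Module.card_eq_pow_finrank (K := F), ← pow_mul]; congr 1; omega)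
  rw [sum_range_succ]
  suffices ∑ i ∈ range (m + 1), (Fintype.card F - 1) * (Fintype.card F ^ i *
      (Fintype.card F ^ i - 1)) ≤ 2 * finrank ℂ (S e 0) by
    have h9 := Nat.mul_le_mul_left (Fintype.card F - 1) (h8.trans (Nat.mul_le_mul_left 2 h7))
    rw [mul_left_comm _ 2] at h9
    omega
  rcases Nat.eq_zero_or_pos m with rfl | hm
  · simp
  obtain ⟨e', he', hQ⟩ : ∃ e', e' ≠ 0 ∧ Q e' = 0 := by
    obtain ⟨U, hU, hU'⟩ := (hf.sd D).exists_ti (Or.inl rfl) (k := 2) (by omega)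
    let φ : U →ₗ[F] F :=
      { toFun := fun u => (frobeniusEquiv F 2).symm (Q u)
        map_add' := fun u v => by
          rw [Submodule.coe_add, h2, show B u.1 v.1 = 0 from hU' _ u.2 _ v.2, add_zero, map_add]
        map_smul' := fun a u => by simp [h1, ← frobenius_def] }
    obtain ⟨x, hx, hx0⟩ := (Submodule.ne_bot_iff _).1
      (LinearMap.ker_ne_bot_of_finrank_lt (f := φ) (by simp [hU]))
    exact ⟨x, fun e => hx0 (Subtype.ext e), by simpa [φ] using hx⟩
  let C : Subrepresentation (ρ.comp (extUG D (hf.isCompl D))) := ⟨S e 0, fun g v hv => hS.2 fun c => by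
    have := conj_tv D (extUG D (hf.isCompl D) g) e c
    rw [extUG_apply_perp D _ _ (fun x hx => D.spp_left' ⟨x, hx⟩), mul_inv_eq_iff_eq_mul] at this
    rw [MonoidHom.comp_apply, ← End.mul_apply, ← map_mul, ← this, map_mul, End.mul_apply, hS.1 hv,
      map_smul]⟩
  obtain ⟨c, hc⟩ : ∃ c, C.toRepresentation (tv _ e' c) ≠ 1 := by
    by_contra! H
    have h9 : S e 0 = S e' 0 := Submodule.eq_of_le_of_finrank_le (fun v hv => hS.2 fun c => by
      rw [← extUG_tv D (hf.isCompl D), zero_mul, AddChar.map_zero_eq_one, one_smul]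
      exact congrArg Subtype.val (LinearMap.congr_fun (H c) ⟨v, hv⟩))
      (hle _ _ _ (by simpa using he') he)
    have h10 : ∑ c, ρ (tv B e' c) w ∈ S e' 0 := hS.2 fun c => by
      rw [map_sum, ← Equiv.sum_comp (Equiv.addLeft c) fun c => ρ (tv B e' c) w]
      simp [← End.mul_apply, ← map_mul, H12.tv_mul D (hs _) rfl rfl]
    have h11 : ∑ c, ρ (tv B e' c) w ∈ S e 1 :=
      Submodule.sum_mem _ fun c₁ _ => hS.2 fun c => by simpa [hQ0, tv] using h4 e' c₁ 0 c
    obtain ⟨y, hy⟩ := (hf.sd D).exists_ne he'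
    refine hne _ (eq_zero_of_sum (fun u : spp B e f => ρ (rho B e u 0))
      (l := fun c u => ψ (Q u + c * B e' u ^ 2)) (fun a a' h => ?_) univ (fun c => ρ (tv B e' c) w)
      (fun c u => by rw [h4, hQ]; simp) ?_ 0 (mem_univ _))
    · refine mul_right_cancel₀ (pow_ne_zero 2 hy) (hsq fun t => ?_)
      have := congrFun h (t • y)
      simp only [AddChar.map_add_eq_mul, mul_right_inj' (AddChar.val_isUnit ψ _).ne_zero] at this
      simpa [mul_pow, mul_comm, mul_left_comm] using this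
    · rw [← h9] at h10
      exact eq_zero_of_char hψ one_ne_zero fun c => by
        rw [mul_comm, ← hS.1 h11, hS.1 h10]; simp
  exact ih (hf.sd D) (by omega) C.toRepresentation hc

omit [CharP F 2] in
theorem sum_sp_even {q : ℕ} (hq : 1 ≤ q) (m : ℕ) : (q + 1) * ∑ i ∈ range (m + 1),
    (q - 1) * (q ^ i * (q ^ i - 1)) = (q ^ (m + 1) - 1) * (q ^ (m + 1) - q) := by
  induction m with
  | zero => simp
  | succ m ih =>
    rw [sum_range_succ, mul_add, ih]
    zify [hq, Nat.one_le_pow _ _ hq, Nat.le_self_pow (Nat.succ_ne_zero _) q]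
    ring

end Cfsg.Agent.H7.LS
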