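import Cfsg.Agent.H7.WV3
import Cfsg.Agent.H13.Jor

/-!
Uniqueness and existence of the normal form of a unipotent isometry.
-/

set_option autoImplicit false
set_option linter.dupNamespace false

namespace Cfsg.Agent.H7.WU

open Module H28 Finset Polynomial Submodule

variable {F V V' : Type*} [Field F] [AddCommGroup V] [Module F V] [AddCommGroup V'] [Module F V']
  {B : V →ₗ[F] V →ₗ[F] F} {B' : V' →ₗ[F] V' →ₗ[F] F} {ε δ : F} {a b : End F V} {a' b' : End F V'}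
  {ι ι' : Type*} {r : ι → ℕ} {s t : ι → Bool} {x : ι → Bool → V} {R : Submodule F V}
  {r' : ι' → ℕ} {s' t' : ι' → Bool} {x' : ι' → Bool → V}

theorem IS.inj (h : IS B ε a b) (hu : IsNilpotent (a - 1)) (k : ℕ) {y : V}
    (hy : ((a - (-1 : F) • 1) ^ k) y = 0) : y = 0 := by
  obtain ⟨m, hm⟩ := hu
  exact h.sep y fun z => h.orth (t := false) (t' := true) (by simp)
    ((End.mem_maxGenEigenspace _ _ _).2 ⟨m, by simp [sg, hm]⟩) ((End.mem_maxGenEigenspace _ _ _).2 ⟨k, hy⟩)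

theorem IS.pow_eq_zero_iff (h : IS B ε a b) (hu : IsNilpotent (a - 1)) (k : ℕ) :
    (a - b) ^ k = 0 ↔ (a - 1) ^ k = 0 := by
  rw [h.pow_eq (mul_one 1), one_smul]
  refine ⟨fun e => LinearMap.ext fun y => h.inj hu k ?_, fun e => by simp [e]⟩
  have := congrArg (a ^ k * ·) e
  simp only [← mul_assoc, ← h.comm.mul_pow, h.ab, one_pow, one_mul, mul_zero] at this
  exact LinearMap.congr_fun this y

theorem Dec.ne (hδ : δ ≠ 0) (D : Dec B ε δ a b r s t x R) (i : ι) : ∃ u, ((a - b) ^ r i) (x i u) ≠ 0 :=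
  (gr_ne hδ ((-1) ^ r i * ε) (s i)).imp fun u hu e => hu (by simpa [e] using (D.gram i false i u (r i)).symm)

theorem Dec.t_eq (h : IS B ε a b) (hu : IsNilpotent (a - 1)) (hδ : δ ≠ 0) (D : Dec B ε δ a b r s t x R)
    (i : ι) : t i = false := by
  obtain ⟨u, h1⟩ := D.ne hδ i
  obtain ⟨k, hk⟩ := (End.mem_maxGenEigenspace _ _ _).1 (D.pow_mem h i u (r i))
  exact Bool.eq_false_iff.2 fun e => h1 (h.inj hu k (by simpa [e, sg] using hk))

theorem Dec.eq_bot (hu : IsNilpotent (a - 1)) (D : Dec B ε δ a b r s t x R) : R = ⊥ := by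
  obtain ⟨k, hk⟩ := hu
  have : ∀ k : ℕ, ∀ y ∈ R, ((a - 1 : End F V) ^ k) y = 0 → y = 0 := fun k => by
    induction k with
    | zero => simp
    | succ k ih =>
      intro y hy e
      have := sub_eq_zero.1 (ih _ (sub_mem (D.inv y hy) hy) (by simpa [pow_succ] using e))
      exact D.inj y hy (by rw [this, this])
  exact eq_bot_iff.2 fun y hy => this k y hy (by simp [hk])

theorem Dec.pow_eq_zero_iff (h : IS B ε a b) (hδ : δ ≠ 0) (D : Dec B ε δ a b r s t x ⊥) (k : ℕ) :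
    (a - b) ^ k = 0 ↔ ∀ i, r i < k := by
  refine ⟨fun e i => by_contra fun e' => ?_, fun e => LinearMap.ext fun y =>
    (show _ ≤ LinearMap.ker ((a - b) ^ k) from sup_le (span_le.2 ?_) bot_le) (D.gen (mem_top (x := y)))⟩
  · obtain ⟨j, hj⟩ := Nat.exists_eq_add_of_le' (not_lt.1 e')
    exact (D.ne hδ i).elim fun u hu => hu (by simp [hj, pow_add, e])
  · rintro _ ⟨⟨i, u, j⟩, rfl⟩
    obtain ⟨l, rfl⟩ := Nat.exists_eq_add_of_le (e i)
    change ((a - b) ^ _) (((a - b) ^ j) (x i u)) = 0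
    rw [pow_pow_apply, show (r i).succ + l + j = l + j + (r i + 1) by omega, ← pow_pow_apply,
      D.pow_eq_zero h, map_zero]

theorem Dec.coef (hδ : δ ≠ 0) (D : Dec B ε δ a b r s t x R) {κ : Type*} [Fintype κ] {φ : κ → ι × Bool}
    (hφ : Function.Injective φ) (c : κ → F) {k : κ} (hk : (-1) ^ r (φ k).1 * ε = 1 → (φ k).2 = false)
    (h0 : ∀ u, ((-1) ^ r (φ k).1 * ε = 1 → u = false) →
      ∑ l, c l * B (x (φ k).1 u) (((a - b) ^ r (φ k).1) (x (φ l).1 (φ l).2)) = 0) : c k = 0 := by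
  classical
  have h1 : ∀ u', gr ((-1) ^ r (φ k).1 * ε) (if s (φ k).1 then δ else 1)
      (if (-1) ^ r (φ k).1 * ε = 1 then false else !(φ k).2) u' = 0 ↔ u' ≠ (φ k).2 := fun u' => by
    by_cases e : (-1) ^ r (φ k).1 * ε = 1
    · cases u' <;> cases s (φ k).1 <;> simp [gr, e, hk e, hδ]
    · cases u' <;> cases (φ k).2 <;> simp [gr, e]
  have := h0 (if (-1) ^ r (φ k).1 * ε = 1 then false else !(φ k).2) fun e => if_pos e
  rw [sum_eq_single k _ (by simp), D.gram, if_pos ⟨rfl, rfl⟩, mul_eq_zero, h1] at this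
  · simpa using this
  · refine fun l _ e => mul_eq_zero_of_right _ (D.gram _ _ _ _ _ ▸ ite_eq_right_iff.2 fun e1 => ?_)
    exact (h1 _).2 fun e2 => e (hφ (Prod.ext e1.1.symm e2))

/-- The index set of a basis of the form of level `j`. -/
abbrev JL (ε : F) (r : ι → ℕ) (j : ℕ) := {i // r i = j} × {u : Bool // (-1) ^ j * ε = 1 → u = false}

/-- The Gram matrix of the form of level `j`. -/
def gm (B : V →ₗ[F] V →ₗ[F] F) (ε : F) (N : End F V) (r : ι → ℕ) (x : ι → Bool → V) (j : ℕ) :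
    Matrix (JL ε r j) (JL ε r j) F := .of fun p q => B (x p.1 p.2) ((N ^ j) (x q.1 q.2))

theorem jl_inj (j : ℕ) : Function.Injective fun p : JL ε r j => (p.1.1, p.2.1) := fun _ _ e =>
  Prod.ext (Subtype.ext (congrArg Prod.fst e)) (Subtype.ext (congrArg Prod.snd e))

variable [Fintype ι] [Fintype ι'] [DecidableEq F]

theorem Dec.exists_coef (h : IS B ε a b) (hδ : δ ≠ 0) (D : Dec B ε δ a b r s t x ⊥) {j : ℕ} {z : V}
    (hz : ((a - b) ^ (j + 1)) z = 0) : ∃ c : JL ε r j → F, ∀ y, ((a - b) ^ (j + 1)) y = 0 →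
      B y (((a - b) ^ j) z) = ∑ p, c p * B y (((a - b) ^ j) (x p.1 p.2)) := by
  classical
  have h1 : ⊤ ≤ span F (Set.range fun p : ι × Bool => x p.1 p.2) ⊔ LinearMap.range (a - b) := by
    refine D.gen.trans (sup_le (span_le.2 ?_) bot_le)
    rintro _ ⟨⟨i, u, _ | k⟩, rfl⟩
    exacts [mem_sup_left (subset_span ⟨(i, u), rfl⟩), mem_sup_right ⟨((a - b) ^ k) (x i u),
      (LinearMap.congr_fun (pow_succ' (a - b) k) _).symm⟩]
  obtain ⟨_, h2, _, ⟨w, rfl⟩, rfl⟩ := mem_sup.1 (h1 (mem_top (x := z)))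
  obtain ⟨c, rfl⟩ := (mem_span_range_iff_exists_fun F).1 h2
  have h3 : ∀ k y, ((a - b) ^ (k + 1)) y = 0 → B y (((a - b) ^ k) (∑ p : ι × Bool, c p • x p.1 p.2 + (a - b) w)) =
      ∑ p : ι × Bool, c p * B y (((a - b) ^ k) (x p.1 p.2)) := fun k y hy => by
    rw [map_add, map_add, ← End.mul_apply, ← pow_succ, h.sk.swap (k + 1) w, hy]
    simp
  refine ⟨fun p => c (p.1, p.2), fun y hy => (h3 j y hy).trans (Fintype.sum_of_injective _ (jl_inj j) _ _
    (fun p hp => ?_) fun _ => rfl).symm⟩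
  by_cases e : (-1) ^ r p.1 * ε = 1 → p.2 = false
  swap
  · rw [D.eq_zero h (y := x p.1 p.2) (fun l u k => ?_) (by simp), map_zero, map_zero, mul_zero]
    rw [h.sk.pow_left, D.gram]
    refine mul_eq_zero_of_right _ (ite_eq_right_iff.2 ?_)
    rintro ⟨rfl, -⟩
    simp_all [gr]
  rcases lt_trichotomy (r p.1) j with e1 | e1 | e1
  · obtain ⟨k, rfl⟩ := Nat.exists_eq_add_of_le' e1
    rw [← pow_pow_apply, D.pow_eq_zero h, map_zero, map_zero, mul_zero]
  · exact absurd ⟨(⟨_, e1⟩, ⟨_, e1 ▸ e⟩), rfl⟩ hp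
  · obtain ⟨k, hk⟩ := Nat.exists_eq_add_of_le' e1
    rw [D.coef hδ Function.injective_id c e fun u _ => (h3 _ _ (D.pow_eq_zero h _ _)).symm.trans ?_,
      zero_mul]
    rw [id, hk, ← pow_pow_apply, hz, map_zero, map_zero]

theorem Dec.gm_eq (h : IS B ε a b) (hδ : δ ≠ 0) (D : Dec B ε δ a b r s t x ⊥)
    (D' : Dec B ε δ a b r' s' t' x' ⊥) (j : ℕ) : ∃ A : Matrix (JL ε r' j) (JL ε r j) F,
      gm B ε (a - b) r' x' j = A * gm B ε (a - b) r x j * A.transpose := by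
  have h1 : ∀ p : JL ε r' j, ((a - b) ^ (j + 1)) (x' p.1 p.2) = 0 := fun p => by
    simpa [p.1.2] using D'.pow_eq_zero h p.1 p.2
  have h2 : ∀ p : JL ε r j, ((a - b) ^ (j + 1)) (x p.1 p.2) = 0 := fun p => by
    simpa [p.1.2] using D.pow_eq_zero h p.1 p.2
  choose A hA using fun p => D.exists_coef h hδ (h1 p)
  refine ⟨.of A, Matrix.ext fun p q => ?_⟩
  simp only [gm, Matrix.mul_apply, Matrix.of_apply, Matrix.transpose_apply, hA q _ (h1 p)]
  refine sum_congr rfl fun l _ => ?_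
  rw [h.sk.swap, hA p _ (h2 l), mul_comm, mul_sum]
  exact congrArg (· * _) (sum_congr rfl fun k _ => by rw [h.sk.swap j (x l.1 l.2)]; ring)

theorem Dec.card_le (h : IS B ε a b) (hδ : δ ≠ 0) (D : Dec B ε δ a b r s t x ⊥)
    (D' : Dec B ε δ a b r' s' t' x' ⊥) (j : ℕ) : Nat.card (JL ε r' j) ≤ Nat.card (JL ε r j) := by
  obtain ⟨A, hA⟩ := D.gm_eq h hδ D' j
  have := LinearMap.finrank_le_finrank_of_injective (f := A.transpose.mulVecLin)
    ((injective_iff_map_eq_zero _).2 fun v hv => funext fun p => D'.coef hδ (jl_inj j) v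
      (by simpa [p.1.2] using p.2.2) fun u hu => ?_)
  · simpa using this
  have h1 : (gm B ε (a - b) r' x' j).mulVec v = 0 := by
    rw [hA, ← Matrix.mulVec_mulVec, show A.transpose.mulVec v = 0 from hv, Matrix.mulVec_zero]
  have := congrFun h1 (p.1, ⟨u, by simpa [p.1.2] using hu⟩)
  simpa [gm, Matrix.mulVec, dotProduct, mul_comm, p.1.2] using this

theorem Dec.sgn_imp (h : IS B ε a b) (hδ : ¬ IsSquare δ) (D : Dec B ε δ a b r s t x ⊥)
    (D' : Dec B ε δ a b r' s' (fun _ => false) x' ⊥) {l : ι'} (hl : s' l) : ∃ i, s i ∧ r i = r' l := by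
  classical
  have hδ0 : δ ≠ 0 := by rintro rfl; simp at hδ
  obtain ⟨A, hA⟩ := D.gm_eq h hδ0 D' (r' l)
  obtain ⟨e⟩ := Finite.card_eq.1 ((D.card_le h hδ0 D' (r' l)).antisymm (D'.card_le h hδ0 D (r' l)))
  obtain ⟨h1, h2⟩ := D'.sgn l hl
  by_contra! h3
  rw [show gm B ε (a - b) r x (r' l) = 1 from Matrix.ext fun p q => ?_, show gm B ε (a - b) r' x' (r' l) =
    .diagonal fun p => if p = (⟨l, rfl⟩, ⟨false, fun _ => rfl⟩) then δ else 1 from Matrix.ext fun p q => ?_,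
    Matrix.mul_one, ← Matrix.submatrix_id_id (A * _), ← Matrix.submatrix_mul_equiv (e₂ := e)] at hA
  · have := congrArg Matrix.det hA
    rw [Matrix.det_mul, ← Matrix.transpose_submatrix, Matrix.det_transpose] at this
    exact hδ ⟨_, by simpa using this⟩
  · obtain ⟨⟨i, hi⟩, u, hu⟩ := p
    obtain ⟨⟨k, hk⟩, u', hu'⟩ := q
    obtain rfl := hu h1
    obtain rfl := hu' h1
    have : s' i ↔ i = l := ⟨fun e => h2 i e hi rfl, fun e => e ▸ hl⟩
    simp [gm, D'.gram, gr, hi, h1, Matrix.diagonal_apply, this]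
  · obtain ⟨⟨i, hi⟩, u, hu⟩ := p
    obtain ⟨⟨k, hk⟩, u', hu'⟩ := q
    obtain rfl := hu h1
    obtain rfl := hu' h1
    simp [gm, D.gram, gr, hi, h1, Matrix.one_apply, mt (h3 i · hi) id]

end Cfsg.Agent.H7.WU
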