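import Cfsg.Agent.H7.WX1

/-!
The unipotent classes of symplectic groups in odd characteristic.
-/

set_option autoImplicit false
set_option linter.dupNamespace false

namespace Cfsg.Agent.H7.WU

open Module H28 Finset Polynomial Submodule H13

universe u

variable {F : Type u} {V V' : Type*} [Field F] [AddCommGroup V] [Module F V] [AddCommGroup V'] [Module F V']
  {B : V →ₗ[F] V →ₗ[F] F} {B' : V' →ₗ[F] V' →ₗ[F] F} {ε δ : F} {a b : End F V} {a' b' : End F V'}

theorem exists_sqrt (h2 : (2 : F) ≠ 0) (c : F) (k : ℕ) :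
    ∃ p : F[X], p.eval 0 = 1 ∧ X ^ (k + 1) ∣ p ^ 2 - (1 + C c * X) := by
  induction k with
  | zero => exact ⟨1, by simp, by simp⟩
  | succ k ih =>
    obtain ⟨p, h1, w, h3⟩ := ih
    refine ⟨p - C (w.eval 0 / 2) * X ^ (k + 1), by simp [h1], ?_⟩
    obtain ⟨v, hv⟩ : X ∣ w - 2 * C (w.eval 0 / 2) * p + C (w.eval 0 / 2) ^ 2 * X ^ (k + 1) := by
      rw [X_dvd_iff, coeff_zero_eq_eval_zero]
      simp [h1, mul_div_cancel₀ _ h2]
    exact ⟨v, by linear_combination h3 + X ^ (k + 1) * hv⟩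

theorem SK.exists_is {N : End F V} (h : SK B ε N) (hs : ∀ x, (∀ y, B y x = 0) → x = 0) {k : ℕ}
    (hk : N ^ k = 0) : ∃ a b, IS B ε a b ∧ a - b = N ∧ (a - 1) ^ k = 0 := by
  obtain ⟨p, h1, w, h2⟩ := exists_sqrt h.two (2⁻¹ ^ 2) k
  have h3 : ∀ (P : F[X]) x y, B (aeval N P x) y = B x (aeval N (P.comp (-X)) y) := fun P => by
    induction P using Polynomial.induction_on' with
    | add p q hp hq => simp [hp, hq]
    | monomial n c =>
      intro x y
      rw [monomial_comp, neg_pow, ← C_1, ← C_neg, ← C_pow]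
      simp [-map_pow, -map_neg, -map_one, map_pow (aeval N), aeval_monomial, h.pow_left, mul_left_comm]
  let P := p.comp (X ^ 2) + C 2⁻¹ * X
  have h4 : P.comp (-X) = p.comp (X ^ 2) - C 2⁻¹ * X := by simp [P, comp_assoc, sub_eq_add_neg]
  have h5 : aeval N (P.comp (-X) * P) = 1 := by
    have := congrArg (·.comp (X ^ 2)) h2
    simp only [sub_comp, add_comp, mul_comp, pow_comp, one_comp, C_comp, X_comp, C_pow] at this
    rw [h4, show (p.comp (X ^ 2) - C 2⁻¹ * X) * P = 1 + X ^ k * (X ^ (k + 2) * w.comp (X ^ 2)) by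
      linear_combination this]
    simp [hk]
  refine ⟨aeval N P, aeval N (P.comp (-X)), ⟨h.two, h.eps, h.symm, hs, fun x y => ?_,
    by rw [← map_mul, mul_comm, h5], by rw [← map_mul, h5]⟩, ?_, ?_⟩
  · rw [h3, ← End.mul_apply, ← map_mul, h5, End.one_apply]
  · rw [← map_sub, h4, add_sub_sub_cancel, ← add_mul, ← C_add, ← two_mul, mul_inv_cancel₀ h.two]
    simp
  · obtain ⟨v, hv⟩ : X ∣ P - 1 := by
      rw [X_dvd_iff, coeff_zero_eq_eval_zero]
      simp [P, eval_comp, h1]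
    rw [← map_one (aeval N : F[X] →ₐ[F] _), ← map_sub, ← map_pow, hv, mul_pow]
    simp [hk]

theorem exists_dec (h2 : (2 : F) ≠ 0) (hε : ε * ε = 1) {ι : Type} [Finite ι] (r : ι → ℕ) (s : ι → Bool)
    (hs : ∀ i, s i → (-1) ^ r i * ε = 1 ∧ ∀ l, s l → r l = r i → l = i) (δ : F) :
    ∃ (V : Type u) (_ : AddCommGroup V) (_ : Module F V) (B : V →ₗ[F] V →ₗ[F] F) (a b : End F V)
      (x : ι → Bool → V), IS B ε a b ∧ IsNilpotent (a - 1) ∧ Dec B ε δ a b r s (fun _ => false) x ⊥ := by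
  classical
  let β : Basis (ι × Bool × ℕ) F _ := Finsupp.basisSingleOne
  let g (p q : ι × Bool × ℕ) : F := (-1) ^ p.2.2 * if p.1 = q.1 ∧ p.2.2 + q.2.2 = r p.1 then
    gr ((-1) ^ r p.1 * ε) (if s p.1 then δ else 1) p.2.1 q.2.1 else 0
  let B := β.constr F fun p => β.constr F (g p)
  let N := β.constr F fun p => β (p.1, p.2.1, p.2.2 + 1)
  have h1 : ∀ p q, B (β p) (β q) = g p q := fun p q => by simp only [B, Basis.constr_basis]
  have h3 : ∀ j p, (N ^ j) (β p) = β (p.1, p.2.1, p.2.2 + j) := fun j p => by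
    induction j with
    | zero => rfl
    | succ j ih => rw [pow_succ', End.mul_apply, ih, Basis.constr_basis]; rfl
  have h4 : SK B ε N := ⟨h2, hε, fun x y => LinearMap.congr_fun₂ (LinearMap.ext_basis β β (B := B.flip)
    (B' := ε • B) fun ⟨i, u, j⟩ ⟨l, u', k⟩ => ?_) x y, fun x y => LinearMap.congr_fun₂ (LinearMap.ext_basis β β
      (B := B ∘ₗ N) (B' := -B.compl₂ N) fun ⟨i, u, j⟩ ⟨l, u', k⟩ => ?_) x y⟩
  rotate_left
  · simp only [LinearMap.flip_apply, LinearMap.smul_apply, h1, g, smul_eq_mul]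
    by_cases e : i = l ∧ j + k = r i
    swap
    · rw [if_neg e, if_neg fun e' : l = i ∧ k + j = r l => e ⟨e'.1.symm, by rw [← e'.1]; omega⟩]; simp
    obtain ⟨rfl, e⟩ := e
    rw [if_pos ⟨rfl, by omega⟩, if_pos (And.intro rfl e), ← e, pow_add]
    rcases mul_self_eq_one_iff.1 hε with rfl | rfl <;> rcases neg_one_pow_eq_or F j with e1 | e1 <;>
      rcases neg_one_pow_eq_or F k with e2 | e2 <;> cases u <;> cases u' <;>
        simp [gr, e1, e2, neg_eq_iff_add_eq_zero, one_add_one_eq_two, h2]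
  · simp only [LinearMap.comp_apply, LinearMap.neg_apply, LinearMap.compl₂_apply, N, Basis.constr_basis, h1, g,
      pow_succ, add_assoc, add_comm 1 k, mul_neg, mul_one, neg_mul]
  have h5 : LinearMap.ker B ≤ LinearMap.ker B.flip := fun x hx => LinearMap.ext fun y => by
    simp [h4.symm x y, LinearMap.mem_ker.1 hx]
  let W := LinearMap.ker B
  let N' := W.mapQ W N fun x hx => LinearMap.ext fun y => by simp [h4.skew, LinearMap.mem_ker.1 hx]
  have h6 : ∀ j y, (N' ^ j) (W.mkQ y) = W.mkQ ((N ^ j) y) := fun j y => by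
    induction j with
    | zero => rfl
    | succ j ih => rw [pow_succ', pow_succ', End.mul_apply, ih]; rfl
  obtain ⟨K, hK⟩ := (Set.finite_range r).bddAbove
  obtain ⟨a, b, h7, h8, h9⟩ := SK.exists_is (B := B.liftQ₂ W W le_rfl h5) (N := N') (k := K + 1) ⟨h2, hε,
    Quotient.ind₂ h4.symm, Quotient.ind₂ h4.skew⟩ (Quotient.ind fun x hx => (Quotient.mk_eq_zero W).2
      (LinearMap.ext fun y => (h4.symm y x).trans (mul_eq_zero_of_right _ (hx (W.mkQ y)))))
    (W.linearMap_qext (β.ext fun p => (h6 (K + 1) _).trans ((Quotient.mk_eq_zero W).2 (β.ext fun q => by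
      have := hK ⟨p.1, rfl⟩
      rw [h3, h1, LinearMap.zero_apply]
      exact mul_eq_zero_of_right _ (if_neg fun e => by simp at e; omega)))))
  refine ⟨_, _, _, _, a, b, fun i u => W.mkQ (β (i, u, 0)), h7, ⟨_, h9⟩, fun i u =>
    (End.mem_maxGenEigenspace _ _ _).2 ⟨K + 1, by simp [sg, h9]⟩, fun i u l u' j => ?_, fun i e =>
      ⟨(hs i e).1, fun l e1 e2 _ => (hs i e).2 l e1 e2⟩, by simp, by simp, by simp, by simp, ?_⟩
  · rw [h8, h6, h3]
    simpa [g] using h1 (i, u, 0) (l, u', 0 + j)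
  · rw [← W.range_mkQ, ← Submodule.map_top, ← β.span_eq, map_span, h8]
    refine (span_mono ?_).trans le_sup_left
    rintro _ ⟨_, ⟨p, rfl⟩, rfl⟩
    exact ⟨p, by simp only [h6, h3, zero_add]⟩

variable [FiniteDimensional F V] [FiniteDimensional F V'] {d d' : Dat F}

theorem Has.map (H : Has B ε δ a b d) (e : V ≃ₗ[F] V') (h1 : ∀ x y, B' (e x) (e y) = B x y)
    (h2 : ∀ x, e (a x) = a' (e x)) (h3 : ∀ x, e (b x) = b' (e x)) : Has B' ε δ a' b' d := by
  obtain ⟨ι, _, r, s, t, x, R, D, rfl⟩ := H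
  have h4 : ∀ {f : End F V} {f' : End F V'}, (∀ x, e (f x) = f' (e x)) → ∀ j x, e ((f ^ j) x) = (f' ^ j) (e x) :=
    fun h j x => by
      induction j with
      | zero => rfl
      | succ j ih => rw [pow_succ', pow_succ', End.mul_apply, h, ih]; rfl
  have h5 := h4 (f := a - b) (f' := a' - b') fun x => by simp [h2, h3]
  have h6 : ∀ c x, e x ∈ a'.maxGenEigenspace c ↔ x ∈ a.maxGenEigenspace c := fun c x => by
    simp only [End.mem_maxGenEigenspace, ← h4 (f := a - c • 1) (f' := a' - c • 1) fun x => by simp [h2],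
      e.map_eq_zero_iff]
  refine ⟨ι, ‹_›, r, s, t, fun i u => e (x i u), R.map e.toLinearMap, ⟨fun i u => (h6 _ _).2 (D.mem i u),
    fun i u l u' j => by rw [← h5, h1, D.gram], D.sgn, ?_, ?_, fun t y hy => ?_, ?_, ?_⟩, ?_⟩
  · rintro _ ⟨y, hy, rfl⟩; exact ⟨_, D.inv y hy, h2 y⟩
  · rintro _ ⟨y, hy, rfl⟩; exact ⟨_, D.inv' y hy, h3 y⟩
  · obtain ⟨y, rfl⟩ := e.surjective y
    rintro _ ⟨z, hz, rfl⟩
    exact (h1 _ _).trans (D.orth t y ((h6 _ _).1 hy) z hz)
  · rintro _ ⟨y, hy, rfl⟩ e1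
    rw [D.inj y hy (e.injective (by rw [h2, h2]; exact e1)), map_zero]
  · rw [← e.range, ← Submodule.map_top]
    refine (Submodule.map_mono D.gen).trans ?_
    rw [Submodule.map_sup, map_span]
    refine sup_le_sup_right (span_mono ?_) _
    rintro _ ⟨_, ⟨p, rfl⟩, rfl⟩
    exact ⟨p, (h5 _ _).symm⟩
  · exact congrArg _ (congrArg _ (Sim.ed_eq ⟨e.submoduleMap R, fun v => Subtype.ext (h2 v)⟩))

theorem Has.unique (h : IS B ε a b) (hu : IsNilpotent (a - 1)) (hδ : ¬ IsSquare δ) (H : Has B ε δ a b d)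
    (H' : Has B ε δ a b d') : d = d' := by
  classical
  have hδ0 : δ ≠ 0 := by rintro rfl; simp at hδ
  obtain ⟨ι, _, r, s, t, x, R, D, rfl⟩ := H
  obtain ⟨ι', _, r', s', t', x', R', D', rfl⟩ := H'
  obtain rfl := D.eq_bot hu
  obtain rfl := D'.eq_bot hu
  obtain rfl : t = fun _ => false := funext (D.t_eq h hu hδ0)
  obtain rfl : t' = fun _ => false := funext (D'.t_eq h hu hδ0)
  refine Prod.ext (Multiset.ext.2 fun ⟨j, u⟩ => ?_) (Prod.ext (Finset.ext fun ⟨j, u⟩ => ?_) rfl)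
  · have : Nonempty {u : Bool // (-1) ^ j * ε = 1 → u = false} := ⟨⟨false, fun _ => rfl⟩⟩
    have := (D.card_le h hδ0 D' j).antisymm (D'.card_le h hδ0 D j)
    rw [Nat.card_prod, Nat.card_prod, mul_left_inj' Nat.card_pos.ne', Nat.card_eq_fintype_card,
      Nat.card_eq_fintype_card, Fintype.card_subtype, Fintype.card_subtype] at this
    cases u
    · simpa [Multiset.count_map, eq_comm, Finset.card, Finset.filter] using this
    · simp [Multiset.count_map]
  · simp only [mem_image, mem_filter, mem_univ, true_and, Prod.mk.injEq]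
    exact ⟨fun ⟨i, e, e1, e2⟩ => (D'.sgn_imp h hδ D e).imp fun l e3 => ⟨e3.1, e3.2.trans e1, e2⟩,
      fun ⟨i, e, e1, e2⟩ => (D.sgn_imp h hδ D' e).imp fun l e3 => ⟨e3.1, e3.2.trans e1, e2⟩⟩

theorem ed_bot (a : End F (⊥ : Submodule F V)) : ed a = 0 := Multiset.eq_zero_of_forall_notMem fun x hx => by
  have := finrank_eq_sum_ed a
  rw [finrank_bot, eq_comm, Multiset.sum_eq_zero_iff] at this
  exact mul_ne_zero x.pos.ne' x.irred.natDegree_pos.ne' (this _ (Multiset.mem_map_of_mem _ hx))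

theorem Has.unip (h : IS B ε a b) (hu : IsNilpotent (a - 1)) (hδ : δ ≠ 0) (H : Has B ε δ a b d) :
    d.2.2 = 0 ∧ (∀ p ∈ d.1, p.2 = false) ∧ ∀ k, (a - 1) ^ k = 0 ↔ ∀ p ∈ d.1, p.1 < k := by
  obtain ⟨ι, _, r, s, t, x, R, D, rfl⟩ := H
  obtain rfl := D.eq_bot hu
  exact ⟨ed_bot _, by simpa using D.t_eq h hu hδ, fun k => by
    simp [← h.pow_eq_zero_iff hu, D.pow_eq_zero_iff h hδ]⟩

theorem exists_has [Finite F] (h2 : (2 : F) ≠ 0) (hε : ε * ε = 1) (hδ : δ ≠ 0) {e n : ℕ}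
    (he : ∀ r, (-1) ^ r * ε = 1 ↔ r % 2 = e) (hd : Valid e n d) (h0 : d.2.2 = 0) (h1 : ∀ p ∈ d.1, p.2 = false) :
    ∃ (V : Type u) (_ : AddCommGroup V) (_ : Module F V) (_ : FiniteDimensional F V) (B : V →ₗ[F] V →ₗ[F] F)
      (a b : End F V), IS B ε a b ∧ IsNilpotent (a - 1) ∧ finrank F V = n ∧ Has B ε δ a b d := by
  have h3 : ∀ i : d.1, (i.1.1, false) = i.1 := fun i => Prod.ext rfl (h1 _ Multiset.coe_mem).symm
  obtain ⟨V, _, _, B, a, b, x, h, hu, D⟩ := exists_dec h2 hε (ι := d.1) (·.1.1)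
    (fun i => decide (i.1 ∈ d.2.1 ∧ i.2.1 = 0)) (fun i e => by
      simp only [decide_eq_true_eq] at e ⊢
      exact ⟨(he _).2 (hd.mem _ e.1).1, fun l e1 e2 => d.1.coeEmbedding.injective
        (Prod.ext ((h3 l).symm.trans (e2 ▸ h3 i)) (e1.2.trans e.2.symm))⟩) δ
  obtain ⟨bs, -⟩ := D.exists_basis h hδ (Basis.empty (ι := Empty) _)
  have := Module.Finite.of_basis bs
  have H : Has B ε δ a b d := ⟨_, inferInstance, _, _, _, _, _, D, Prod.ext (by simp [h3]) (Prod.ext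
    (Finset.ext fun p => ?_) (h0.trans (ed_bot _).symm))⟩
  · exact ⟨V, _, _, this, B, a, b, h, hu, (H.valid h hδ he).sum.symm.trans hd.sum, H⟩
  simp only [h3, mem_image, mem_filter, mem_univ, true_and, decide_eq_true_eq]
  exact ⟨fun e => ⟨⟨p, 0, Multiset.count_pos.2 (hd.mem p e).2⟩, ⟨e, rfl⟩, rfl⟩, fun ⟨i, e, e'⟩ => e' ▸ e.1⟩

end Cfsg.Agent.H7.WU
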