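import Cfsg.Agent.H7.WX2
import Cfsg.Agent.H12.MaxU

/-!
The number of unipotent classes of symplectic groups in odd characteristic.
-/

set_option autoImplicit false
set_option linter.dupNamespace false

namespace Cfsg.Agent.H7.WU

open Module H28 Finset H13

/-- The partition attached to the block data. -/
def ptn (M : Multiset (ℕ × Bool)) : Multiset ℕ :=
  M.bind fun p => .replicate (if p.1 % 2 = 1 then 1 else 2) (p.1 + 1)

theorem mem_ptn {M : Multiset (ℕ × Bool)} {a : ℕ} : a ∈ ptn M ↔ ∃ p ∈ M, a = p.1 + 1 := by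
  simp [ptn, Multiset.mem_replicate, apply_ite (· = 0)]

theorem sum_ptn (M : Multiset (ℕ × Bool)) :
    (ptn M).sum = (M.map fun p => if p.1 % 2 = 1 then p.1 + 1 else 2 * (p.1 + 1)).sum := by
  simp [ptn, Multiset.sum_bind]

theorem count_ptn {M : Multiset (ℕ × Bool)} (h : ∀ p ∈ M, p.2 = false) (j : ℕ) :
    (ptn M).count (j + 1) = (if j % 2 = 1 then 1 else 2) * M.count (j, false) := by
  induction M using Multiset.induction_on with
  | empty => simp [ptn]
  | cons p M ih =>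
    obtain ⟨i, u⟩ := p
    obtain rfl : u = false := h _ (Multiset.mem_cons_self _ _)
    rw [ptn, Multiset.cons_bind, Multiset.count_add, ← ptn, ih fun p hp => h p (Multiset.mem_cons_of_mem hp),
      Multiset.count_cons, Multiset.count_replicate, mul_add, add_comm]
    by_cases e : i = j <;> simp [e, eq_comm (a := j)]

theorem exists_ptn (μ : Multiset ℕ) : ∃ M : Multiset (ℕ × Bool), ∀ p, M.count p =
    if p.2 then 0 else μ.count (p.1 + 1) / if p.1 % 2 = 1 then 1 else 2 :=
  ⟨Finsupp.toMultiset (.onFinset (μ.toFinset.image fun j => (j - 1, false))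
    (fun p => if p.2 then 0 else μ.count (p.1 + 1) / if p.1 % 2 = 1 then 1 else 2) fun ⟨j, u⟩ h =>
    mem_image.2 ⟨j + 1, by contrapose! h; simp [Multiset.count_eq_zero.2 (mt Multiset.mem_toFinset.2 h)],
      by cases u <;> simp_all⟩), Finsupp.count_toMultiset _⟩

variable {F V : Type*} [Field F] [AddCommGroup V] [Module F V] [FiniteDimensional F V] [Fintype F]
  {G : Type*} [Group G] {ρ : G →* End F V} {B : V →ₗ[F] V →ₗ[F] F}

open Classical in
theorem card_unip (h2 : (2 : F) ≠ 0) (h : Rl (σ := .id F) ρ B fun _ => 0) (D : H12.SD (σ := .id F) B)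
    {n : ℕ} (hn : finrank F V = n) (k : ℕ) :
    Nat.card {c : ConjClasses G // ∃ g, ConjClasses.mk g = c ∧ (ρ g - 1) ^ k = 0} =
      ∑ μ ∈ univ.filter (fun μ : n.Partition => (∀ a ∈ μ.parts, a ≤ k) ∧ ∀ j, Odd j → Even (μ.parts.count j)),
        2 ^ (μ.parts.toFinset.filter fun j => Even j).card := by
  obtain ⟨δ, hδ⟩ := FiniteField.exists_nonsquare (ringChar_ne_two_of_two_ne_zero h2)
  have hδ0 : δ ≠ 0 := by rintro rfl; simp at hδ
  have hI := is_of_rl (ε := -1) h h2 (by simp) (by simpa using D.skew) D.sep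
  have he : ∀ r, (-1 : F) ^ r * -1 = 1 ↔ r % 2 = 1 := fun r => by
    rw [← pow_succ, neg_one_pow_eq_one_iff_even fun e => h2 (by linear_combination -e), Nat.even_iff]
    omega
  simp only [← card_powerset]
  rw [← card_sigma, ← Nat.card_eq_finsetCard]
  choose M hM using exists_ptn
  have h1 : ∀ μ, ∀ p ∈ M μ, p.2 = false := fun μ p hp => by_contra fun e => by
    simpa [hM, e] using Multiset.count_pos.2 hp
  have h3 : ∀ μ : n.Partition, (∀ j, Odd j → Even (μ.parts.count j)) → ptn (M μ.parts) = μ.parts := fun μ hμ => by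
    ext (_ | j)
    · rw [Multiset.count_eq_zero.2 (by simp [mem_ptn]), Multiset.count_eq_zero.2 fun e => (μ.2 e).false]
    · have := hμ (j + 1)
      rw [count_ptn (h1 _), hM]
      simp only [Nat.odd_iff, Nat.even_iff] at this
      split_ifs <;> simp_all <;> omega
  set Z : Finset (Σ _ : n.Partition, Finset ℕ) := Finset.sigma _ _
  suffices ∀ z : Z, ∃ g, (ρ g - 1) ^ k = 0 ∧ Has B (-1) δ (ρ g) (ρ g⁻¹)
      (M z.1.1.parts, z.1.2.image fun j => (j - 1, false), 0) by
    choose g h4 h5 using this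
    refine Eq.symm (Nat.card_congr (.ofBijective (fun z => ⟨_, g z, rfl, h4 z⟩) ⟨fun z z' e => ?_, ?_⟩))
    · obtain ⟨c, hc⟩ := isConj_iff.1 (ConjClasses.mk_eq_mk_iff_isConj.1 (congrArg Subtype.val e))
      have := ((h5 z).map (.ofLinearMap (ρ c) (ρ c⁻¹) (hI c).ab (hI c).ba) (h.pres c) (fun x => by
        simp [← hc, (hI c).ba']) fun x => by simp [← hc, (hI c).ba', mul_assoc]).unique (hI _) ⟨_, h4 z'⟩ hδ (h5 z')
      obtain ⟨⟨μ, S⟩, hz⟩ := z
      obtain ⟨⟨μ', S'⟩, hz'⟩ := z'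
      simp only [Z, mem_sigma, mem_filter, mem_univ, true_and, mem_powerset, Prod.mk.injEq] at hz hz' this
      obtain rfl : μ = μ' := Nat.Partition.ext (by rw [← h3 μ hz.1.2, this.1, h3 μ' hz'.1.2])
      have h6 : ∀ {S : Finset ℕ}, S ⊆ μ.parts.toFinset.filter (Even ·) →
          (S.image fun j => (j - 1, false)).image (·.1 + 1) = S := fun {S} hS => by
        rw [image_image]
        exact (image_congr fun j hj => Nat.sub_add_cancel (μ.2 (Multiset.mem_toFinset.1
          (mem_filter.1 (hS hj)).1))).trans image_id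
      obtain rfl : S = S' := by rw [← h6 hz.2, this.2.1, h6 hz'.2]
      rfl
    · rintro ⟨_, x, rfl, hx⟩
      obtain ⟨d, H⟩ := (hI x).exists_has hδ
      obtain ⟨h6, h7, h8⟩ := H.unip (hI x) ⟨_, hx⟩ hδ0
      have h9 := H.valid (hI x) hδ0 he
      let z : Z := ⟨⟨⟨ptn d.1, by simp +contextual [mem_ptn], by simpa [h6, hn, sum_ptn] using h9.sum⟩,
        d.2.1.image (·.1 + 1)⟩, mem_sigma.2 ⟨mem_filter.2 ⟨mem_univ _, fun a ha => by
          obtain ⟨p, hp, rfl⟩ := mem_ptn.1 ha
          exact (h8 k).1 hx p hp, fun j hj => by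
            obtain ⟨j, rfl⟩ := hj
            simp [count_ptn h7]⟩, mem_powerset.2 (image_subset_iff.2 fun p hp => mem_filter.2
              ⟨Multiset.mem_toFinset.2 (mem_ptn.2 ⟨p, (h9.mem p hp).2, rfl⟩), (Nat.odd_iff.2 (h9.mem p hp).1).add_one⟩)⟩⟩
      suffices h10 : d = (M z.1.1.parts, z.1.2.image fun j => (j - 1, false), 0) by
        obtain ⟨e, h10, h11⟩ := (h5 z).exists_iso (hI _) (hI x) hδ0 (h10 ▸ H)
        exact ⟨z, Subtype.ext (ConjClasses.mk_eq_mk_iff_isConj.2 (h.isConj h10 (fun _ => rfl) h11))⟩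
      refine Prod.ext (Multiset.ext.2 fun ⟨j, u⟩ => ?_) (Prod.ext ?_ h6)
      · cases u
        · simp only [hM, z, count_ptn h7]
          split_ifs <;> simp_all
        · simpa [hM] using mt (h7 _) (by simp)
      · simp only [z, image_image]
        exact ((image_congr fun p hp => by simp [← h7 p (h9.mem p hp).2]).trans image_id).symm
  rintro ⟨⟨μ, S⟩, hz⟩
  simp only [Z, mem_sigma, mem_filter, mem_univ, true_and, mem_powerset] at hz
  obtain ⟨V, _, _, _, B', a, b, h4, h5, h6, H⟩ := exists_has (n := n) h2 (by simp) hδ0 he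
    (d := (M μ.parts, S.image fun j => (j - 1, false), 0)) ⟨fun p hp => by
      obtain ⟨j, hj, rfl⟩ := mem_image.1 hp
      obtain ⟨e1, e2⟩ := mem_filter.1 (hz.2 hj)
      obtain ⟨⟨i, u⟩, e3, rfl⟩ := mem_ptn.1 (h3 μ hz.1.2 ▸ Multiset.mem_toFinset.1 e1)
      obtain rfl : u = false := h1 _ _ e3
      exact ⟨by simpa [Nat.even_add_one, Nat.odd_iff] using e2, e3⟩, by simp, by simp [KG.gseq, Polynomial.reverse], by
        simp [← sum_ptn, h3 μ hz.1.2, μ.parts_sum]⟩ rfl (h1 _)
  obtain ⟨e, he⟩ := H12.SD.exists_isometry (σ := .id F) (B := B') ⟨fun _ => rfl, by simpa using h4.symm,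
    fun x hx => h4.sep x fun y => by rw [h4.symm, hx, mul_zero], fun x => ⟨0, by
      simpa using (h4.sk.self_eq_zero (i := 0) (by simp) x).symm⟩⟩ D (h6.trans hn.symm)
  obtain ⟨g, hg⟩ := (h.range (e.conj a)).2 ⟨fun x y => by simp [he, h4.pres, ← he (e.symm x)], fun _ => rfl⟩
  have h7 : ∀ x, e (a x) = ρ g (e x) := fun x => by simp [hg]
  replace H := H.map e he h7 fun x => by rw [← (hI g).ba' (e (b x)), ← h7, h4.ab']
  refine ⟨g, ((H.unip (hI g) (Sim.isNilpotent ⟨e, h7⟩ h5) hδ0).2.2 k).2 fun p hp => ?_, H⟩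
  exact hz.1.1 _ (h3 μ hz.1.2 ▸ mem_ptn.2 ⟨p, hp, rfl⟩)

end Cfsg.Agent.H7.WU
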