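import Cfsg.Agent.H7.WX3

/-!
Regular unipotent elements of symplectic groups in odd characteristic.
-/

set_option autoImplicit false
set_option linter.dupNamespace false

namespace Cfsg.Agent.H7.WU

open Module H28 Polynomial H13

variable {F V : Type*} [Field F] [AddCommGroup V] [Module F V] {B : V →ₗ[F] V →ₗ[F] F} {ε : F} {a b N : End F V}

theorem SK.aeval_left (h : SK B ε N) (P : F[X]) (x y : V) :
    B (aeval N P x) y = B x (aeval N (P.comp (-X)) y) := by
  induction P using Polynomial.induction_on' with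
  | add p q hp hq => simp [hp, hq]
  | monomial n c =>
    rw [monomial_comp, neg_pow, ← C_1, ← C_neg, ← C_pow]
    simp [-map_pow, -map_neg, -map_one, map_pow (aeval N), aeval_monomial, h.pow_left, mul_left_comm]

theorem exists_even_odd (P : F[X]) : ∃ e o, P = expand F 2 e + X * expand F 2 o := by
  induction P using Polynomial.induction_on' with
  | add p q hp hq =>
    obtain ⟨e, o, rfl⟩ := hp
    obtain ⟨e', o', rfl⟩ := hq
    exact ⟨e + e', o + o', by simp only [map_add]; ring⟩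
  | monomial n c =>
    obtain ⟨k, rfl | rfl⟩ := n.even_or_odd'
    exacts [⟨monomial k c, 0, by simp [mul_comm]⟩, ⟨0, monomial k c, by simp [mul_comm, monomial_mul_X]⟩]

theorem dvd_even_odd {m : ℕ} {e o : F[X]} :
    X ^ (2 * m) ∣ expand F 2 e + X * expand F 2 o ↔ X ^ m ∣ e ∧ X ^ m ∣ o := by
  refine ⟨fun h => ?_, ?_⟩
  · simp only [X_pow_dvd_iff] at h ⊢
    refine ⟨fun d hd => ?_, fun d hd => ?_⟩
    · rcases d with _ | d
      · simpa [coeff_expand] using h 0 (by omega)
      · simpa [coeff_expand, Nat.dvd_add_right, show (2 * d + 1 + 1) / 2 = d + 1 by omega]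
          using h (2 * d + 1 + 1) (by omega)
    · simpa [coeff_expand, Nat.dvd_add_right] using h (2 * d + 1) (by omega)
  · rintro ⟨⟨e, rfl⟩, o, rfl⟩
    exact ⟨expand F 2 e + X * expand F 2 o, by simp [pow_mul]; ring⟩

variable [FiniteDimensional F V]

theorem reg_iff (hu : IsNilpotent (a - 1)) (h0 : 0 < finrank F V) :
    finrank F (LinearMap.range (a - 1)) = finrank F V - 1 ↔ (a - 1) ^ (finrank F V - 1) ≠ 0 := by
  rw [ne_eq, pow_eq_zero_iff_jt hu]
  refine ⟨fun h => by simpa [jt_of_regular hu h0 h], fun h => ?_⟩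
  push Not at h
  obtain ⟨k, h1, h2⟩ := h
  obtain ⟨M, hM⟩ := Multiset.exists_cons_of_mem h1
  have h3 := sum_jt hu
  have h4 := (a - 1).finrank_range_add_finrank_ker
  rw [finrank_ker_sub_one hu] at h4
  rw [hM, Multiset.sum_cons] at h3
  obtain rfl : M = 0 := Multiset.eq_zero_of_forall_notMem fun l hl => by
    have := jt_pos (hM ▸ Multiset.mem_cons_of_mem hl)
    have := Multiset.single_le_sum (fun _ _ => Nat.zero_le _) l hl
    omega
  simp [hM] at h4
  omega

theorem IS.card_cent [Finite F] (h : IS B ε a b) {m : ℕ} (hm : 0 < m) (hn : finrank F V = 2 * m)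
    (hu : IsNilpotent (a - 1)) (hr : (a - 1) ^ (2 * m - 1) ≠ 0) :
    Nat.card {y : End F V // a * y = y * a ∧ ∀ v w, B (y v) (y w) = B v w} = 2 * Nat.card F ^ m := by
  set N := a - b
  have h1 : N ^ (2 * m) = 0 := (h.pow_eq_zero_iff hu _).2 ((pow_eq_zero_iff_jt hu _).2 fun k hk => by
    rw [← hn, ← sum_jt hu]; exact Multiset.single_le_sum (fun _ _ => Nat.zero_le _) k hk)
  have h2 := mt (h.pow_eq_zero_iff hu _).1 hr
  have h3 : IsNilpotent (N + 1 - 1) := ⟨_, by rwa [add_sub_cancel_right]⟩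
  have h4 := ed_eq_map h3
  rw [jt_of_regular h3 (by omega) ((reg_iff h3 (by omega)).2 (by rwa [add_sub_cancel_right, hn])),
    Multiset.map_singleton, ← ed_cyc, ← sim_iff_ed] at h4
  have h5 : ∀ P : F[X], aeval N P = 0 ↔ X ^ (2 * m) ∣ P := fun P => by
    have := h4.aeval_eq_zero_iff (P.comp (X - 1))
    rw [aeval_comp, aeval_cyc_eq_zero_iff] at this
    simp only [map_sub, aeval_X, map_one, add_sub_cancel_right] at this
    rw [this, show (upp F (finrank F V)).poly = (X ^ (2 * m)).comp (X - 1) by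
      simp [upp, PP.poly, hn, Nat.sub_add_cancel (show 1 ≤ 2 * m by omega)], ← C_1, dvd_comp_X_sub_C_iff]
    simp [comp_assoc]
  let ψ (e o : F[X]) := aeval N (expand F 2 e + X * expand F 2 o)
  have h6 : ∀ e o e' o', ψ e o = ψ e' o' ↔ X ^ m ∣ e - e' ∧ X ^ m ∣ o - o' := fun e o e' o' => by
    rw [← sub_eq_zero, ← map_sub, h5, ← dvd_even_odd, map_sub, map_sub]
    exact iff_of_eq (congrArg _ (by ring))
  have h7 : ∀ e o, (∀ v w, B (ψ e o v) (ψ e o w) = B v w) ↔ X ^ m ∣ e ^ 2 - (1 + X * o ^ 2) := fun e o => by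
    have h7 : (expand F 2 e + X * expand F 2 o).comp (-X) * (expand F 2 e + X * expand F 2 o) - 1 =
        expand F 2 (e ^ 2 - (1 + X * o ^ 2)) + X * expand F 2 0 := by
      simp [expand_eq_comp_X_pow, comp_assoc]; ring
    rw [← and_iff_left (dvd_zero (X ^ m : F[X])) (a := _ ∣ _), ← dvd_even_odd, ← h7, ← h5, map_sub, map_mul, map_one]
    exact ⟨fun e => LinearMap.ext fun w => h.sep _ fun v => by
      rw [LinearMap.sub_apply, map_sub, End.mul_apply, ← h.sk.aeval_left, e, End.one_apply, sub_self],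
      fun e v w => by rw [h.sk.aeval_left, ← End.mul_apply, sub_eq_zero.1 e]; rfl⟩
  obtain ⟨p, h8, w, h9⟩ := exists_sqrt h.two 1 m
  have h10 : ∀ o : F[X], X ^ m ∣ p.comp (X * o ^ 2) ^ 2 - (1 + X * o ^ 2) := fun o =>
    ⟨X * (o ^ 2) ^ (m + 1) * w.comp (X * o ^ 2), by
      have := congrArg (·.comp (X * o ^ 2)) h9
      simp only [sub_comp, add_comp, mul_comp, pow_comp, one_comp, X_comp, C_1] at this
      linear_combination this⟩
  have h11 : ∀ t, (C (sg F t) : F[X]) ^ 2 = 1 := fun t => by rw [← C_pow, _root_.sq, sg_mul_self, C_1]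
  have h12 : ∀ P : F[X], a * aeval N P = aeval N P * a := fun P => LinearMap.ext
    (intertwine_aeval a (LinearMap.congr_fun ((Commute.refl a).sub_right h.comm)) P)
  rw [← Nat.card_congr (Equiv.ofBijective (fun z : Bool × degreeLT F m => (⟨ψ (C (sg F z.1) *
    p.comp (X * z.2.1 ^ 2)) z.2.1, h12 _, (h7 _ _).2 (by rw [mul_pow, h11, one_mul]; exact h10 _)⟩ :
      {y : End F V // a * y = y * a ∧ ∀ v w, B (y v) (y w) = B v w})) ⟨?inj, ?surj⟩), Nat.card_prod,
        Nat.card_congr (degreeLTEquiv F m).toEquiv]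
  · simp [Nat.card_fun]
  case inj =>
    rintro ⟨t, o⟩ ⟨t', o'⟩ e
    obtain ⟨e1, e2⟩ := (h6 _ _ _ _).1 (congrArg Subtype.val e)
    obtain rfl : o = o' := Subtype.ext (sub_eq_zero.1 (eq_zero_of_dvd_of_degree_lt e2
      (degree_X_pow (R := F) m ▸ mem_degreeLT.1 (sub_mem o.2 o'.2))))
    have := X_pow_dvd_iff.1 e1 0 hm
    revert this
    cases t <;> cases t' <;> simp [coeff_zero_eq_eval_zero, eval_comp, h8, sg, h.two, one_add_one_eq_two,
      sub_eq_zero, neg_eq_iff_add_eq_zero]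
  case surj =>
    rintro ⟨y, h12, h13⟩
    obtain ⟨P, rfl⟩ := exists_aeval_of_commute h4 (b := y) (by
      have : b * y = y * b := by
        rw [← mul_one (b * y), ← h.ab, ← mul_assoc, mul_assoc b, ← h12, ← mul_assoc, h.ba, one_mul]
      simp [N, add_mul, mul_add, sub_mul, mul_sub, h12, this])
    obtain ⟨e, o, h14⟩ := exists_even_odd (P.comp (X + 1))
    have h15 : aeval (N + 1) P = ψ e o := by simp only [ψ]; rw [← h14, aeval_comp]; simp
    have h16 : X ^ m ∣ o %ₘ X ^ m - o := dvd_modByMonic_sub _ _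
    have h17 := (h7 e o).1 (h15 ▸ h13)
    obtain ⟨t, ht⟩ : ∃ t, e.eval 0 = sg F t := by
      have := X_pow_dvd_iff.1 h17 0 hm
      simpa [coeff_zero_eq_eval_zero, sub_eq_zero, sg] using this
    refine ⟨(t, ⟨o %ₘ X ^ m, mem_degreeLT.2 (degree_X_pow (R := F) m ▸ degree_modByMonic_lt _ (monic_X_pow m))⟩),
      Subtype.ext (((h6 _ _ _ _).2 ⟨?_, h16⟩).trans h15.symm)⟩
    refine ((irreducible_X.coprime_iff_not_dvd (n := C (sg F t) * p.comp (X * (o %ₘ X ^ m) ^ 2) + e)).2
      ?_).pow_left.dvd_of_dvd_mul_right ?_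
    · cases t <;> simp [X_dvd_iff, coeff_zero_eq_eval_zero, eval_comp, h8, ht, sg, h.two, one_add_one_eq_two,
        neg_add_eq_sub, sub_eq_zero, neg_eq_iff_add_eq_zero]
    · convert ((h10 (o %ₘ X ^ m)).sub h17).add (h16.mul_left (X * (o %ₘ X ^ m + o))) using 1
      linear_combination p.comp (X * (o %ₘ X ^ m) ^ 2) ^ 2 * h11 t

end Cfsg.Agent.H7.WU
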